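import Mathlib

/-!
# Integer column combinatorics for principal 3-blocks with defect group `3^{1+2}_+`
-/

set_option autoImplicit false
set_option linter.unusedSectionVars false

namespace Cfsg.Agent.Blk.E27

open Finset

variable {ι : Type*} [DecidableEq ι] {s : Finset ι}

theorem bessel {κ : Type*} [Fintype κ] [DecidableEq κ] (f : κ → ι → ℤ) (N : κ → ℤ)
    (hf : ∀ a b, ∑ χ ∈ s, f a χ * f b χ = if a = b then N a else 0) (hN : ∀ a, 0 < N a) {χ : ι}
    (hχ : χ ∈ s) : ∑ a, (f a χ : ℚ) ^ 2 / N a ≤ 1 := by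
  have hf' : ∀ a b, ∑ χ ∈ s, (f a χ : ℚ) * f b χ = if a = b then (N a : ℚ) else 0 := fun a b => by
    exact_mod_cast hf a b
  have hN' : ∀ a, (N a : ℚ) ≠ 0 := fun a => by exact_mod_cast (hN a).ne'
  let c : κ → ℚ := fun a => f a χ / N a
  have h1 : 0 ≤ ∑ ψ ∈ s, ((if ψ = χ then 1 else 0) - ∑ a, c a * f a ψ) ^ 2 :=
    sum_nonneg fun _ _ => sq_nonneg _
  have h2 : ∑ ψ ∈ s, (∑ a, c a * f a ψ) ^ 2 = ∑ a, (f a χ : ℚ) ^ 2 / N a := by
    simp only [sq, sum_mul_sum]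
    rw [sum_comm]
    refine sum_congr rfl fun a _ => ?_
    rw [sum_comm, sum_eq_single a]
    · rw [sum_congr rfl fun ψ _ => mul_mul_mul_comm (c a) _ _ _, ← mul_sum, hf', if_pos rfl]
      simp only [c]
      field_simp [hN' a]
    · intro b _ hb
      rw [sum_congr rfl fun ψ _ => mul_mul_mul_comm (c a) _ _ _, ← mul_sum, hf', if_neg hb.symm,
        mul_zero]
    · simp
  have h3 : ∑ a, c a * f a χ = ∑ a, (f a χ : ℚ) ^ 2 / N a :=
    sum_congr rfl fun a _ => by simp only [c]; ring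
  simp only [sub_sq, sum_add_distrib, sum_sub_distrib, h2, ite_pow, one_pow, mul_ite, mul_one,
    mul_zero, ite_mul, zero_mul, sum_ite_eq', if_pos hχ, h3] at h1
  simp only [ne_eq, OfNat.ofNat_ne_zero, not_false_eq_true, zero_pow, sum_ite_eq', if_pos hχ] at h1
  linarith

theorem card_le_of_orth {κ : Type*} [Fintype κ] [DecidableEq κ] (f : κ → ι → ℤ) (N : κ → ℤ)
    (hf : ∀ a b, ∑ χ ∈ s, f a χ * f b χ = if a = b then N a else 0) (hN : ∀ a, 0 < N a) :
    Fintype.card κ ≤ s.card := by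
  have h1 := sum_le_sum fun χ (hχ : χ ∈ s) => bessel f N hf hN hχ
  rw [sum_comm, sum_congr rfl (g := fun _ => (1 : ℚ)) fun a _ => by
    have : ∑ χ ∈ s, (f a χ : ℚ) * f a χ = N a := by exact_mod_cast (hf a a).trans (if_pos rfl)
    rw [← sum_div, sum_congr rfl fun χ _ => sq (f a χ : ℚ), this,
      div_self (by exact_mod_cast (hN a).ne')]] at h1
  simpa using h1

theorem card_le_sum_sq {a : ι → ℤ} (h : ∀ χ ∈ s, a χ ≠ 0) : (s.card : ℤ) ≤ ∑ χ ∈ s, a χ * a χ := by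
  have := sum_le_sum fun χ (hχ : χ ∈ s) => (show (1 : ℤ) ≤ a χ * a χ from mul_self_pos.2 (h χ hχ))
  simpa using this

theorem eq_zero_of_sum_sq {a : ι → ℤ} (h : ∑ χ ∈ s, a χ * a χ = 0) : ∀ χ ∈ s, a χ = 0 :=
  fun χ hχ => mul_self_eq_zero.1 ((sum_eq_zero_iff_of_nonneg fun _ _ => mul_self_nonneg _).1 h χ hχ)

theorem single {a d : ι → ℤ} (h : ∑ χ ∈ s, a χ * a χ = 1) (hd : ∀ χ ∈ s, d χ ≠ 0) :
    ∑ χ ∈ s, d χ * a χ ≠ 0 := by
  obtain ⟨o, ho, e⟩ := exists_ne_zero_of_sum_ne_zero (h.trans_ne one_ne_zero)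
  have h1 : 0 ≤ ∑ χ ∈ s.erase o, a χ * a χ := sum_nonneg fun _ _ => mul_self_nonneg _
  have h2 : 1 ≤ a o * a o := (mul_self_nonneg _).lt_of_ne' e
  rw [← add_sum_erase _ _ ho] at h ⊢
  rw [sum_eq_zero fun χ hχ => by
    rw [eq_zero_of_sum_sq (a := a) (by omega) χ hχ, mul_zero], add_zero]
  exact mul_ne_zero (hd o ho) (mul_self_ne_zero.1 e)

theorem parity {a d : ι → ℤ} (hd : ∀ χ ∈ s, Odd (d χ)) (h : ∑ χ ∈ s, d χ * a χ = 0) :
    Even (∑ χ ∈ s, a χ * a χ) := by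
  have h1 : Even (∑ χ ∈ s, (d χ * a χ + a χ * a χ)) := even_sum _ fun χ hχ => by
    rw [← add_mul, Int.even_mul, Int.even_add, ← Int.not_odd_iff_even (n := d χ)]
    have := hd χ hχ
    rw [← Int.not_odd_iff_even (n := a χ)]
    tauto
  rwa [sum_add_distrib, h, zero_add] at h1

theorem sum_split (t : ι → ℤ) (F : ι → ℤ) : ∑ χ ∈ s, F χ =
    ∑ χ ∈ s with ¬ 3 ∣ t χ, F χ + ∑ χ ∈ s with 3 ∣ t χ, F χ := by
  rw [add_comm, sum_filter_add_sum_filter_not]

theorem col9 {d t : ι → ℤ} {o : ι} (ho : o ∈ s) (hdo : d o = 1) (hto : t o = 1)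
    (h9 : ∑ χ ∈ s, d χ * d χ = 9) (hdt : ∀ χ ∈ s, 3 ∣ d χ - t χ) (h0 : ∑ χ ∈ s, d χ * t χ = 0) :
    (∀ χ ∈ s, 3 ∣ t χ ↔ d χ = 0) ∧ ((s.filter fun χ => ¬ 3 ∣ t χ).card = 6 ∨
      (s.filter fun χ => ¬ 3 ∣ t χ).card = 9 ∧ ∀ χ ∈ s.filter fun χ => ¬ 3 ∣ t χ, Odd (d χ)) := by
  have h1 : ∀ χ ∈ s, d χ * d χ ≤ 8 := fun χ hχ => by
    by_cases e : χ = o
    · rw [e, hdo]; norm_num
    · rw [← add_sum_erase _ _ ho, ← add_sum_erase _ _ (mem_erase.2 ⟨e, hχ⟩), hdo] at h9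
      have : 0 ≤ ∑ ψ ∈ (s.erase o).erase χ, d ψ * d ψ := sum_nonneg fun _ _ => mul_self_nonneg _
      omega
  have h2 : ∀ χ ∈ s, -2 ≤ d χ ∧ d χ ≤ 2 := fun χ hχ => by
    have := h1 χ hχ
    constructor <;> nlinarith
  have h3 : ∀ χ ∈ s, 3 ∣ t χ ↔ d χ = 0 := fun χ hχ => by
    have := h2 χ hχ
    have := hdt χ hχ
    omega
  refine ⟨h3, ?_⟩
  set s₀ := s.filter fun χ => ¬ 3 ∣ t χ
  have hs : ∀ F : ι → ℤ, ∑ χ ∈ s, d χ * F χ = ∑ χ ∈ s₀, d χ * F χ := fun F => by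
    rw [sum_split t, sum_eq_zero (s := s.filter fun χ => 3 ∣ t χ) fun χ hχ => by
      rw [(h3 χ (mem_filter.1 hχ).1).1 (mem_filter.1 hχ).2, zero_mul], add_zero]
  have h4 : ∀ χ ∈ s₀, d χ * d χ = 1 + if Odd (d χ) then 0 else 3 := fun χ hχ => by
    have := h2 χ (mem_filter.1 hχ).1
    have h5 := mt (h3 χ (mem_filter.1 hχ).1).2 (mem_filter.1 hχ).2
    obtain e | e | e | e : d χ = -2 ∨ d χ = -1 ∨ d χ = 1 ∨ d χ = 2 := by omega
    all_goals rw [e]; decide
  rw [hs, sum_congr rfl h4, sum_add_distrib, sum_ite, sum_const_zero, zero_add, sum_const,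
    sum_const] at h9
  have h5 := card_filter_add_card_filter_not (s := s₀) fun χ => Odd (d χ)
  have ho' : o ∈ s₀.filter fun χ => Odd (d χ) := by
    simp only [s₀, mem_filter, hto, hdo]
    exact ⟨⟨ho, by decide⟩, odd_one⟩
  have h6 := card_pos.2 ⟨o, ho'⟩
  simp only [nsmul_eq_mul, mul_one] at h9
  have h7 : (s₀.filter fun χ => Odd (d χ)).card ≠ 1 := fun e => by
    obtain ⟨a, ha⟩ := card_eq_one.1 e
    have h8 : Even (∑ χ ∈ s₀.filter fun χ => ¬ Odd (d χ), d χ * t χ) := even_sum _ fun χ hχ =>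
      (Int.not_odd_iff_even.1 (mem_filter.1 hχ).2).mul_right _
    rw [hs, ← sum_filter_add_sum_filter_not s₀ fun χ => Odd (d χ), ha, sum_singleton,
      ← mem_singleton.1 (ha.le ho'), hdo, hto] at h0
    obtain ⟨k, hk⟩ := h8
    omega
  by_cases e : (s₀.filter fun χ => ¬ Odd (d χ)).card = 0
  · refine .inr ⟨by omega, fun χ hχ => ?_⟩
    by_contra e'
    exact absurd e (card_pos.2 ⟨χ, mem_filter.2 ⟨hχ, e'⟩⟩).ne'
  · left
    omega

variable {J R : Type*} [Fintype J] [Fintype R] [DecidableEq J] [DecidableEq R]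

theorem comb [Nonempty R] {d : R → ι → ℤ} {X v : J → ι → ℤ} {t : ι → ℤ} {w : J → ℤ} {o : ι}
    (hc : Fintype.card J + Fintype.card R = 6) (ho : o ∈ s) (hdo : ∀ u, d u o = 1) (hto : t o = 1)
    (hd : ∀ u u', ∑ χ ∈ s, d u χ * d u' χ = if u = u' then 9 else 0)
    (hdt : ∀ u, ∀ χ ∈ s, 3 ∣ d u χ - t χ) (h0 : ∀ u, ∑ χ ∈ s, d u χ * t χ = 0)
    (hX : ∀ i, ∀ χ ∈ s, 3 ∣ X i χ - t χ * w i) (hw : ∀ i, ¬ 3 ∣ w i)
    (hXX : ∀ i j, ∑ χ ∈ s, X i χ * X j χ = if i = j then 18 else 0)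
    (hvv : ∀ i j, ∑ χ ∈ s, v i χ * v j χ = if i = j then 2 else 0)
    (hXv : ∀ i j, ∑ χ ∈ s, X i χ * v j χ = if i = j then 3 else 0)
    (hdX : ∀ u i, ∑ χ ∈ s, d u χ * X i χ = 0) (hdv : ∀ u i, ∑ χ ∈ s, d u χ * v i χ = 0)
    (hrow : ∀ χ ∈ s, ∃ i, X i χ ≠ 0 ∨ v i χ ≠ 0)
    (hk : 2 * Fintype.card J + Fintype.card R < s.card) :
    (s.filter fun χ => ¬ 3 ∣ t χ).card = 6 ∧ s.card = 6 + 2 * Fintype.card J := by
  have c9 := fun u => col9 ho (hdo u) hto ((hd u u).trans (if_pos rfl)) (hdt u) (h0 u)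
  obtain ⟨u₀⟩ := ‹Nonempty R›
  have hsc := card_filter_add_card_filter_not (s := s) fun χ => 3 ∣ t χ
  set s₀ := s.filter fun χ => ¬ 3 ∣ t χ with hs₀
  set s₁ := s.filter fun χ => 3 ∣ t χ with hs₁
  have hs : ∀ u (F : ι → ℤ), ∑ χ ∈ s, d u χ * F χ = ∑ χ ∈ s₀, d u χ * F χ := fun u F => by
    rw [sum_split t, sum_eq_zero (s := s₁) fun χ hχ => by
      rw [((c9 u).1 χ (mem_filter.1 hχ).1).1 (mem_filter.1 hχ).2, zero_mul], add_zero]
  have d0 : ∀ u, ∀ χ ∈ s₀, d u χ ≠ 0 := fun u χ hχ =>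
    mt ((c9 u).1 χ (mem_filter.1 hχ).1).2 (mem_filter.1 hχ).2
  have X0 : ∀ i, ∀ χ ∈ s₀, X i χ ≠ 0 := fun i χ hχ e => by
    have := hX i χ (mem_filter.1 hχ).1
    rw [e, zero_sub, dvd_neg] at this
    exact (Int.prime_three.dvd_or_dvd this).elim (mem_filter.1 hχ).2 (hw i)
  obtain ⟨σ, hσ⟩ : ∃ σ : J → ι → ℤ, ∀ i, ∀ χ ∈ s₁, X i χ = 3 * σ i χ :=
    ⟨fun i χ => X i χ / 3, fun i χ hχ => (Int.mul_ediv_cancel' (by
      have := dvd_add (hX i χ (mem_filter.1 hχ).1) ((mem_filter.1 hχ).2.mul_right (w i))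
      rwa [sub_add_cancel] at this)).symm⟩
  let q : J → ι → ℤ := fun i χ => σ i χ * σ i χ - σ i χ * v i χ + v i χ * v i χ
  have q0 : ∀ i χ, 0 ≤ q i χ := fun i χ => by
    simp only [q]; nlinarith [sq_nonneg (2 * σ i χ - v i χ), sq_nonneg (v i χ)]
  have q1 : ∀ i χ, σ i χ ≠ 0 ∨ v i χ ≠ 0 → 1 ≤ q i χ := fun i χ e => by
    have : 0 < q i χ := by
      simp only [q]
      rcases e with e | e
      · nlinarith [sq_nonneg (2 * v i χ - σ i χ), sq_pos_of_ne_zero e]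
      · nlinarith [sq_nonneg (2 * σ i χ - v i χ), sq_pos_of_ne_zero e]
    omega
  have q2 : ∀ χ ∈ s₁, ∑ i, q i χ = 1 := fun χ hχ => by
    have h1 := bessel (s := s) (κ := J ⊕ J) (Sum.elim v fun i χ => 2 * X i χ - 3 * v i χ)
      (Sum.elim (fun _ => 2) fun _ => 54) (by
        have e1 : ∀ i j, ∑ χ ∈ s, v i χ * (2 * X j χ - 3 * v j χ) = 0 := fun i j => by
          simp only [mul_sub, sum_sub_distrib, mul_left_comm (v i _), ← mul_sum, hvv,
            mul_comm (v i _) (X j _), hXv, eq_comm (a := j)]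
          split_ifs <;> simp
        rintro (i | i) (j | j)
        · simpa using hvv i j
        · simpa using e1 i j
        · simpa [mul_comm] using e1 j i
        · have : ∀ χ, (2 * X i χ - 3 * v i χ) * (2 * X j χ - 3 * v j χ) = 4 * (X i χ * X j χ) -
              6 * (X i χ * v j χ) - 6 * (X j χ * v i χ) + 9 * (v i χ * v j χ) := fun χ => by ring
          simp only [Sum.elim_inr, this, sum_add_distrib, sum_sub_distrib, ← mul_sum, hXX, hXv, hvv,
            eq_comm (a := j), Sum.inr.injEq]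
          split_ifs <;> simp)
      (by rintro (i | i) <;> simp) (mem_filter.1 hχ).1
    rw [Fintype.sum_sum_type, ← sum_add_distrib, sum_congr rfl (g := fun i => 2 / 3 * (q i χ : ℚ))
      fun i _ => by simp only [Sum.elim_inl, Sum.elim_inr, hσ i χ hχ, q]; push_cast; ring,
      ← mul_sum] at h1
    have h2 : ((2 * ∑ i, q i χ : ℤ) : ℚ) ≤ (3 : ℤ) := by push_cast; linarith
    obtain ⟨i, hi⟩ := hrow χ (mem_filter.1 hχ).1
    have h3 := (q1 i χ (hi.imp_left fun e e' => e (by rw [hσ i χ hχ, e', mul_zero]))).trans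
      (single_le_sum (fun j _ => q0 j χ) (mem_univ i))
    have := Int.cast_le.1 h2
    omega
  have hs1 : (s₁.card : ℤ) = ∑ i, ∑ χ ∈ s₁, q i χ := by
    rw [sum_comm, sum_congr rfl q2]; simp
  have h6 : 6 ≤ s₀.card := by rcases (c9 u₀).2 with e | e <;> omega
  have hA : ∀ i j, ∑ χ ∈ s₀, X i χ * X j χ + 9 * ∑ χ ∈ s₁, σ i χ * σ j χ =
      if i = j then 18 else 0 := fun i j => by
    rw [← hXX, sum_split (s := s) t, mul_sum]
    congr 1
    exact sum_congr rfl fun χ hχ => by rw [hσ i χ hχ, hσ j χ hχ]; ring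
  have hB : ∀ i j, ∑ χ ∈ s₀, X i χ * v j χ + 3 * ∑ χ ∈ s₁, σ i χ * v j χ =
      if i = j then 3 else 0 := fun i j => by
    rw [← hXv, sum_split (s := s) t, mul_sum]
    congr 1
    exact sum_congr rfl fun χ hχ => by rw [hσ i χ hχ]; ring
  have typ : ∀ i, (∑ χ ∈ s₁, σ i χ * σ i χ = 1 ∧ ∑ χ ∈ s₁, q i χ = 2) ∨ ((∀ χ ∈ s₁, v i χ = 0) ∧
      ∑ χ ∈ s₁, q i χ = ∑ χ ∈ s₁, σ i χ * σ i χ) := fun i => by
    have h1 := (sum_split t _).symm.trans ((hvv i i).trans (if_pos rfl))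
    have h2 : ∑ χ ∈ s₀, v i χ * v i χ ≠ 1 := fun e => single e (d0 u₀) ((hs _ _).symm.trans (hdv _ i))
    have h3 : 0 ≤ ∑ χ ∈ s₀, v i χ * v i χ := sum_nonneg fun _ _ => mul_self_nonneg _
    have h4 : 0 ≤ ∑ χ ∈ s₁, v i χ * v i χ := sum_nonneg fun _ _ => mul_self_nonneg _
    by_cases e : ∑ χ ∈ s₁, v i χ * v i χ = 0
    · exact .inr ⟨eq_zero_of_sum_sq e, sum_congr rfl fun χ hχ => by
        simp only [q, eq_zero_of_sum_sq e χ hχ]; ring⟩
    have h5 := hB i i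
    rw [if_pos rfl, sum_eq_zero fun χ hχ => by
      rw [eq_zero_of_sum_sq (a := v i) (s := s₀) (by rw [← hs₀, ← hs₁] at h1; omega) χ hχ,
        mul_zero]] at h5
    have h7 := (hA i i).trans (if_pos rfl)
    have h8 := card_le_sum_sq (X0 i)
    have h9 : ∑ χ ∈ s₁, σ i χ * σ i χ ≠ 0 := fun e => by
      rw [sum_eq_zero fun χ hχ => by rw [eq_zero_of_sum_sq e χ hχ, zero_mul]] at h5
      omega
    have h10 : 0 ≤ ∑ χ ∈ s₁, σ i χ * σ i χ := sum_nonneg fun _ _ => mul_self_nonneg _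
    left
    simp only [q, sum_add_distrib, sum_sub_distrib]
    rw [← hs₀, ← hs₁] at h1
    omega
  rcases (c9 u₀).2 with e6 | ⟨e9, hodd⟩
  · refine ⟨e6, ?_⟩
    have h2 : ∀ i, ∑ χ ∈ s₁, q i χ = 2 := fun i => by
      refine (typ i).elim And.right fun ⟨hv, _⟩ => ?_
      exfalso
      have hx : ∀ a b, a ≠ b → ∑ χ ∈ s₀, X a χ * X b χ = 0 := fun a b hab => by
        have := hA a b
        rwa [if_neg hab, sum_eq_zero (s := s₁) fun χ hχ => by
          by_contra e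
          have h3 := q1 a χ (.inl (left_ne_zero_of_mul e))
          have h4 := q1 b χ (.inl (right_ne_zero_of_mul e))
          have h5 := sum_le_sum_of_subset_of_nonneg (subset_univ {a, b}) fun j _ _ => q0 j χ
          rw [sum_pair hab, q2 χ hχ] at h5
          omega, mul_zero, add_zero] at this
      have hxv : ∀ a, ∑ χ ∈ s₀, X a χ * v i χ = if a = i then 3 else 0 := fun a => by
        rw [← hB, sum_eq_zero (s := s₁) fun χ hχ => by rw [hv χ hχ, mul_zero], mul_zero, add_zero]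
      set N := ∑ χ ∈ s₀, X i χ * X i χ with hN
      let y : ι → ℤ := fun χ => N * v i χ - 3 * X i χ
      have hy : ∀ F : ι → ℤ, ∑ χ ∈ s₀, F χ * y χ =
          N * ∑ χ ∈ s₀, F χ * v i χ - 3 * ∑ χ ∈ s₀, F χ * X i χ := fun F => by
        simp only [y, mul_sum, ← sum_sub_distrib]
        exact sum_congr rfl fun _ _ => by ring
      have y1 : ∀ u, ∑ χ ∈ s₀, d u χ * y χ = 0 := fun u => by
        rw [hy, ← hs, ← hs, hdv, hdX]; simp
      have y2 : ∀ a, ∑ χ ∈ s₀, X a χ * y χ = 0 := fun a => by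
        rw [hy, hxv]
        split_ifs with e
        · rw [e, ← hN]; ring
        · rw [hx a i e]; simp
      have y3 : 0 < ∑ χ ∈ s₀, y χ * y χ := by
        refine (sum_nonneg fun _ _ => mul_self_nonneg _).lt_of_ne' fun e => ?_
        have h3 := card_le_sum_sq (s := s₀) (a := v i) fun χ hχ e' => X0 i χ hχ (by
          have := eq_zero_of_sum_sq e χ hχ
          simp only [y, e'] at this
          omega)
        have h1 := (sum_split t _).symm.trans ((hvv i i).trans (if_pos rfl))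
        have h4 : 0 ≤ ∑ χ ∈ s₁, v i χ * v i χ := sum_nonneg fun _ _ => mul_self_nonneg _
        rw [← hs₀, ← hs₁] at h1
        omega
      have := card_le_of_orth (s := s₀) (κ := Option (J ⊕ R)) (fun a => a.elim y (Sum.elim X d))
        (fun a => a.elim (∑ χ ∈ s₀, y χ * y χ) (Sum.elim (fun j => ∑ χ ∈ s₀, X j χ * X j χ)
          fun _ => 9)) (by
          rintro (_ | a | a) (_ | b | b)
          · simp
          · simpa [mul_comm] using y2 b
          · simpa [mul_comm] using y1 b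
          · simpa using y2 a
          · by_cases e : a = b
            · simp [e]
            · simpa [e] using hx a b e
          · simpa [mul_comm] using (hs _ _).symm.trans (hdX b a)
          · simpa using y1 a
          · simpa using (hs _ _).symm.trans (hdX a b)
          · simpa using (hs _ _).symm.trans (hd a b))
        (by
          rintro (_ | a | a)
          · exact y3
          · have := card_le_sum_sq (X0 a)
            simp only [Option.elim_some, Sum.elim_inl]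
            omega
          · simp)
      rw [Fintype.card_option, Fintype.card_sum] at this
      omega
    rw [sum_congr rfl fun i _ => h2 i] at hs1
    simp only [sum_const, card_univ, nsmul_eq_mul] at hs1
    omega
  · exfalso
    have h2 : ∀ i, ∑ χ ∈ s₁, q i χ = 0 := fun i => by
      obtain ⟨k, hk⟩ := parity hodd ((hs _ _).symm.trans (hdX u₀ i))
      have h7 := (hA i i).trans (if_pos rfl)
      have h8 := card_le_sum_sq (X0 i)
      have h10 : 0 ≤ ∑ χ ∈ s₁, σ i χ * σ i χ := sum_nonneg fun _ _ => mul_self_nonneg _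
      rcases typ i with e | e <;> omega
    rw [sum_congr rfl fun i _ => h2 i, sum_const_zero] at hs1
    obtain ⟨u, hu⟩ := Fintype.exists_ne_of_one_lt_card (α := R) (by omega) u₀
    obtain ⟨k, hk⟩ := parity hodd ((hs _ _).symm.trans ((hd u₀ u).trans (if_neg hu.symm)))
    rw [← hs, hd, if_pos rfl] at hk
    omega

end Cfsg.Agent.Blk.E27
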