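import Mathlib
import Cfsg.Agent.GT.TransferFrobenius
import Cfsg.Agent.Inv.SylowElt
import Cfsg.Agent.FG.ClassCount

/-!
# Fusion in an extraspecial Sylow subgroup of order 27 whose centre is central in the normalizer
-/

set_option autoImplicit false
set_option linter.style.haveILetI false
set_option linter.unusedSectionVars false

namespace Cfsg.Agent.Blk.E27

open Cfsg.Agent.GT Subgroup

variable {G : Type*} [Group G] [Finite G]

instance : Fact (Nat.Prime 3) := ⟨Nat.prime_three⟩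

theorem zp_cases {z x : G} (hz : orderOf z = 3) (hx : x ∈ zpowers z) :
    x = 1 ∨ x = z ∨ x = z⁻¹ := by
  classical
  rw [mem_zpowers_iff_mem_range_orderOf, hz] at hx
  obtain ⟨k, hk, rfl⟩ := Finset.mem_image.1 hx
  have h3 : z ^ 3 = 1 := hz ▸ pow_orderOf_eq_one z
  have := Finset.mem_range.1 hk
  interval_cases k
  · exact .inl (pow_zero _)
  · exact .inr (.inl (pow_one _))
  · exact .inr (.inr (eq_inv_of_mul_eq_one_left (by rw [← pow_succ]; exact h3)))

theorem exists_norm {p : ℕ} [Fact p.Prime] (P : Sylow p G) {K : Subgroup G}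
    (h : (P : Subgroup G) ≤ K) {g : G} (h' : ∀ x ∈ (P : Subgroup G), g * x * g⁻¹ ∈ K) :
    ∃ k ∈ K, k * g ∈ normalizer ((P : Subgroup G) : Set G) := by
  obtain ⟨k, hk, e⟩ := Inv.exists_conj_mem_sylow_of_le (Q := (P : Subgroup G).map
    (MulAut.conj g).toMonoidHom) (H := K) (P.isPGroup'.map _)
    (by rintro _ ⟨x, hx, rfl⟩; exact h' x hx) P h
  refine ⟨k, hk, Tr.mem_normalizer_of_conj_mem fun a ha => ?_⟩
  have : k * (g * a * g⁻¹) * k⁻¹ ∈ (P : Subgroup G) := e _ ⟨a, ha, rfl⟩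
  simpa [mul_assoc] using this

theorem comm_zp {z n c : G} (hn : n * z = z * n) (hc : c ∈ zpowers z) : n * c = c * n := by
  obtain ⟨k, rfl⟩ := hc
  exact (Commute.zpow_right hn k :)

/-- The stabilizer of the coset `v ⟨z⟩` in `C(z)`. -/
def stab (z v : G) : Subgroup G where
  carrier := {k | k * z = z * k ∧ ∃ d ∈ zpowers z, k * v * k⁻¹ = v * d}
  one_mem' := ⟨by simp, 1, one_mem _, by simp⟩
  mul_mem' := by
    rintro a b ⟨ha, d, hd, e⟩ ⟨hb, d', hd', e'⟩
    refine ⟨(Commute.mul_left ha hb :), d * d', mul_mem hd hd', ?_⟩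
    calc _ = a * (b * v * b⁻¹) * a⁻¹ := by group
      _ = (a * v * a⁻¹) * (a * d' * a⁻¹) := by rw [e']; group
      _ = _ := by rw [e, comm_zp ha hd']; group
  inv_mem' := by
    rintro a ⟨ha, d, hd, e⟩
    refine ⟨(Commute.inv_left ha :), d⁻¹, inv_mem hd, ?_⟩
    calc _ = a⁻¹ * (v * d) * (d⁻¹ * a) := by group
      _ = _ := by rw [← e, ← comm_zp ha (inv_mem hd)]; group

theorem cube_fix {n x w : G} (e : n * x * n⁻¹ = x * w) (hw : n * w = w * n) (h3 : w ^ 3 = 1) :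
    n ^ 3 * x = x * n ^ 3 := by
  have h1 : n * x = x * w * n := mul_inv_eq_iff_eq_mul.1 e
  have h2 : Commute w n := hw.symm
  calc _ = n * (n * (n * x)) := by rw [pow_succ, pow_two]; group
    _ = x * (w * n * (w * n) * (w * n)) := by
      simp only [← mul_assoc, h1]
    _ = x * (w * n) ^ 3 := by rw [pow_succ, pow_two]
    _ = _ := by rw [h2.mul_pow, h3, one_mul]

/-- Representatives of the classes of `3`-elements. -/
structure LD {ι : Type*} (z : G) (u : ι → G) : Prop where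
  oz : orderOf z = 3
  ou : ∀ i, orderOf (u i) = 3
  rep : ∀ g : G, (∃ k, orderOf g = 3 ^ k) →
    g = 1 ∨ IsConj g z ∨ IsConj g z⁻¹ ∨ ∃ i, IsConj g (u i)
  zz : ¬ IsConj z z⁻¹
  zu : ∀ i, ¬ IsConj z (u i)
  zu' : ∀ i, ¬ IsConj z⁻¹ (u i)
  inj : ∀ i j, IsConj (u i) (u j) → i = j
  nc : ∀ i, HasNormalPComplement 3 (centralizer ({u i} : Set G)) ∧
    3 ^ (Nat.card (centralizer ({u i} : Set G))).factorization 3 = 9

/-- `P` is extraspecial of order 27 and exponent 3, with centre `⟨z⟩` central in `N(P)`. -/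
structure Hy (P : Sylow 3 G) (z : G) : Prop where
  card : Nat.card (P : Subgroup G) = 27
  exp : ∀ x ∈ (P : Subgroup G), x ^ 3 = 1
  mem : z ∈ (P : Subgroup G)
  ord : orderOf z = 3
  com : ∀ a ∈ (P : Subgroup G), ∀ b ∈ (P : Subgroup G), a * b * a⁻¹ * b⁻¹ ∈ zpowers z
  zc : ∀ u ∈ (P : Subgroup G), (∀ x ∈ (P : Subgroup G), x * u = u * x) → u ∈ zpowers z
  nz : ∀ n ∈ normalizer ((P : Subgroup G) : Set G), n * z = z * n

namespace Hy

variable {P : Sylow 3 G} {z : G} (h : Hy P z)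
include h

theorem cen {x : G} (hx : x ∈ (P : Subgroup G)) : x * z = z * x := h.nz x (le_normalizer hx)

theorem cube : z ^ 3 = 1 := h.exp z h.mem

theorem zz : z * z = z⁻¹ := eq_inv_of_mul_eq_one_left (by rw [← h.cube, pow_succ, pow_two])

theorem ne_one : z ≠ 1 := fun e => by have := h.ord; rw [e, orderOf_one] at this; omega

theorem ne_inv : z ≠ z⁻¹ := fun e => h.ne_one (mul_left_cancel (a := z) (by
  rw [h.zz, mul_one, ← e]))

theorem zle : zpowers z ≤ (P : Subgroup G) := zpowers_le_of_mem h.mem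

theorem le_cen : (P : Subgroup G) ≤ centralizer ({z} : Set G) := fun _ hx =>
  mem_centralizer_singleton_iff.2 (h.cen hx)

theorem inv : Hy P z⁻¹ :=
  ⟨h.card, h.exp, inv_mem h.mem, (orderOf_inv z).trans h.ord, by simpa using h.com,
    by simpa using h.zc, fun n hn => (Commute.inv_right (h.nz n hn) :)⟩

theorem three {u : G} (hu : u ∈ (P : Subgroup G)) (h1 : u ≠ 1) : orderOf u = 3 :=
  orderOf_eq_prime (h.exp u hu) h1

theorem conj_eq {a u : G} (ha : a ∈ (P : Subgroup G)) (hu : u ∈ (P : Subgroup G)) :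
    ∃ c ∈ zpowers z, a * u * a⁻¹ = u * c :=
  ⟨_, h.com a ha u hu, by rw [comm_zp (h.cen hu) (h.com a ha u hu)]; group⟩

theorem le_stab {u : G} (hu : u ∈ (P : Subgroup G)) : (P : Subgroup G) ≤ stab z u :=
  fun _ hx => ⟨h.cen hx, h.conj_eq hx hu⟩

theorem sup_le_stab {u : G} (hu : u ∈ (P : Subgroup G)) :
    (P : Subgroup G) ⊔ centralizer ((P : Subgroup G) : Set G) ≤ stab z u :=
  sup_le (h.le_stab hu) fun x hx => ⟨(hx z h.mem).symm, 1, one_mem _, by rw [← hx u hu]; group⟩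

theorem mov {u : G} (hu : u ∈ (P : Subgroup G)) (hz : u ∉ zpowers z) :
    ∃ a ∈ (P : Subgroup G), a * u * a⁻¹ = u * z := by
  obtain ⟨a, ha, e⟩ : ∃ a ∈ (P : Subgroup G), a * u ≠ u * a := by
    by_contra! e
    exact hz (h.zc u hu e)
  obtain ⟨c, hc, e'⟩ := h.conj_eq ha hu
  rcases zp_cases h.ord hc with rfl | rfl | rfl
  · exact absurd (mul_inv_eq_iff_eq_mul.1 (by simpa using e')) e
  · exact ⟨a, ha, e'⟩
  · refine ⟨a * a, mul_mem ha ha, ?_⟩
    have h1 : a * z⁻¹ * a⁻¹ = z⁻¹ := by rw [h.inv.cen ha, mul_inv_cancel_right]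
    calc a * a * u * (a * a)⁻¹ = a * (a * u * a⁻¹) * a⁻¹ := by group
      _ = a * (u * z⁻¹) * a⁻¹ := by rw [e']
      _ = (a * u * a⁻¹) * (a * z⁻¹ * a⁻¹) := by group
      _ = u * z := by rw [e', h1, mul_assoc, h.inv.zz, inv_inv]

theorem mov' {u c : G} (hu : u ∈ (P : Subgroup G)) (hz : u ∉ zpowers z) (hc : c ∈ zpowers z) :
    ∃ a ∈ (P : Subgroup G), a * u * a⁻¹ = u * c := by
  rcases zp_cases h.ord hc with rfl | rfl | rfl
  · exact ⟨1, one_mem _, by simp⟩
  · exact h.mov hu hz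
  · exact h.inv.mov hu (by simpa using hz)

theorem not_conj_inv : ¬ IsConj z z⁻¹ := fun e => by
  obtain ⟨g, hg⟩ := isConj_iff.1 e
  obtain ⟨k, hk, hn⟩ := exists_norm P h.le_cen (g := g) fun x hx => by
    rw [mem_centralizer_singleton_iff]
    have h1 : g * x * g⁻¹ * z⁻¹ = z⁻¹ * (g * x * g⁻¹) := by
      rw [← hg]
      calc _ = g * (x * z) * g⁻¹ := by group
        _ = _ := by rw [h.cen hx]; group
    simpa using (Commute.inv_right h1).eq
  have h2 := h.nz _ hn
  have h3 : k * z⁻¹ = z⁻¹ * k := (Commute.inv_right (mem_centralizer_singleton_iff.1 hk) :)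
  apply h.ne_inv
  calc z = k * g * z * (k * g)⁻¹ := by rw [h2]; group
    _ = k * (g * z * g⁻¹) * k⁻¹ := by group
    _ = z⁻¹ := by rw [hg, h3]; group

/-- `z` is isolated in `P`. -/
theorem iso {u : G} (hu : u ∈ (P : Subgroup G)) (e : IsConj z u) : u = z := by
  by_cases hz : u ∈ zpowers z
  · rcases zp_cases h.ord hz with rfl | rfl | rfl
    · exact absurd (isConj_one_left.1 e) h.ne_one
    · rfl
    · exact absurd e h.not_conj_inv
  exfalso
  obtain ⟨g, hg⟩ := isConj_iff.1 e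
  have hzu := h.cen hu
  obtain ⟨c, hc, hv⟩ := Inv.exists_conj_mem_sylow_of_le (Q := zpowers (g⁻¹ * z * g))
    (H := centralizer ({z} : Set G)) (Inv.isPGroup_zpowers_of_orderOf (k := 1) (by
      rw [pow_one, ← h.ord]
      simpa using orderOf_injective (MulAut.conj g⁻¹).toMonoidHom (MulAut.conj g⁻¹).injective z))
    (zpowers_le_of_mem (mem_centralizer_singleton_iff.2 (by
      calc _ = g⁻¹ * (z * (g * z * g⁻¹)) * g := by group
        _ = g⁻¹ * ((g * z * g⁻¹) * z) * g := by rw [hg, hzu]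
        _ = _ := by group))) P h.le_cen
  have hc' := mem_centralizer_singleton_iff.1 hc
  replace hv := hv _ (mem_zpowers _)
  set v := c * (g⁻¹ * z * g) * c⁻¹ with hvd
  have hvz : v ∉ zpowers z := fun e' => by
    have h1 : IsConj z v := isConj_iff.2 ⟨c * g⁻¹, by rw [hvd]; group⟩
    have h2 : v = z := by
      rcases zp_cases h.ord e' with e'' | e'' | e''
      · rw [e''] at h1; exact absurd (isConj_one_left.1 h1) h.ne_one
      · exact e''
      · rw [e''] at h1; exact absurd h1 h.not_conj_inv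
    have h3 : g⁻¹ * z * g = z := by
      calc _ = c⁻¹ * v * c := by rw [hvd]; group
        _ = c⁻¹ * (z * c) := by rw [h2, mul_assoc]
        _ = z := by rw [← hc']; group
    have h4 : g * z * g⁻¹ = z := by
      calc _ = g * (g⁻¹ * z * g) * g⁻¹ := by rw [h3]
        _ = z := by group
    exact hz (by rw [← hg, h4]; exact mem_zpowers z)
  obtain ⟨a, ha, e1⟩ := h.mov hu hz
  obtain ⟨a', ha', e2⟩ := h.mov hv hvz
  set b := (c * g⁻¹)⁻¹ * a' * (c * g⁻¹) with hb
  have hcz : c⁻¹ * z * c = z := by rw [mul_assoc, ← hc']; group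
  have b1 : b * z * b⁻¹ = z * u := by
    calc _ = g * c⁻¹ * (a' * v * a'⁻¹) * c * g⁻¹ := by rw [hb, hvd]; group
      _ = z * (g * (c⁻¹ * z * c) * g⁻¹) := by rw [e2, hvd]; group
      _ = _ := by rw [hcz, hg]
  have b2 : b * u * b⁻¹ = u := by
    calc _ = g * c⁻¹ * (a' * (c * z * c⁻¹) * a'⁻¹) * c * g⁻¹ := by rw [hb, ← hg]; group
      _ = g * (c⁻¹ * z * c) * g⁻¹ := by
        rw [hc', mul_inv_cancel_right, h.cen ha', mul_inv_cancel_right]; group
      _ = u := by rw [hcz, hg]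
  have a1 : a * z * a⁻¹ = z := by rw [h.cen ha, mul_inv_cancel_right]
  refine h.not_conj_inv (isConj_iff.2 ⟨b * a * b, ?_⟩)
  calc _ = b * (a * (b * z * b⁻¹) * a⁻¹) * b⁻¹ := by group
    _ = b * ((a * z * a⁻¹) * (a * u * a⁻¹)) * b⁻¹ := by rw [b1]; group
    _ = b * (u * z⁻¹) * b⁻¹ := by rw [a1, e1, ← mul_assoc z, ← hzu, mul_assoc u, h.zz]
    _ = (b * u * b⁻¹) * (b * z * b⁻¹)⁻¹ := by group
    _ = z⁻¹ := by rw [b1, b2]; group

theorem not_conj {u c : G} (hu : u ∈ (P : Subgroup G)) (hz : u ∉ zpowers z) (hc : c ∈ zpowers z) :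
    ¬ IsConj c u := fun e => by
  rcases zp_cases h.ord hc with rfl | rfl | rfl
  · exact hz (by rw [isConj_one_right.1 e]; exact one_mem _)
  · exact hz (by rw [h.iso hu e]; exact mem_zpowers _)
  · exact hz (by rw [h.inv.iso hu e]; exact hc)

/-- `C_P(u) = ⟨z, u⟩` has order 9. -/
theorem inf_cen {u : G} (hu : u ∈ (P : Subgroup G)) (hz : u ∉ zpowers z) :
    (P : Subgroup G) ⊓ centralizer {u} = zpowers z ⊔ zpowers u ∧
      Nat.card ((P : Subgroup G) ⊓ centralizer {u} : Subgroup G) = 9 := by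
  have h1 : zpowers z ⊔ zpowers u ≤ (P : Subgroup G) ⊓ centralizer {u} :=
    sup_le (zpowers_le_of_mem ⟨h.mem, mem_centralizer_singleton_iff.2 (h.cen hu).symm⟩)
      (zpowers_le_of_mem ⟨hu, mem_centralizer_singleton_iff.2 rfl⟩)
  have h2 : (P : Subgroup G) ⊓ centralizer {u} ≠ P := fun e =>
    hz (h.zc u hu fun x hx => mem_centralizer_singleton_iff.1 (e.ge hx).2)
  have h3 : zpowers z ≠ zpowers z ⊔ zpowers u := fun e => hz (e.ge (mem_sup_right (mem_zpowers u)))
  have h4 : Nat.card ((P : Subgroup G) ⊓ centralizer {u} : Subgroup G) < 27 := by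
    by_contra! e
    exact h2 (eq_of_le_of_card_ge inf_le_left (h.card ▸ e))
  have h5 : 3 < Nat.card (zpowers z ⊔ zpowers u : Subgroup G) := by
    by_contra! e
    exact h3 (eq_of_le_of_card_ge le_sup_left (by rwa [Nat.card_zpowers, h.ord]))
  obtain ⟨i, hi, e1⟩ := (Nat.dvd_prime_pow Nat.prime_three (m := 3)).1
    ((card_dvd_of_le (inf_le_left : (P : Subgroup G) ⊓ centralizer {u} ≤ P)).trans h.card.dvd)
  obtain ⟨j, hj, e2⟩ := (Nat.dvd_prime_pow Nat.prime_three (m := 3)).1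
    ((card_dvd_of_le (h1.trans inf_le_left)).trans h.card.dvd)
  have h6 := card_le_of_le h1
  rw [e1] at h4
  rw [e2] at h5
  rw [e1, e2] at h6
  have : i = 2 ∧ j = 2 := by interval_cases i <;> interval_cases j <;> simp_all
  obtain ⟨rfl, rfl⟩ := this
  exact ⟨(eq_of_le_of_card_ge h1 (by rw [e1, e2])).symm, e1⟩

theorem comm_of {u n w : G} (hu : u ∈ (P : Subgroup G)) (hz : u ∉ zpowers z) (h1 : n * z = z * n)
    (h2 : n * u = u * n) (hw : w ∈ (P : Subgroup G)) (hwu : w * u = u * w) : n * w = w * n := by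
  have h3 : zpowers z ⊔ zpowers u ≤ centralizer {n} :=
    sup_le (zpowers_le_of_mem (mem_centralizer_singleton_iff.2 h1.symm))
      (zpowers_le_of_mem (mem_centralizer_singleton_iff.2 h2.symm))
  exact (mem_centralizer_singleton_iff.1 (h3 ((h.inf_cen hu hz).1.le
    ⟨hw, mem_centralizer_singleton_iff.2 hwu⟩))).symm

/-- A `3`-subgroup of `C(u)` has order at most 9. -/
theorem card_lt {u : G} (hu : u ∈ (P : Subgroup G)) (hz : u ∉ zpowers z) {Q : Subgroup G}
    (hQ : IsPGroup 3 Q) (hC : Q ≤ centralizer {u}) (huQ : u ∈ Q) : Nat.card Q < 27 := by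
  by_contra! e
  obtain ⟨g, hg⟩ := Inv.exists_conj_mem_sylow_of_isPGroup hQ P
  have h1 : Q.map (MulAut.conj g).toMonoidHom = P :=
    eq_of_le_of_card_ge (by rintro _ ⟨x, hx, rfl⟩; exact hg x hx)
      (by rwa [h.card, card_map_of_injective (MulAut.conj g).injective])
  refine h.not_conj hu hz (h.zc _ (hg u huQ) fun x hx => ?_) (isConj_iff.2 ⟨g, rfl⟩).symm
  obtain ⟨y, hy, rfl⟩ := h1.ge hx
  have := mem_centralizer_singleton_iff.1 (hC hy)
  calc _ = g * (y * u) * g⁻¹ := by simp [mul_assoc]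
    _ = _ := by rw [this]; simp [mul_assoc]

theorem exists_sylow {u : G} (hu : u ∈ (P : Subgroup G)) (hz : u ∉ zpowers z) :
    ∃ Q : Sylow 3 (centralizer ({u} : Set G)), (∀ x : centralizer ({u} : Set G),
      x ∈ (Q : Subgroup (centralizer ({u} : Set G))) ↔ (x : G) ∈ (P : Subgroup G)) ∧
      Nat.card (Q : Subgroup (centralizer ({u} : Set G))) = 9 := by
  set C := centralizer ({u} : Set G)
  obtain ⟨Q, hQ⟩ := (P.isPGroup'.comap_subtype (K := C)).exists_le_sylow
  have h1 : Nat.card ((P : Subgroup G).comap C.subtype) = 9 := by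
    rw [← (h.inf_cen hu hz).2, ← subgroupOf, ← inf_subgroupOf_right]
    exact Nat.card_congr (subgroupOfEquivOfLe inf_le_right).toEquiv
  have huC : u ∈ C := mem_centralizer_singleton_iff.2 rfl
  have h2 := h.card_lt hu hz (Q.isPGroup'.map C.subtype) (map_subtype_le _)
    ⟨⟨u, huC⟩, hQ hu, rfl⟩
  rw [card_map_of_injective C.subtype_injective] at h2
  obtain ⟨k, hk⟩ := IsPGroup.iff_card.1 Q.isPGroup'
  have h3 := card_le_of_le hQ
  have h4 : k = 2 := by
    rw [h1, hk] at h3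
    rw [hk] at h2
    have := (Nat.pow_lt_pow_iff_right (a := 3) (m := 3) (by norm_num)).1 h2
    interval_cases k <;> simp_all
  have h5 := eq_of_le_of_card_ge hQ (by rw [h1, hk, h4]; norm_num)
  exact ⟨Q, fun x => by rw [← h5]; rfl, by rw [hk, h4]; norm_num⟩

theorem nc {u : G} (hu : u ∈ (P : Subgroup G)) (hz : u ∉ zpowers z) :
    HasNormalPComplement 3 (centralizer ({u} : Set G)) ∧
      3 ^ (Nat.card (centralizer ({u} : Set G))).factorization 3 = 9 := by
  obtain ⟨Q, hQ, h9⟩ := h.exists_sylow hu hz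
  refine ⟨Tr.hasNormalPComplement_of_normalizer_le_centralizer Q fun g hg x hx => Subtype.ext ?_,
    by rw [← Q.card_eq_multiplicity, h9]⟩
  have hzC : z ∈ centralizer ({u} : Set G) := mem_centralizer_singleton_iff.2 (h.cen hu).symm
  have h1 := (hQ _).1 (Tr.conj_mem_of_mem_normalizer hg ((hQ ⟨z, hzC⟩).2 h.mem))
  have h2 := h.iso h1 (isConj_iff.2 ⟨g, rfl⟩)
  exact (h.comm_of hu hz (mul_inv_eq_iff_eq_mul.1 h2) (mem_centralizer_singleton_iff.1 g.2)
    ((hQ x).1 hx) (mem_centralizer_singleton_iff.1 x.2)).symm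

/-- The normalizer of `P` controls fusion. -/
theorem fus {u g : G} (hu : u ∈ (P : Subgroup G)) (hz : u ∉ zpowers z)
    (hu' : g * u * g⁻¹ ∈ (P : Subgroup G)) :
    ∃ n ∈ normalizer ((P : Subgroup G) : Set G), n * u * n⁻¹ = g * u * g⁻¹ := by
  set v := g * u * g⁻¹ with hv
  have hvz : v ∉ zpowers z := fun e => h.not_conj hu hz e (isConj_iff.2 ⟨g, rfl⟩).symm
  obtain ⟨Q, hQ, -⟩ := h.exists_sylow hu' hvz
  have h0 : g * z * g⁻¹ ∈ centralizer ({v} : Set G) := mem_centralizer_singleton_iff.2 (by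
    calc _ = g * (z * u) * g⁻¹ := by rw [hv]; group
      _ = _ := by rw [← h.cen hu, hv]; group)
  obtain ⟨c, hc⟩ := Inv.exists_conj_mem_sylow (x := (⟨_, h0⟩ : centralizer ({v} : Set G))) (k := 1)
    (by rw [← orderOf_coe, pow_one, ← h.ord]
        simpa using orderOf_injective (MulAut.conj g).toMonoidHom (MulAut.conj g).injective z) Q
  have h1 : (c : G) * g * z * ((c : G) * g)⁻¹ = z := by
    refine h.iso (by simpa [mul_assoc] using (hQ _).1 hc) (isConj_iff.2 ⟨_, rfl⟩)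
  have h2 : (c : G) * g * u * ((c : G) * g)⁻¹ = v := by
    calc _ = c * (g * u * g⁻¹) * (c : G)⁻¹ := by group
      _ = v := by rw [← hv, mem_centralizer_singleton_iff.1 c.2]; group
  set t := (c : G) * g
  have ht : t * z = z * t := mul_inv_eq_iff_eq_mul.1 h1
  obtain ⟨k, ⟨-, d, hd, e⟩, hn⟩ := exists_norm P (K := stab z v) (h.le_stab hu')
    (g := t) fun x hx => ⟨(((Commute.mul_left ht (h.cen hx)).mul_left
      (Commute.inv_left ht)) :), by
        obtain ⟨d, hd, e⟩ := h.conj_eq hx hu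
        refine ⟨d, hd, ?_⟩
        calc _ = t * (x * u * x⁻¹) * t⁻¹ := by rw [← h2]; group
          _ = (t * u * t⁻¹) * (t * d * t⁻¹) := by rw [e]; group
          _ = _ := by rw [h2, comm_zp ht hd]; group⟩
  obtain ⟨a, ha, e'⟩ := h.mov' hu' hvz hd
  refine ⟨a⁻¹ * (k * t), mul_mem (inv_mem (le_normalizer ha)) hn, ?_⟩
  calc _ = a⁻¹ * (k * (t * u * t⁻¹) * k⁻¹) * a := by group
    _ = v := by rw [h2, e, ← e']; group

omit h in
theorem sup_le_norm : (P : Subgroup G) ⊔ centralizer ((P : Subgroup G) : Set G) ≤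
    normalizer ((P : Subgroup G) : Set G) := sup_le le_normalizer (centralizer_le_normalizer _)

/-- `N(P) / P C(P)` acts freely on the nontrivial elements of `P / ⟨z⟩`. -/
theorem free {u n : G} (hu : u ∈ (P : Subgroup G)) (hz : u ∉ zpowers z)
    (hn : n ∈ normalizer ((P : Subgroup G) : Set G)) (hs : n ∈ stab z u) :
    n ∈ (P : Subgroup G) ⊔ centralizer ((P : Subgroup G) : Set G) := by
  obtain ⟨h1, c, hc, e⟩ := hs
  have h2 := cube_fix e (comm_zp h1 hc) (h.exp c (h.zle hc))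
  have h3 : n ^ 3 * z = z * n ^ 3 := (Commute.pow_left h1 3 :)
  have h4 : (n ^ 3) ^ 3 ∈ centralizer ((P : Subgroup G) : Set G) := fun x hx => by
    set m := n ^ 3
    have hw : x⁻¹ * (m * x * m⁻¹) ∈ (P : Subgroup G) :=
      mul_mem (inv_mem hx) (Tr.conj_mem_of_mem_normalizer (pow_mem hn 3) hx)
    refine (cube_fix (w := x⁻¹ * (m * x * m⁻¹)) (by group) (h.comm_of hu hz h3 h2 hw ?_)
      (h.exp _ hw)).symm
    obtain ⟨d, hd, e'⟩ := h.conj_eq hx hu
    have h5 : m⁻¹ * u = u * m⁻¹ := (Commute.inv_left h2 :)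
    calc _ = x⁻¹ * (m * (x * u * x⁻¹) * m⁻¹) * (m * x * m⁻¹) := by
          rw [mul_assoc _ _ u, mul_assoc _ _ u, h5]; group
      _ = x⁻¹ * (x * u * x⁻¹) * (m * x * m⁻¹) := by
          rw [e', ← mul_assoc m, h2, mul_assoc u, comm_zp h3 hd]; group
      _ = _ := by group
  obtain ⟨a, ha, b, hb, hak, hb', rfl⟩ := Tr.exists_pPart_mul_pPrimePart (p := 3) n
  refine mul_mem (mem_sup_left ?_) (mem_sup_right ?_)
  · obtain ⟨k, hk⟩ := hak
    exact ((Inv.isPGroup_zpowers_of_orderOf hk).inf_normalizer_sylow P).le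
      ⟨mem_zpowers a, zpowers_le_of_mem hn ha⟩ |>.2
  · refine zpowers_le_of_mem (?_ : b ^ 9 ∈ _) (mem_zpowers_pow_iff.2
      (Nat.Coprime.pow_left 2 hb'.symm))
    obtain ⟨k, hk⟩ := hb
    rw [← pow_mul] at h4
    have := zpow_mem h4 k
    rwa [← zpow_natCast, ← zpow_mul, mul_comm, zpow_mul, zpow_natCast, show (a * b) ^ k = b from hk]
      at this

theorem ncard_class {u : G} (hu : u ∈ (P : Subgroup G)) (hz : u ∉ zpowers z) :
    {y | y ∈ (P : Subgroup G) ∧ IsConj u y}.ncard = 3 * ((P : Subgroup G) ⊔ centralizer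
      ((P : Subgroup G) : Set G)).relIndex (normalizer ((P : Subgroup G) : Set G)) := by
  have h1 : {y | y ∈ (P : Subgroup G) ∧ IsConj u y} =
      {y | ∃ n ∈ normalizer ((P : Subgroup G) : Set G), n * u * n⁻¹ = y} := by
    ext y
    constructor
    · rintro ⟨hy, e⟩
      obtain ⟨g, rfl⟩ := isConj_iff.1 e
      exact h.fus hu hz hy
    · rintro ⟨n, hn, rfl⟩
      exact ⟨Tr.conj_mem_of_mem_normalizer hn hu, isConj_iff.2 ⟨n, rfl⟩⟩
  have h2 : {y | ∃ n ∈ (P : Subgroup G) ⊔ centralizer ((P : Subgroup G) : Set G),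
      n * u * n⁻¹ = y} = (u * ·) '' zpowers z := by
    ext y
    constructor
    · rintro ⟨n, hn, rfl⟩
      obtain ⟨-, d, hd, e⟩ := h.sup_le_stab hu hn
      exact ⟨d, hd, e.symm⟩
    · rintro ⟨d, hd, rfl⟩
      obtain ⟨a, ha, e⟩ := h.mov' hu hz hd
      exact ⟨a, mem_sup_left ha, e⟩
  have h3 := congrArg Set.ncard h2
  rw [FG.ncard_conj_orbit_subgroup, Set.ncard_image_of_injective _ (mul_right_injective u),
    ← Nat.card_coe_set_eq, SetLike.coe_sort_coe, Nat.card_zpowers, h.ord] at h3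
  have h4 : centralizer ({u} : Set G) ⊓ normalizer ((P : Subgroup G) : Set G) =
      centralizer ({u} : Set G) ⊓ ((P : Subgroup G) ⊔ centralizer ((P : Subgroup G) : Set G)) :=
    le_antisymm (fun n hn => ⟨hn.1, h.free hu hz hn.2 ⟨h.nz n hn.2, 1, one_mem _, by
      rw [mem_centralizer_singleton_iff.1 hn.1]; group⟩⟩) (inf_le_inf_left _ sup_le_norm)
  rw [h1, FG.ncard_conj_orbit_subgroup, ← inf_relIndex_right, h4,
    ← relIndex_mul_relIndex _ _ _ inf_le_right sup_le_norm, inf_relIndex_right, h3]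

theorem real (h2 : 2 ∣ ((P : Subgroup G) ⊔ centralizer ((P : Subgroup G) : Set G)).relIndex
    (normalizer ((P : Subgroup G) : Set G))) {u : G} (hu : u ∈ (P : Subgroup G))
    (hz : u ∉ zpowers z) : ∃ n ∈ normalizer ((P : Subgroup G) : Set G), n * u * n⁻¹ = u⁻¹ := by
  haveI : (((P : Subgroup G) ⊔ centralizer ((P : Subgroup G) : Set G)).subgroupOf
      (normalizer ((P : Subgroup G) : Set G))).Normal :=
    (normal_subgroupOf_iff_le_normalizer sup_le_norm).2 (le_trans (le_inf le_rfl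
      (Tr.normalizer_le_normalizer_centralizer _)) (normalizer_inf_normalizer_le_normalizer_sup _ _))
  obtain ⟨q, hq⟩ := exists_prime_orderOf_dvd_card' 2 h2
  obtain ⟨n, rfl⟩ := QuotientGroup.mk_surjective q
  have h1 : (n : G) ∉ (P : Subgroup G) ⊔ centralizer ((P : Subgroup G) : Set G) := fun e => by
    rw [(QuotientGroup.eq_one_iff n).2 (mem_subgroupOf.2 e), orderOf_one] at hq
    omega
  have h3 : (n : G) * n ∈ (P : Subgroup G) ⊔ centralizer ((P : Subgroup G) : Set G) :=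
    mem_subgroupOf.1 ((QuotientGroup.eq_one_iff (n * n)).1 (by
      rw [QuotientGroup.mk_mul, ← pow_two, ← hq, pow_orderOf_eq_one]))
  obtain ⟨-, d, hd, e⟩ := h.sup_le_stab hu h3
  have hv := Tr.conj_mem_of_mem_normalizer n.2 hu
  set v := (n : G) * u * (n : G)⁻¹ with hvd
  have h4 : u * v ∈ zpowers z := by
    by_contra e'
    refine h1 (h.free (mul_mem hu hv) e' n.2 ⟨h.nz _ n.2, v⁻¹ * u⁻¹ * v * u * d,
      mul_mem (by simpa using h.com _ (inv_mem hv) _ (inv_mem hu)) hd, ?_⟩)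
    calc _ = v * (n * n * u * ((n : G) * n)⁻¹) := by rw [hvd]; group
      _ = _ := by rw [e]; group
  obtain ⟨a, ha, e'⟩ := h.mov' (inv_mem hu) (by simpa using hz) h4
  refine ⟨a⁻¹ * n, mul_mem (inv_mem (le_normalizer ha)) n.2, ?_⟩
  calc _ = a⁻¹ * (u⁻¹ * (u * v)) * a := by rw [hvd]; group
    _ = _ := by rw [← e']; group

theorem nc_of_one (h1 : ((P : Subgroup G) ⊔ centralizer ((P : Subgroup G) : Set G)).relIndex
    (normalizer ((P : Subgroup G) : Set G)) = 1) : HasNormalPComplement 3 G := by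
  refine Tr.hasNormalPComplement_of_fusion P fun x hx g hg => ?_
  by_cases hz : x ∈ zpowers z
  · refine ⟨1, one_mem _, ?_⟩
    rcases zp_cases h.ord hz with rfl | rfl | rfl
    · simp
    · simpa using h.iso hg (isConj_iff.2 ⟨g, rfl⟩)
    · simpa using h.inv.iso hg (isConj_iff.2 ⟨g, rfl⟩)
  · obtain ⟨n, hn, e⟩ := h.fus hx hz hg
    obtain ⟨-, d, hd, e'⟩ := h.sup_le_stab hx (relIndex_eq_one.1 h1 hn)
    obtain ⟨a, ha, e''⟩ := h.mov' hx hz hd
    exact ⟨a, ha, by rw [← e, e', e'']⟩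

theorem ld {ι : Type*} {u : ι → G} (h1 : ∀ i, u i ∈ (P : Subgroup G)) (h2 : ∀ i, u i ∉ zpowers z)
    (h3 : ∀ x ∈ (P : Subgroup G), x ∉ zpowers z → ∃ i, IsConj x (u i))
    (h4 : ∀ i j, IsConj (u i) (u j) → i = j) : LD z u := by
  refine ⟨h.ord, fun i => h.three (h1 i) fun e => h2 i (e ▸ one_mem _), fun g ⟨k, hk⟩ => ?_,
    h.not_conj_inv, fun i => h.not_conj (h1 i) (h2 i) (mem_zpowers z),
    fun i => h.not_conj (h1 i) (h2 i) (inv_mem (mem_zpowers z)), h4, fun i => h.nc (h1 i) (h2 i)⟩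
  obtain ⟨c, hc⟩ := Inv.exists_conj_mem_sylow hk P
  have e : IsConj g (c * g * c⁻¹) := isConj_iff.2 ⟨c, rfl⟩
  by_cases hz : c * g * c⁻¹ ∈ zpowers z
  · rcases zp_cases h.ord hz with e' | e' | e' <;> rw [e'] at e
    exacts [.inl (isConj_one_left.1 e), .inr (.inl e), .inr (.inr (.inl e))]
  · obtain ⟨i, hi⟩ := h3 _ hc hz
    exact .inr (.inr (.inr ⟨i, e.trans hi⟩))

/-- The centre element inside its centralizer. -/
abbrev zH (z : G) : centralizer ({z} : Set G) := ⟨z, mem_centralizer_singleton_iff.2 rfl⟩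

omit h in
theorem mem_zH {x : centralizer ({z} : Set G)} : x ∈ zpowers (zH z) ↔ (x : G) ∈ zpowers z :=
  ⟨fun ⟨k, e⟩ => ⟨k, by rw [← e]; simp⟩, fun ⟨k, e⟩ => ⟨k, Subtype.ext (by rw [← e]; simp)⟩⟩

theorem sub : Hy (P.subtype h.le_cen) (zH z) :=
  ⟨(Nat.card_congr (subgroupOfEquivOfLe h.le_cen).toEquiv).trans h.card,
    fun x hx => Subtype.ext (h.exp x hx), h.mem, (orderOf_coe _).symm.trans h.ord,
    fun a ha b hb => mem_zH.2 (h.com a ha b hb),
    fun u hu e => mem_zH.2 (h.zc u hu fun x hx => congrArg Subtype.val (e ⟨x, h.le_cen hx⟩ hx)),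
    fun n _ => Subtype.ext (mem_centralizer_singleton_iff.1 n.2)⟩

theorem exists_ld : ∃ (r : ℕ) (u : Fin r → centralizer ({z} : Set G)),
    LD z (fun i => (u i : G)) ∧ LD (zH z) u ∧ (∀ i, IsConj (u i) (u i * zH z)) ∧
    r * ((P : Subgroup G) ⊔ centralizer ((P : Subgroup G) : Set G)).relIndex
      (normalizer ((P : Subgroup G) : Set G)) = 8 ∧
    (2 ∣ ((P : Subgroup G) ⊔ centralizer ((P : Subgroup G) : Set G)).relIndex
      (normalizer ((P : Subgroup G) : Set G)) → ∀ i, IsConj (u i) (u i)⁻¹) := by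
  classical
  let S := {x : G // x ∈ (P : Subgroup G) ∧ x ∉ zpowers z}
  let s : Setoid S := ⟨fun a b => IsConj a.1 b.1, fun _ => IsConj.refl _, IsConj.symm, IsConj.trans⟩
  let E := Finite.equivFin (Quotient s)
  let w : Fin (Nat.card (Quotient s)) → S := fun i => (E.symm i).out
  have w3 : ∀ x ∈ (P : Subgroup G), x ∉ zpowers z → ∃ i, IsConj x (w i).1 := fun x hx hz =>
    ⟨E (Quotient.mk s ⟨x, hx, hz⟩), by
      simpa [w] using (Quotient.mk_out (s := s) ⟨x, hx, hz⟩).symm⟩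
  have w4 : ∀ i j, IsConj (w i).1 (w j).1 → i = j := fun i j e =>
    E.symm.injective (Quotient.out_equiv_out.1 e)
  have hN : normalizer ((P : Subgroup G) : Set G) ≤ centralizer ({z} : Set G) := fun n hn =>
    mem_centralizer_singleton_iff.2 (h.nz n hn)
  refine ⟨_, fun i => ⟨(w i).1, h.le_cen (w i).2.1⟩,
    h.ld (fun i => (w i).2.1) (fun i => (w i).2.2) w3 w4,
    h.sub.ld (fun i => (w i).2.1) (fun i e => (w i).2.2 (mem_zH.1 e)) (fun x hx hz => ?_)
      (fun i j e => w4 i j ((centralizer ({z} : Set G)).subtype.map_isConj e)), fun i => ?_, ?_,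
    fun h2 i => ?_⟩
  · obtain ⟨i, hi⟩ := w3 x hx fun e => hz (mem_zH.2 e)
    obtain ⟨g, hg⟩ := isConj_iff.1 hi
    obtain ⟨n, hn, e⟩ := h.fus (g := g) hx (fun e => hz (mem_zH.2 e)) (hg ▸ (w i).2.1)
    exact ⟨i, isConj_iff.2 ⟨⟨n, hN hn⟩, Subtype.ext (e.trans hg)⟩⟩
  · obtain ⟨a, ha, e⟩ := h.mov (w i).2.1 (w i).2.2
    exact isConj_iff.2 ⟨⟨a, h.le_cen ha⟩, Subtype.ext e⟩
  · have h1 : Nat.card S = 24 := by
      have := Set.ncard_sdiff_add_ncard_of_subset (show (zpowers z : Set G) ⊆ (P : Subgroup G) from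
        h.zle)
      rw [← Nat.card_coe_set_eq (zpowers z : Set G), ← Nat.card_coe_set_eq ((P : Subgroup G) : Set G),
        SetLike.coe_sort_coe, SetLike.coe_sort_coe, Nat.card_zpowers, h.ord, h.card] at this
      have h2 : Nat.card S = (((P : Subgroup G) : Set G) \ zpowers z).ncard := rfl
      omega
    haveI := Fintype.ofFinite (Quotient s)
    rw [← Nat.card_congr (Equiv.sigmaFiberEquiv (Quotient.mk s)), Nat.card_sigma,
      Finset.sum_congr rfl (g := fun _ => 3 * ((P : Subgroup G) ⊔ centralizer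
        ((P : Subgroup G) : Set G)).relIndex (normalizer ((P : Subgroup G) : Set G))) fun q _ => by
        rw [← h.ncard_class q.out.2.1 q.out.2.2, ← Nat.card_coe_set_eq]
        refine Nat.card_congr ⟨fun a => ⟨a.1.1, a.1.2.1, (Quotient.mk_eq_iff_out.1 a.2).symm⟩,
          fun a => ⟨⟨a.1, a.2.1, fun e => h.not_conj q.out.2.1 q.out.2.2 e a.2.2.symm⟩,
            Quotient.mk_eq_iff_out.2 a.2.2.symm⟩, fun _ => rfl, fun _ => rfl⟩,
      Finset.sum_const, Finset.card_univ, ← Nat.card_eq_fintype_card, smul_eq_mul] at h1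
    nlinarith
  · obtain ⟨n, hn, e⟩ := h.real h2 (w i).2.1 (w i).2.2
    exact isConj_iff.2 ⟨⟨n, hN hn⟩, Subtype.ext e⟩

end Hy

theorem exists_hy (P : Sylow 3 G) (hE : IsExtraspecial 3 (P : Subgroup G))
    (h27 : Nat.card (P : Subgroup G) = 27) (hexp : ∀ x ∈ (P : Subgroup G), x ^ 3 = 1)
    (hNC : ∀ g ∈ normalizer ((P : Subgroup G) : Set G), ∀ z ∈ (P : Subgroup G),
      (∀ y ∈ (P : Subgroup G), z * y = y * z) → g * z = z * g) : ∃ z, Hy P z := by
  haveI : Fact (Nat.card (center (P : Subgroup G))).Prime := ⟨by rw [hE.2]; exact Nat.prime_three⟩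
  obtain ⟨c, hc⟩ := (isCyclic_of_prime_card (α := center (P : Subgroup G)) rfl).exists_generator
  have h1 : ∀ x : (P : Subgroup G), x ∈ center (P : Subgroup G) → (x : G) ∈ zpowers (c : G) :=
    fun x hx => let ⟨k, e⟩ := hc ⟨x, hx⟩; ⟨k, by
      simpa using congrArg (fun y : center (P : Subgroup G) => ((y : (P : Subgroup G)) : G)) e⟩
  refine ⟨c, h27, hexp, c.1.2, ?_, fun a ha b hb => ?_, fun u hu e => h1 ⟨u, hu⟩
    (mem_center_iff.2 fun x => Subtype.ext (e x x.2)), fun n hn => hNC n hn c c.1.2 fun y hy =>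
      (congrArg Subtype.val (mem_center_iff.1 c.2 ⟨y, hy⟩)).symm⟩
  · rw [orderOf_coe, orderOf_coe, orderOf_eq_card_of_forall_mem_zpowers hc, hE.2]
  · exact h1 _ (hE.1.2.2.le (commutator_mem_commutator (mem_top (⟨a, ha⟩ : (P : Subgroup G)))
      (mem_top ⟨b, hb⟩)))

end Cfsg.Agent.Blk.E27
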