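import Mathlib
import Cfsg.Agent.Blk.E27F
import Cfsg.Agent.Blk.E27C
import Cfsg.Agent.Blk.AbTwo
import Cfsg.Agent.Blk.PB0
import Cfsg.Agent.Blk.BasicAlg
import Cfsg.Agent.Ch.Galois

/-!
# Sections of a group with Sylow subgroup `3^{1+2}_+` and isolated centre
-/

set_option autoImplicit false
set_option linter.style.haveILetI false
set_option linter.unusedSectionVars false

namespace Cfsg.Agent.Blk.E27

open Cfsg.Agent.Blk.PB Cfsg.Agent.GT Cfsg.Agent.Ch Subgroup ComplexConjugate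

theorem conj_cube {η : ℂ} (h : η ^ 3 = 1) : conj η = η ^ 2 := by
  rw [← Complex.inv_eq_conj (Complex.norm_eq_one_of_pow_eq_one h (by norm_num))]
  exact (eq_inv_of_mul_eq_one_left (by rw [← pow_succ, h])).symm

theorem indep {ω : ℂ} (hω : ω ^ 2 + ω + 1 = 0) {a b : ℤ} (h : (a : ℂ) + b * ω = 0) :
    a = 0 ∧ b = 0 := by
  have h1 : ((a ^ 2 - a * b + b ^ 2 : ℤ) : ℂ) = 0 := by
    push_cast
    linear_combination (a + b * ω ^ 2) * h - (a * b + b ^ 2 * (ω - 1)) * hω
  have h2 : a ^ 2 - a * b + b ^ 2 = 0 := by exact_mod_cast h1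
  constructor <;> nlinarith [sq_nonneg (2 * a - b), sq_nonneg (2 * b - a), sq_nonneg a, sq_nonneg b]

variable {G : Type*} [Group G] [Fintype G] {M : Ideal AlgInt} {ι : Type*} [Fintype ι] {z : G}
  {u : ι → G}

/-- The inner product over the `3`-regular elements. -/
noncomputable def rg (F f : G → ℂ) : ℂ := classInner (pRegularPart 3 F) f

theorem rg_def (F f : G → ℂ) : rg F f =
    (Nat.card G : ℂ)⁻¹ * ∑ y, if 3 ∣ orderOf y then 0 else F y * conj (f y) := by
  rw [rg, classInner_def]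
  congr 1
  refine Finset.sum_congr rfl fun y _ => ?_
  rw [pRegularPart_apply]
  split_ifs <;> simp

theorem rg_congr {F F' f f' : G → ℂ} {a b : ℂ} (h : ∀ y, ¬ 3 ∣ orderOf y → F y = a * F' y)
    (h' : ∀ y, ¬ 3 ∣ orderOf y → f y = b * f' y) : rg F f = a * conj b * rg F' f' := by
  rw [rg_def, rg_def, mul_left_comm, Finset.mul_sum _ _ (a * conj b)]
  congr 1
  refine Finset.sum_congr rfl fun y _ => ?_
  split_ifs with hy
  · simp
  · rw [h y hy, h' y hy, map_mul]; ring

theorem conj_rg (F f : G → ℂ) : conj (rg F f) = rg f F := by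
  rw [rg, classInner_conj_symm, ← classInner_pRegularPart_comm, rg]

theorem sum_rg_mul (hM : IsPModular 3 M) {φ : IrrCharacter G} (hφ : φ ∈ pb M G) (x : G) :
    ∑ χ ∈ pb M G, rg φ.1 χ.1 * χ.1 x = pRegularPart 3 φ.1 x := by
  classical
  have := congrFun (blockPart_pRegularPart hM (coeff_mem hM) φ.1) x
  rw [blockPart_irr_of_mem (mem_pb.1 hφ), blockPart_apply] at this
  rw [← this, pb, Finset.sum_filter]
  rfl

/-- Constant on the sections of the `u i`. -/
def Cs (u : ι → G) (F : G → ℂ) : Prop := ∀ i g, IsPPart 3 g (u i) → F g = F (u i)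

theorem exists_int (hM : IsPModular 3 M) {θ : G → ℂ} (hθ : IsGeneralizedCharacter G θ) {x : G}
    (hx : orderOf x = 3) (hr : IsConj x x⁻¹) : ∃ a n : ℤ, θ x = a ∧ θ 1 = n ∧ 3 ∣ a - n := by
  have h3 : x ^ 3 = 1 := hx ▸ pow_orderOf_eq_one x
  have key : ∀ {χ : G → ℂ}, IsCharacter G χ → ∃ a : ℤ, χ x = a ∧ 3 ∣ a - charDegree χ := fun hχ => by
    obtain ⟨a, ha⟩ := hχ.isGeneralizedCharacter.exists_int_of_isConj_pow (g := x) fun k hk => by
      have h1 : ¬ 3 ∣ k := fun e => by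
        have := Nat.dvd_gcd e (hx ▸ orderOf_dvd_natCard x)
        rw [hk] at this
        omega
      rw [← pow_mod_orderOf, hx]
      obtain e | e : k % 3 = 1 ∨ k % 3 = 2 := by omega
      · rw [e, pow_one]
      · rwa [e, (eq_inv_of_mul_eq_one_left (by rw [← pow_succ, h3]) : x ^ 2 = x⁻¹)]
    exact ⟨a, ha.symm, dvd_sub_of_apply hM hχ ⟨1, hx⟩ ha.symm⟩
  obtain ⟨χ, ψ, hχ, hψ, rfl⟩ := hθ
  obtain ⟨a, ha, ha'⟩ := key hχ
  obtain ⟨b, hb, hb'⟩ := key hψ
  refine ⟨a - b, charDegree χ - charDegree ψ, by simp [ha, hb],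
    by simp [hχ.coe_charDegree, hψ.coe_charDegree], by omega⟩

namespace LD

variable (h : LD z u)
include h

theorem exists_X : ∃ X : Finset G, (∀ x ∈ X, ∃ k, orderOf x = 3 ^ k) ∧
    (∀ g : G, (∃ k, orderOf g = 3 ^ k) → ∃! x, x ∈ X ∧ IsConj g x) ∧
    ∀ {α : Type} [AddCommMonoid α] (Φ : G → α),
      ∑ x ∈ X, Φ x = Φ 1 + Φ z + Φ z⁻¹ + ∑ i, Φ (u i) := by
  classical
  have n1 : ∀ {x : G}, orderOf x = 3 → ¬ IsConj 1 x := fun e e' => by
    rw [isConj_one_right.1 e', orderOf_one] at e; omega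
  have a1 := n1 h.oz
  have a2 := n1 ((orderOf_inv z).trans h.oz)
  have a3 := fun i => n1 (h.ou i)
  have hne : ∀ {a b : G}, ¬ IsConj a b → a ≠ b := fun e e' => e (e' ▸ IsConj.refl _)
  refine ⟨insert 1 (insert z (insert z⁻¹ (Finset.univ.image u))), ?_, fun g hg => ?_, fun Φ => ?_⟩
  · simp only [Finset.mem_insert, Finset.mem_image]
    rintro _ (rfl | rfl | rfl | ⟨i, -, rfl⟩)
    exacts [⟨0, orderOf_one⟩, ⟨1, h.oz⟩, ⟨1, (orderOf_inv z).trans h.oz⟩, ⟨1, h.ou i⟩]
  · refine existsUnique_of_exists_of_unique ?_ fun a b ha hb => ?_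
    · rcases h.rep g hg with rfl | e | e | ⟨i, e⟩
      exacts [⟨1, by simp, IsConj.refl _⟩, ⟨_, by simp, e⟩, ⟨_, by simp, e⟩, ⟨_, by simp, e⟩]
    · have h4 := ha.2.symm.trans hb.2
      have h5 := h4.symm
      obtain ⟨ha, -⟩ := ha
      obtain ⟨hb, -⟩ := hb
      have := h.zz
      simp only [Finset.mem_insert, Finset.mem_image] at ha hb
      rcases ha with rfl | rfl | rfl | ⟨i, -, rfl⟩ <;> rcases hb with rfl | rfl | rfl | ⟨j, -, rfl⟩
      all_goals first
        | rfl | contradiction | exact absurd h4 (a3 _) | exact absurd h5 (a3 _)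
        | exact absurd h4 (h.zu _) | exact absurd h5 (h.zu _) | exact absurd h4 (h.zu' _)
        | exact absurd h5 (h.zu' _) | rw [h.inj _ _ h4]
  · rw [Finset.sum_insert (by simp [hne a1, hne a2, fun i => (hne (a3 i)).symm]),
      Finset.sum_insert (by simp [hne h.zz, fun i => (hne (h.zu i)).symm]),
      Finset.sum_insert (by simp [fun i => (hne (h.zu' i)).symm]),
      Finset.sum_image fun i _ j _ e => h.inj i j (by rw [show u i = u j from e]), add_assoc, add_assoc]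

theorem card_eq (hM : IsPModular 3 M) (hl : ∀ i, blockRank 3 (principalBlock M
    (centralizer ({u i} : Set G))) = 1) : (pb M G).card = blockRank 3 (principalBlock M G) +
      2 * blockRank 3 (principalBlock M (centralizer ({z} : Set G))) + Fintype.card ι := by
  haveI := hM.isMaximal
  obtain ⟨X, h1, h2, h3⟩ := h.exists_X
  have e : centralizer ({z⁻¹} : Set G) = centralizer {z} := Subgroup.ext fun g => by
    simp only [mem_centralizer_singleton_iff]
    exact Commute.inv_right_iff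
  rw [← natCard_principalBlock, AT.card_eq_sum hM X h1 h2, h3, e,
    centralizer_eq_top_iff_subset.2 (by simp), ← Om.blkCongr_principal topEquiv,
    Ab.blockRank_blkCongr, Finset.sum_congr rfl fun i _ => hl i]
  simp [two_mul, add_assoc]

theorem cs (hM : IsPModular 3 M) {χ : IrrCharacter G} (hχ : χ ∈ pb M G) : Cs u χ.1 := fun i _ hg =>
  apply_eq_of_isPPart hM (fun _ => mem_centralizer_singleton_iff) (h.nc i).1 (mem_pb.1 hχ) hg
    (IsConj.refl _)

theorem sum_uu (hM : IsPModular 3 M) (i j : ι) [Decidable (i = j)] :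
    ∑ χ ∈ pb M G, χ.1 (u i) * χ.1 (u j)⁻¹ = if i = j then 9 else 0 := by
  split_ifs with e
  · rw [e, sum_mul_inv_of_nc hM ⟨1, h.ou j⟩ (fun _ => mem_centralizer_singleton_iff) (h.nc j).1,
      (h.nc j).2]
    norm_num
  · exact sum_mul_inv_eq_zero hM (isPPart_self Nat.prime_three ⟨1, h.ou i⟩)
      (isPPart_self Nat.prime_three ⟨1, h.ou j⟩) fun e' => e (h.inj i j e')

open Classical in
theorem cols' (hM : IsPModular 3 M) (hr : ∀ i, IsConj (u i) (u i)⁻¹) :
    ∃ (D : ι → IrrCharacter G → ℤ) (t : IrrCharacter G → ℤ), (∀ i χ, χ.1 (u i) = D i χ) ∧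
      (∀ χ, χ.1 1 = t χ) ∧ (∀ i χ, 3 ∣ D i χ - t χ) ∧ (∀ i, D i (irrOne G) = 1) ∧
      t (irrOne G) = 1 ∧ (∀ i j, ∑ χ ∈ pb M G, D i χ * D j χ = if i = j then 9 else 0) ∧
      ∀ i, ∑ χ ∈ pb M G, D i χ * t χ = 0 := by
  choose D n hD hn hDn using fun i (χ : IrrCharacter G) =>
    exists_int hM χ.2.isCharacter.isGeneralizedCharacter (h.ou i) (hr i)
  have ht : ∀ χ : IrrCharacter G, χ.1 1 = (charDegree χ.1 : ℤ) := fun χ => by
    simpa using χ.2.coe_charDegree.symm
  refine ⟨D, fun χ => charDegree χ.1, hD, ht, fun i χ => ?_, fun i => ?_, ?_, fun i j => ?_,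
    fun i => ?_⟩
  · simpa only [show (charDegree χ.1 : ℤ) = n i χ by exact_mod_cast (ht χ).symm.trans (hn i χ)]
      using hDn i χ
  · exact Int.cast_injective ((hD i (irrOne G)).symm.trans Int.cast_one.symm)
  · exact Int.cast_injective ((ht (irrOne G)).symm.trans Int.cast_one.symm)
  · have := h.sum_uu hM i j
    simp only [fun χ : IrrCharacter G => (χ.isClassFunction.eq_of_isConj (hr j)).symm, hD] at this
    exact_mod_cast this
  · have := sum_mul_eq_zero_of_regular hM (g := 1) (by simp) (h.ou i).symm.dvd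
    simp only [ht, hD, mul_comm (((charDegree _ : ℤ)) : ℂ)] at this
    exact_mod_cast this

open Classical in
theorem cols (hM : IsPModular 3 M) (hr : ∀ i, IsConj (u i) (u i)⁻¹) :
    ∃ (D : ι → IrrCharacter G → ℤ) (t : IrrCharacter G → ℤ), (∀ i χ, χ.1 (u i) = D i χ) ∧
      (∀ χ, χ.1 1 = t χ) ∧ (∀ i χ, 3 ∣ D i χ - t χ) ∧ ∀ i, (∀ χ ∈ pb M G, 3 ∣ t χ ↔ D i χ = 0) ∧
        (((pb M G).filter fun χ => ¬ 3 ∣ t χ).card = 6 ∨ ((pb M G).filter fun χ => ¬ 3 ∣ t χ).card
          = 9 ∧ ∀ χ ∈ (pb M G).filter fun χ => ¬ 3 ∣ t χ, Odd (D i χ)) := by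
  obtain ⟨D, t, h1, h2, h3, h4, h5, h6, h7⟩ := h.cols' hM hr
  exact ⟨D, t, h1, h2, h3, fun i => col9 (one_mem_pb hM) (h4 i) h5 ((h6 i i).trans (if_pos rfl))
    (fun χ _ => h3 i χ) (h7 i)⟩

open Classical in
theorem sec_u (i : ι) (c : ℂ) : ((centralizer ({u i} : Set G)).index : ℂ) *
    ∑ g, (if IsPPart 3 g (u i) then c else 0) = Nat.card G * (c / 9) := by
  set C := centralizer ({u i} : Set G)
  have h1 := sum_regular_eq_sum_isPPart (p := 3) (C := C) ⟨1, h.ou i⟩
    (fun _ => mem_centralizer_singleton_iff) fun _ => c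
  have h2 : (Finset.univ.filter fun y : C => ¬ 3 ∣ orderOf y).card = Nat.card (pResidual 3 C) := by
    rw [← Fintype.card_subtype, Nat.card_eq_fintype_card]
    exact Fintype.card_congr (Equiv.subtypeEquivRight fun y => by
      rw [(h.nc i).1.mem_pResidual_iff, Nat.coprime_comm, Nat.prime_three.coprime_iff_not_dvd])
  have h3 := (pResidual 3 C).card_mul_index
  rw [index_pResidual_of_nc Nat.prime_three (h.nc i).1, (h.nc i).2] at h3
  rw [← h1, ← C.card_mul_index, ← h3]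
  simp only [← ite_not (3 ∣ _), ← Finset.sum_filter, Finset.sum_const, h2, nsmul_eq_mul]
  push_cast
  ring

omit h in
open Classical in
theorem sec_c {x : G} (hx : x ∈ center G) (hk : ∃ k, orderOf x = 3 ^ k) (Φ : G → ℂ) :
    ((centralizer ({x} : Set G)).index : ℂ) * ∑ g, (if IsPPart 3 g x then Φ g else 0) =
      ∑ y, if 3 ∣ orderOf y then 0 else Φ (x * y) := by
  rw [centralizer_eq_top_iff_subset.2 (by simpa using hx), index_top, Nat.cast_one, one_mul,
    ← Equiv.sum_comp (Equiv.mulLeft x)]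
  refine Finset.sum_congr rfl fun y _ => ?_
  rw [← ite_not (3 ∣ _)]
  exact if_congr ⟨fun e => by simpa using e.not_dvd_orderOf_inv_mul,
    fun e => ⟨y, rfl, (mem_center_iff.1 hx y).symm, hk, e⟩⟩ rfl rfl

/-- The inner product by sections when `z` is central. -/
theorem inner_eq (hz : z ∈ center G) {F β : G → ℂ} (hF : IsClassFunction G F)
    (hβ : IsClassFunction G β) (cF : Cs u F) (cβ : Cs u β) {η : ℂ} (hη : η ^ 3 = 1)
    (e : ∀ y, β (z * y) = η * β y) : classInner F β = rg F β + η ^ 2 * rg (fun y => F (z * y)) β +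
      η * rg (fun y => F (z⁻¹ * y)) β + ∑ i, F (u i) * conj (β (u i)) / 9 := by
  classical
  obtain ⟨X, -, h2, h3⟩ := h.exists_X
  have e' : ∀ y, β (z⁻¹ * y) = η ^ 2 * β y := fun y => by
    have := e (z⁻¹ * y)
    rw [mul_inv_cancel_left] at this
    rw [this, ← mul_assoc, ← pow_succ, hη, one_mul]
  have a1 := rg_congr (F := fun y => F (z * y)) (F' := fun y => F (z * y)) (a := 1)
    (fun y _ => (one_mul _).symm) fun y _ => e y
  have a2 := rg_congr (F := fun y => F (z⁻¹ * y)) (F' := fun y => F (z⁻¹ * y)) (a := 1)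
    (fun y _ => (one_mul _).symm) fun y _ => e' y
  rw [conj_cube hη, one_mul] at a1
  rw [one_mul, map_pow, conj_cube hη, ← pow_mul, pow_succ, hη, one_mul] at a2
  rw [← a1, ← a2, classInner_def, sum_eq_sum_sections Nat.prime_three X h2
    (F := fun g => F g * conj (β g)) fun g k => by simp only [hF g k, hβ g k], h3,
    sec_c (one_mem _) ⟨0, orderOf_one⟩, sec_c hz ⟨1, h.oz⟩,
    sec_c (inv_mem hz) ⟨1, (orderOf_inv z).trans h.oz⟩,
    Finset.sum_congr (s₁ := (Finset.univ : Finset ι)) rfl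
      (g := fun i => Nat.card G * (F (u i) * conj (β (u i)) / 9)) fun i _ => by
      rw [← h.sec_u i]
      congr 1
      exact Finset.sum_congr rfl fun g _ => if_ctx_congr Iff.rfl
        (fun hg => by rw [cF i g hg, cβ i g hg]) fun _ => rfl]
  simp only [rg_def, one_mul, mul_add, Finset.mul_sum (s := (Finset.univ : Finset ι)),
    inv_mul_cancel_left₀ (Nat.cast_ne_zero.2 (Nat.card_pos (α := G)).ne' : (Nat.card G : ℂ) ≠ 0)]

end LD

end Cfsg.Agent.Blk.E27
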