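import Mathlib
import Cfsg.Agent.Blk.E27L

/-!
# The principal 3-block of the centralizer of the centre of `3^{1+2}_+`
-/

set_option autoImplicit false
set_option linter.style.haveILetI false
set_option linter.unusedSectionVars false

namespace Cfsg.Agent.Blk.E27

open Cfsg.Agent.Blk.PB Cfsg.Agent.GT Cfsg.Agent.Ch Subgroup ComplexConjugate

variable {G : Type*} [Group G] [Fintype G] {M : Ideal AlgInt} {ι : Type*} [Fintype ι] {z : G}
  {u : ι → G} {η ω : ℂ}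

theorem cube_of (hω : ω ^ 2 + ω + 1 = 0) : ω ^ 3 = 1 := by linear_combination (ω - 1) * hω

theorem ne_one_of (hω : ω ^ 2 + ω + 1 = 0) : ω ≠ 1 := fun e => by rw [e] at hω; norm_num at hω

theorem sum_rg_mul_eq (S : Finset (IrrCharacter G)) (f : G → ℂ) (x : G) :
    ∑ χ ∈ S, rg f χ.1 * χ.1 x = (Nat.card G : ℂ)⁻¹ * ∑ y, if 3 ∣ orderOf y then 0 else
      f y * ∑ χ ∈ S, χ.1 x * χ.1 y⁻¹ := by
  simp only [rg_def, mul_assoc, Finset.sum_mul, ← Finset.mul_sum]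
  rw [Finset.sum_comm]
  congr 1
  refine Finset.sum_congr rfl fun y _ => ?_
  split_ifs
  · simp
  · rw [Finset.mul_sum]
    exact Finset.sum_congr rfl fun χ _ => by rw [χ.2.isCharacter.conj_apply]; ring

theorem sum_rg_self_eq (S : Finset (IrrCharacter G)) :
    ∑ χ ∈ S, rg χ.1 χ.1 = (Nat.card G : ℂ)⁻¹ * ∑ y, if 3 ∣ orderOf y then 0 else
      ∑ χ ∈ S, χ.1 y * χ.1 y⁻¹ := by
  simp only [rg_def, ← Finset.mul_sum]
  rw [Finset.sum_comm]
  congr 1
  refine Finset.sum_congr rfl fun y _ => ?_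
  split_ifs
  · simp
  · exact Finset.sum_congr rfl fun χ _ => by rw [χ.2.isCharacter.conj_apply]

theorem rg_sum_left {κ : Type*} (S : Finset κ) (c : κ → ℂ) (F : κ → G → ℂ) (f : G → ℂ) :
    rg (fun y => ∑ k ∈ S, c k * F k y) f = ∑ k ∈ S, c k * rg (F k) f := by
  simp only [rg_def, mul_left_comm (c _), ← Finset.mul_sum]
  congr 1
  simp only [Finset.mul_sum]
  rw [Finset.sum_comm]
  refine Finset.sum_congr rfl fun y _ => ?_
  split_ifs
  · simp
  · simp only [Finset.sum_mul, mul_assoc]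

open Classical in
/-- The characters of the principal block lying over `η` at `z`. -/
noncomputable def SS (M : Ideal AlgInt) (z : G) (η : ℂ) : Finset (IrrCharacter G) :=
  (pb M G).filter fun χ => ∀ y, χ.1 (z * y) = η * χ.1 y

theorem mem_SS {χ : IrrCharacter G} :
    χ ∈ SS M z η ↔ χ ∈ pb M G ∧ ∀ y, χ.1 (z * y) = η * χ.1 y := by
  classical
  exact Finset.mem_filter

theorem inv_mul_of {f : G → ℂ} (hη : η ^ 3 = 1) (e : ∀ y, f (z * y) = η * f y) (y : G) :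
    f (z⁻¹ * y) = η ^ 2 * f y := by
  have := e (z⁻¹ * y)
  rw [mul_inv_cancel_left] at this
  rw [this, ← mul_assoc, ← pow_succ, hη, one_mul]

/-- Local data with `z` central and real classes `u i`. -/
structure LH (z : G) (u : ι → G) : Prop extends LD z u where
  cen : z ∈ center G
  uz : ∀ i, IsConj (u i) (u i * z)
  real : ∀ i, IsConj (u i) (u i)⁻¹

namespace LH

variable (h : LH z u) (hM : IsPModular 3 M)
include h

theorem exists_eta (χ : IrrCharacter G) : ∃ η : ℂ, η ^ 3 = 1 ∧ ∀ y, χ.1 (z * y) = η * χ.1 y := by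
  have h0 := χ.2.apply_one_ne_zero
  have e : ∀ y, χ.1 (z * y) = χ.1 z / χ.1 1 * χ.1 y := fun y => by
    rw [div_mul_eq_mul_div, eq_div_iff h0, mul_comm, χ.2.apply_mul_of_mem_center h.cen]
  refine ⟨_, mul_right_cancel₀ h0 ?_, e⟩
  have h3 : z * (z * (z * 1)) = 1 := by
    rw [mul_one, ← pow_two, ← pow_succ']
    exact orderOf_dvd_iff_pow_eq_one.1 h.oz.dvd
  have h4 := congrArg χ.1 h3
  rw [e, e, e] at h4
  linear_combination h4

theorem vanish {χ : IrrCharacter G} (e : ∀ y, χ.1 (z * y) = η * χ.1 y) (h1 : η ≠ 1) (i : ι) :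
    χ.1 (u i) = 0 := by
  have := χ.isClassFunction.eq_of_isConj (h.uz i)
  rw [mem_center_iff.1 h.cen, e] at this
  exact (mul_left_eq_self₀.1 this.symm).resolve_left h1

include hM

theorem ker (hη : η ^ 3 = 1) {y y' : G} (hy : ¬ 3 ∣ orderOf y) (hy' : ¬ 3 ∣ orderOf y') :
    3 * ∑ χ ∈ SS M z η, χ.1 y * χ.1 y'⁻¹ = ∑ χ ∈ pb M G, χ.1 y * χ.1 y'⁻¹ := by
  classical
  have a : ∀ {x : G}, x ∈ center G → orderOf x = 3 →
      ∑ χ ∈ pb M G, χ.1 (x * y) * χ.1 y'⁻¹ = 0 := fun hx ho =>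
    sum_mul_inv_eq_zero hM (isPPart_of_commute (mem_center_iff.1 hx y).symm ⟨1, ho⟩ hy)
      (isPPart_one_of_not_dvd hy') fun e => by
        rw [isConj_one_left.1 e, orderOf_one] at ho; omega
  have a1 := a h.cen h.oz
  have a2 := a (inv_mem h.cen) ((orderOf_inv z).trans h.oz)
  refine Eq.trans ?_ (show ∑ χ ∈ pb M G, χ.1 y * χ.1 y'⁻¹ + η ^ 2 * ∑ χ ∈ pb M G, χ.1 (z * y) *
    χ.1 y'⁻¹ + η * ∑ χ ∈ pb M G, χ.1 (z⁻¹ * y) * χ.1 y'⁻¹ = _ by rw [a1, a2]; simp)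
  simp only [Finset.mul_sum, ← Finset.sum_add_distrib, SS, Finset.sum_filter]
  refine Finset.sum_congr rfl fun χ _ => ?_
  obtain ⟨e, he, e'⟩ := h.exists_eta χ
  rw [e', inv_mul_of he e']
  split_ifs with h1
  · obtain rfl : e = η := mul_right_cancel₀ χ.2.apply_one_ne_zero ((e' 1).symm.trans (h1 1))
    linear_combination (-2 * χ.1 y * χ.1 y'⁻¹) * he
  · have h2 : η ^ 2 * e - 1 ≠ 0 := fun h3 => h1 (by
      rwa [show η = e by linear_combination (-η) * h3 + e * hη])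
    have h3 : (η ^ 2 * e - 1) * (1 + η ^ 2 * e + η * e ^ 2) = 0 := by
      linear_combination (η * e ^ 2 + e ^ 3) * hη + he
    linear_combination (-χ.1 y * χ.1 y'⁻¹) * (mul_eq_zero.1 h3).resolve_left h2

theorem sum_self (hη : η ^ 3 = 1) :
    3 * ∑ χ ∈ SS M z η, rg χ.1 χ.1 = blockRank 3 (principalBlock M G) := by
  rw [blockRank_eq_sum_classInner hM (coeff_mem hM), finsum_pb]
  refine Eq.trans ?_ (sum_rg_self_eq _).symm
  rw [sum_rg_self_eq, mul_left_comm, Finset.mul_sum]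
  congr 1
  refine Finset.sum_congr rfl fun y _ => ?_
  split_ifs with hy
  · simp
  · exact h.ker hM hη hy hy

theorem span (hη : η ^ 3 = 1) {φ : IrrCharacter G} (hφ : φ ∈ pb M G) {x : G}
    (hx : ¬ 3 ∣ orderOf x) : φ.1 x = 3 * ∑ χ ∈ SS M z η, rg φ.1 χ.1 * χ.1 x := by
  rw [← pRegularPart_of_not_dvd φ.1 hx, ← sum_rg_mul hM hφ, sum_rg_mul_eq, sum_rg_mul_eq,
    mul_left_comm, Finset.mul_sum _ _ (3 : ℂ)]
  congr 1
  refine Finset.sum_congr rfl fun y _ => ?_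
  split_ifs with hy
  · simp
  · rw [← h.ker hM hη hx hy, mul_left_comm]

theorem inner_irr (hη : η ^ 3 = 1) {χ ψ : IrrCharacter G} (hχ : χ ∈ SS M z η)
    (hψ : ψ ∈ SS M z η) [Decidable (χ = ψ)] : (if χ = ψ then 1 else 0) = 3 * rg χ.1 ψ.1 +
      ∑ i, χ.1 (u i) * conj (ψ.1 (u i)) / 9 := by
  classical
  obtain ⟨h1, h2⟩ := mem_SS.1 hχ
  obtain ⟨h3, h4⟩ := mem_SS.1 hψ
  have := h.inner_eq h.cen χ.isClassFunction ψ.isClassFunction (h.cs hM h1) (h.cs hM h3) hη h4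
  rw [classInner_irr, rg_congr (b := 1) (fun y _ => h2 y) fun y _ => (one_mul _).symm,
    rg_congr (b := 1) (fun y _ => inv_mul_of hη h2 y) fun y _ => (one_mul _).symm] at this
  convert this using 2
  rw [map_one]
  linear_combination (-2 * rg χ.1 ψ.1) * hη

theorem gram (hω : ω ^ 2 + ω + 1 = 0) {χ ψ : IrrCharacter G} (hχ : χ ∈ SS M z ω)
    (hψ : ψ ∈ SS M z ω) [Decidable (χ = ψ)] : 3 * rg χ.1 ψ.1 = if χ = ψ then 1 else 0 := by
  rw [h.inner_irr hM (cube_of hω) hχ hψ]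
  simp [h.vanish (mem_SS.1 hχ).2 (ne_one_of hω)]

theorem card_SS (hω : ω ^ 2 + ω + 1 = 0) :
    (SS M z ω).card = blockRank 3 (principalBlock M G) := by
  classical
  have := h.sum_self hM (cube_of hω)
  rw [Finset.mul_sum, Finset.sum_congr rfl fun χ hχ => (h.gram hM hω hχ hχ).trans (if_pos rfl)]
    at this
  simpa using this

theorem card_SS_one : (SS M z 1).card = blockRank 3 (principalBlock M G) + Fintype.card ι := by
  classical
  have h1 := Finset.sum_congr rfl fun χ (hχ : χ ∈ SS M z 1) => h.inner_irr hM (one_pow 3) hχ hχ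
  rw [Finset.sum_add_distrib, ← Finset.mul_sum, h.sum_self hM (one_pow 3), Finset.sum_comm,
    Finset.sum_congr (s₁ := (Finset.univ : Finset ι)) rfl (g := fun _ => 1) fun i _ => by
      have h2 := (h.sum_uu hM i i).trans (if_pos rfl)
      rw [← Finset.sum_div, div_eq_one_iff_eq (by norm_num), ← h2]
      simp only [fun χ : IrrCharacter G => χ.2.isCharacter.conj_apply]
      refine Finset.sum_subset (Finset.filter_subset _ _) fun χ hχ hχ' => ?_
      obtain ⟨e, -, e'⟩ := h.exists_eta χ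
      rw [h.vanish e' fun e'' => hχ' (mem_SS.2 ⟨hχ, e'' ▸ e'⟩), zero_mul]] at h1
  simp only [if_true, Finset.sum_const, nsmul_eq_mul, mul_one, Finset.card_univ] at h1
  exact_mod_cast h1

theorem exists_beta (hω : ω ^ 2 + ω + 1 = 0) [Nonempty ι] {ψ : IrrCharacter G}
    (hψ : ψ ∈ SS M z ω) : ∃ β : G → ℂ, IsGeneralizedCharacter G β ∧ (∀ y, β (z * y) = 1 * β y) ∧
      (∀ y, ¬ 3 ∣ orderOf y → β y = 1 * ψ.1 y) ∧ Cs u β ∧ ∃ b : ι → ℤ, ∀ i, β (u i) = 3 * b i := by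
  classical
  obtain ⟨h1, h2⟩ := mem_SS.1 hψ
  obtain ⟨θ, hθ, e⟩ := exists_regPart Nat.prime_three ψ.2.isCharacter.isGeneralizedCharacter
  have h3 : ∀ g, θ (z * g) = θ g := fun g => by
    obtain ⟨a, y, -, -, rfl, hc, ⟨k, hk⟩, hy⟩ := exists_p_parts Nat.prime_three g
    have hz : ∀ g, Commute z g := fun g => (mem_center_iff.1 h.cen g).symm
    obtain ⟨j, -, hj⟩ := (Nat.dvd_prime_pow Nat.prime_three (m := k + 1)
      (i := orderOf (z * a))).1 (by
      have := (hz a).orderOf_mul_dvd_mul_orderOf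
      rwa [h.oz, hk, ← pow_succ'] at this)
    rw [← mul_assoc, e _ y ((hz y).mul_left hc) ⟨j, hj⟩ hy, e _ y hc ⟨k, hk⟩ hy]
  have h4 : ∀ y, ¬ 3 ∣ orderOf y → blockPart (principalBlock M G) θ y = ψ.1 y := fun y hy => by
    rw [blockPart_congr_of_regular hM (coeff_mem hM) hy (ϑ' := ψ.1) fun g hg => by
      simpa using e 1 g (Commute.one_left g) ⟨0, orderOf_one⟩ hg, blockPart_irr_of_mem (mem_pb.1 h1)]
  have hβ := BA.isGeneralizedCharacter_blockPart (principalBlock M G) hθ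
  refine ⟨_, hβ, fun y => ?_, fun y hy => by rw [h4 y hy, one_mul], fun i g hg => ?_, ?_⟩
  · simp only [one_mul, ← sum_blockCoeff_mul_classFun _ hθ.isClassFunction, ← mul_assoc,
      mem_center_iff.1 h.cen]
    simp only [mul_assoc, h3]
  · simp only [blockPart_apply]
    refine Finset.sum_congr rfl fun χ _ => ?_
    split_ifs with hχ
    · rw [h.cs hM (mem_pb.2 hχ) i g hg]
    · rfl
  · have : ∀ i, ∃ b : ℤ, blockPart (principalBlock M G) θ (u i) = 3 * b := fun i => by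
      obtain ⟨a, n, ha, hn, h5⟩ := exists_int hM hβ (h.ou i) (h.real i)
      obtain ⟨a', n', ha', hn', h6⟩ :=
        exists_int hM ψ.2.isCharacter.isGeneralizedCharacter (h.ou i) (h.real i)
      rw [h.vanish h2 (ne_one_of hω)] at ha'
      rw [h4 1 (by simp), hn'] at hn
      have h7 : a' = 0 := by exact_mod_cast ha'.symm
      have h8 : n' = n := by exact_mod_cast hn
      exact ⟨a / 3, by rw [ha]; exact_mod_cast (by omega : a = 3 * (a / 3))⟩
    exact Classical.skolem.1 this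

theorem exists_conj (hω : ω ^ 2 + ω + 1 = 0) {ψ : IrrCharacter G} (hψ : ψ ∈ SS M z ω) :
    ∃ ψ' ∈ SS M z (ω ^ 2), ∀ y, ¬ 3 ∣ orderOf y → ψ'.1 y = 1 * ψ.1 y := by
  obtain ⟨h1, h2⟩ := mem_SS.1 hψ
  obtain ⟨a, m, hm, hn⟩ := Nat.exists_eq_pow_mul_and_not_dvd (Nat.card_pos (α := G)).ne' 3
    (by norm_num)
  have hc : Nat.Coprime 3 m := Nat.prime_three.coprime_iff_not_dvd.2 hm
  obtain ⟨k, k1, k2⟩ := Nat.chineseRemainder hc 2 1
  have hk : k.Coprime (Nat.card G) := by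
    rw [hn]
    refine Nat.Coprime.mul_right (Nat.Coprime.pow_right _ ?_) ?_
    · rw [Nat.Coprime, k1.gcd_eq]; norm_num
    · rw [Nat.Coprime, k2.gcd_eq]; simp
  have h3 : ∀ y : G, ¬ 3 ∣ orderOf y → y ^ k = y := fun y hy => by
    have := orderOf_dvd_natCard y
    rw [hn] at this
    simpa using (pow_eq_pow_iff_modEq (x := y)).2 (k2.of_dvd ((Nat.Coprime.pow_right a
      (Nat.prime_three.coprime_iff_not_dvd.2 hy).symm).dvd_of_dvd_mul_left this))
  have h4 : z ^ k = z⁻¹ := by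
    rw [(pow_eq_pow_iff_modEq (x := z)).2 (h.oz ▸ k1)]
    exact eq_inv_of_mul_eq_one_left (by rw [← pow_succ]; exact orderOf_dvd_iff_pow_eq_one.1 h.oz.dvd)
  refine ⟨⟨_, ψ.2.comp_pow_of_coprime hk⟩, mem_SS.2 ⟨mem_pb.2 ((P0.mem_iff_of_pow hM hk
    fun _ => rfl).2 (mem_pb.1 h1)), fun y => ?_⟩, fun y hy => by simp only [h3 y hy, one_mul]⟩
  simp only
  rw [Commute.mul_pow (mem_center_iff.1 h.cen y).symm, h4, inv_mul_of (cube_of hω) h2]

theorem int (hω : ω ^ 2 + ω + 1 = 0) [Nonempty ι] {ψ : IrrCharacter G} (hψ : ψ ∈ SS M z ω) :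
    ∃ w : ℤ, ∀ F : G → ℂ, IsGeneralizedCharacter G F → Cs u F → ∀ (D : ι → ℤ) (t : ℤ),
      (∀ i, F (u i) = D i) → (∀ i, 3 ∣ D i - t) → ∃ X v : ℤ,
        9 * rg (fun y => F (z * y)) ψ.1 = X + 3 * v * ω ∧ 3 ∣ X - t * w ∧
          ((∀ y, F (z * y) = 1 * F y) → v = 0) := by
  obtain ⟨β, b1, b2, b3, b4, b, b5⟩ := h.exists_beta hM hω hψ
  obtain ⟨ψ', hψ', e⟩ := h.exists_conj hM hω hψ
  obtain ⟨h1, h2⟩ := mem_SS.1 hψ
  obtain ⟨h1', h2'⟩ := mem_SS.1 hψ'
  have h3 := cube_of hω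
  refine ⟨-∑ i, b i, fun F hF cF D t hD hDt => ?_⟩
  obtain ⟨n₀, e₀⟩ := hF.exists_int_classInner b1
  obtain ⟨n₁, e₁⟩ := hF.exists_int_classInner ψ.2.isCharacter.isGeneralizedCharacter
  obtain ⟨n₂, e₂⟩ := hF.exists_int_classInner ψ'.2.isCharacter.isGeneralizedCharacter
  have r1 : ∀ F, rg F β = rg F ψ.1 := fun F => by
    rw [rg_congr (a := 1) (fun y _ => (one_mul _).symm) b3]; simp
  have r2 : ∀ F, rg F ψ'.1 = rg F ψ.1 := fun F => by
    rw [rg_congr (a := 1) (fun y _ => (one_mul _).symm) e]; simp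
  rw [h.inner_eq h.cen hF.isClassFunction b1.isClassFunction cF b4 (one_pow 3) b2] at e₀
  rw [h.inner_eq h.cen hF.isClassFunction ψ.isClassFunction cF (h.cs hM h1) h3 h2] at e₁
  rw [h.inner_eq h.cen hF.isClassFunction ψ'.isClassFunction cF (h.cs hM h1')
    (by rw [← pow_mul, mul_comm, pow_mul, h3, one_pow]) h2'] at e₂
  have h4 : ω ^ 2 ≠ 1 := fun e => ne_one_of hω (by rw [← h3, pow_succ, e, one_mul])
  simp only [r1, r2, h.vanish h2 (ne_one_of hω), h.vanish h2' h4, map_zero, mul_zero, zero_div,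
    Finset.sum_const_zero, hD, b5, map_mul, map_ofNat, map_intCast, ← Finset.sum_div] at e₀ e₁ e₂
  have h5 : ∑ i, (D i : ℂ) * (3 * b i) = 3 * (∑ i, D i * b i : ℤ) := by
    push_cast
    rw [Finset.mul_sum]
    exact Finset.sum_congr rfl fun _ _ => by ring
  rw [h5] at e₀
  refine ⟨3 * n₀ - 3 * n₂ - ∑ i, D i * b i, n₁ - n₂, ?_, ?_, fun hz => ?_⟩
  · generalize (∑ i, D i * b i : ℤ) = T at e₀ ⊢
    push_cast
    linear_combination 3 * e₀ + 3 * ω * e₁ + 3 * ω ^ 2 * e₂ + (3 * (n₂ : ℂ) - 3 * rg F ψ.1 -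
      3 * rg (fun y => F (z⁻¹ * y)) ψ.1) * hω - (3 * rg (fun y => F (z * y)) ψ.1 * (ω ^ 3 + 2) +
        3 * ω * rg (fun y => F (z⁻¹ * y)) ψ.1) * h3
  · have : 3 ∣ ∑ i, (D i - t) * b i := Finset.dvd_sum fun i _ => (hDt i).mul_right _
    simp only [sub_mul, Finset.sum_sub_distrib, ← Finset.mul_sum] at this
    rw [mul_neg]
    omega
  · rw [rg_congr (b := 1) (fun y _ => hz y) fun y _ => (one_mul _).symm,
      rg_congr (b := 1) (fun y _ => inv_mul_of (one_pow 3) hz y) fun y _ => (one_mul _).symm]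
      at e₁ e₂
    simp only [map_one, one_mul, one_pow] at e₁ e₂
    have : ((n₁ - n₂ : ℤ) : ℂ) = 0 := by
      push_cast
      linear_combination e₂ - e₁ - ω * rg F ψ.1 * h3
    exact_mod_cast this

theorem main (hω : ω ^ 2 + ω + 1 = 0) [Nonempty ι] : (SS M z ω).card + Fintype.card ι = 6 ∧
    ∀ ψ ∈ SS M z ω, ∃ w : ℤ, ¬ 3 ∣ w ∧ ∀ F : G → ℂ, IsGeneralizedCharacter G F → Cs u F →
      ∀ (D : ι → ℤ) (t : ℤ), (∀ i, F (u i) = D i) → (∀ i, 3 ∣ D i - t) → ∃ X v : ℤ,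
        9 * rg (fun y => F (z * y)) ψ.1 = X + 3 * v * ω ∧ 3 ∣ X - t * w := by
  classical
  obtain ⟨D, t, hD, ht, hDt, c9⟩ := h.cols hM h.real
  obtain ⟨i₀⟩ := ‹Nonempty ι›
  have hs : (pb M G).filter (fun χ => ¬ 3 ∣ t χ) = SS M z 1 := by
    ext χ
    rw [Finset.mem_filter, mem_SS]
    refine and_congr_right fun hχ => ⟨fun e => ?_, fun e e' => ?_⟩
    · obtain ⟨η, -, e'⟩ := h.exists_eta χ
      by_cases h1 : η = 1
      · exact h1 ▸ e'
      · exact absurd (((c9 i₀).1 χ hχ).2 (by exact_mod_cast (hD i₀ χ).symm.trans (h.vanish e' h1 i₀))) e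
    · have h1 := h.inner_irr hM (one_pow 3) (mem_SS.2 ⟨hχ, e⟩)
        (mem_SS.2 ⟨one_mem_pb hM, fun _ => by simp⟩)
      have h2 : χ ≠ irrOne G := fun e'' => by
        have : t χ = 1 := e'' ▸ Int.cast_injective ((ht (irrOne G)).symm.trans Int.cast_one.symm)
        omega
      simp only [if_neg h2, hD, ((c9 _).1 χ hχ).1 e', Int.cast_zero, zero_mul, zero_div,
        Finset.sum_const_zero, add_zero] at h1
      apply (mem_principal_iff_sum hM χ).1 (mem_pb.1 hχ)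
      simpa [rg, classInner_def] using h1
  have key : ∀ ψ ∈ SS M z ω, ∀ w : ℤ, (∀ F : G → ℂ, IsGeneralizedCharacter G F → Cs u F →
      ∀ (D : ι → ℤ) (t : ℤ), (∀ i, F (u i) = D i) → (∀ i, 3 ∣ D i - t) → ∃ X v : ℤ,
        9 * rg (fun y => F (z * y)) ψ.1 = X + 3 * v * ω ∧ 3 ∣ X - t * w ∧
          ((∀ y, F (z * y) = 1 * F y) → v = 0)) → ∃ a : IrrCharacter G → ℤ,
      (∀ α ∈ SS M z 1, 3 ∣ a α - t α * w) ∧ ∑ α ∈ SS M z 1, a α * a α = 9 ∧
        ∑ α ∈ SS M z 1, D i₀ α * a α = 0 := fun ψ hψ w hw => by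
    have : ∀ α : IrrCharacter G, ∃ a : ℤ, α ∈ SS M z 1 →
        9 * rg α.1 ψ.1 = a ∧ 3 ∣ a - t α * w := fun α => by
      by_cases hα : α ∈ SS M z 1
      · obtain ⟨X, v, h1, h2, h3⟩ := hw α.1 α.2.isCharacter.isGeneralizedCharacter
          (h.cs hM (mem_SS.1 hα).1) (D · α) (t α) (hD · α) (hDt · α)
        refine ⟨X, fun _ => ⟨?_, h2⟩⟩
        simpa [h3 (mem_SS.1 hα).2, (mem_SS.1 hα).2] using h1
      · exact ⟨0, fun e => absurd e hα⟩
    choose a ha using this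
    have ha' : ∀ α ∈ SS M z 1, 9 * rg ψ.1 α.1 = a α := fun α hα => by
      simpa [conj_rg, map_ofNat] using congrArg conj (ha α hα).1
    refine ⟨a, fun α hα => (ha α hα).2, ?_, ?_⟩
    · have h1 := (h.gram hM hω hψ hψ).trans (if_pos rfl)
      rw [rg_congr (b := 1) (fun y hy => h.span hM (one_pow 3) (mem_SS.1 hψ).1 hy)
        fun y _ => (one_mul _).symm, rg_sum_left] at h1
      have h2 : ((∑ α ∈ SS M z 1, a α * a α : ℤ) : ℂ) = 81 * ∑ α ∈ SS M z 1,
          rg ψ.1 α.1 * rg α.1 ψ.1 := by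
        push_cast
        rw [Finset.mul_sum]
        exact Finset.sum_congr rfl fun α hα => by
          linear_combination (-(a α : ℂ)) * (ha α hα).1 - 9 * rg α.1 ψ.1 * ha' α hα
      rw [map_one] at h1
      exact_mod_cast h2.trans (by linear_combination 9 * h1 : _ = (9 : ℂ))
    · have h1 := sum_rg_mul hM (mem_SS.1 hψ).1 (u i₀)
      rw [pRegularPart_of_dvd _ (h.ou i₀).symm.dvd, ← Finset.sum_subset (s₁ := SS M z 1)
        (Finset.filter_subset _ _) fun χ hχ hχ' => by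
          obtain ⟨e, -, e'⟩ := h.exists_eta χ
          rw [h.vanish e' fun e'' => hχ' (mem_SS.2 ⟨hχ, e'' ▸ e'⟩), mul_zero]] at h1
      have h2 : ((∑ α ∈ SS M z 1, D i₀ α * a α : ℤ) : ℂ) = 9 * ∑ α ∈ SS M z 1,
          rg ψ.1 α.1 * α.1 (u i₀) := by
        push_cast
        rw [Finset.mul_sum]
        exact Finset.sum_congr rfl fun α hα => by rw [← ha' α hα, hD]; ring
      rw [h1, mul_zero] at h2
      exact_mod_cast h2
  have h1 := h.card_SS hM hω
  have h2 := h.card_SS_one hM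
  refine ⟨?_, fun ψ hψ => ?_⟩
  · obtain e | ⟨-, e⟩ := (c9 i₀).2
    · rw [hs] at e; omega
    · obtain ⟨ψ, hψ⟩ := Finset.card_pos.1 (h1 ▸ blockRank_pos Nat.prime_three
        ⟨_, mem_pb.1 (one_mem_pb hM)⟩)
      obtain ⟨w, hw⟩ := h.int hM hω hψ
      obtain ⟨a, -, a2, a3⟩ := key ψ hψ w hw
      have := parity (hs ▸ e) a3
      rw [a2] at this
      exact absurd this (by decide)
  · obtain ⟨w, hw⟩ := h.int hM hω hψ
    refine ⟨w, fun e => ?_, fun F f1 f2 D t f3 f4 => (hw F f1 f2 D t f3 f4).imp fun _ =>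
      Exists.imp fun _ e => ⟨e.1, e.2.1⟩⟩
    obtain ⟨a, a1, a2, a3⟩ := key ψ hψ w hw
    have h3 : ∀ α ∈ SS M z 1, a α = 3 * (a α / 3) := fun α hα => (Int.mul_ediv_cancel' (by
      simpa using dvd_add (a1 α hα) (e.mul_left (t α)))).symm
    rw [Finset.sum_congr rfl (g := fun α => 9 * (a α / 3 * (a α / 3))) fun α hα => by
      linear_combination (a α + 3 * (a α / 3)) * h3 α hα, ← Finset.mul_sum] at a2
    rw [Finset.sum_congr rfl (g := fun α => 3 * (D i₀ α * (a α / 3))) fun α hα => by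
      linear_combination D i₀ α * h3 α hα, ← Finset.mul_sum] at a3
    refine single (s := SS M z 1) (a := fun α => a α / 3) (d := D i₀) (by omega) (fun α hα => ?_)
      (by omega)
    rw [← hs, Finset.mem_filter] at hα
    exact mt ((c9 i₀).1 α hα.1).2 hα.2

end LH

end Cfsg.Agent.Blk.E27
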