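import Mathlib
import Cfsg.Agent.Blk.E27H

/-!
# The principal 3-block of a group with Sylow subgroup `3^{1+2}_+` and isolated centre
-/

set_option autoImplicit false
set_option linter.style.haveILetI false
set_option linter.unusedSectionVars false

namespace Cfsg.Agent.Blk.E27

open Cfsg.Agent.Blk.PB Cfsg.Agent.GT Cfsg.Agent.Ch Subgroup ComplexConjugate

theorem exists_omega : ∃ ω : ℂ, ω ^ 2 + ω + 1 = 0 := by
  obtain ⟨ω, h⟩ : ∃ ω : ℂ, IsPrimitiveRoot ω 3 := ⟨_, Complex.isPrimitiveRoot_exp 3 (by norm_num)⟩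
  have := h.geom_sum_eq_zero (by norm_num)
  simp only [Finset.sum_range_succ, Finset.range_zero, Finset.sum_empty] at this
  exact ⟨ω, by linear_combination this⟩

theorem gram_int {ι : Type*} {s : Finset ι} {ω : ℂ} (hω : ω ^ 2 + ω + 1 = 0) {X v X' v' : ι → ℤ}
    {c : ℤ} (h1 : ∑ χ ∈ s, ((X χ : ℂ) + 3 * v χ * ω) * conj (X' χ + 3 * v' χ * ω) = 27 * c)
    (h2 : ∑ χ ∈ s, ((X χ : ℂ) + 3 * v χ * ω) * (X' χ + 3 * v' χ * ω) = 0) :
    ∑ χ ∈ s, X χ * X' χ = 18 * c ∧ ∑ χ ∈ s, v χ * v' χ = 2 * c ∧ ∑ χ ∈ s, X χ * v' χ = 3 * c := by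
  have e : ∀ a b : ℂ, ∑ χ ∈ s, ((X χ : ℂ) + 3 * v χ * a) * (X' χ + 3 * v' χ * b) =
      (∑ χ ∈ s, X χ * X' χ : ℤ) + 3 * b * (∑ χ ∈ s, X χ * v' χ : ℤ) +
        3 * a * (∑ χ ∈ s, v χ * X' χ : ℤ) + 9 * a * b * (∑ χ ∈ s, v χ * v' χ : ℤ) := fun a b => by
    push_cast
    simp only [Finset.mul_sum, ← Finset.sum_add_distrib]
    exact Finset.sum_congr rfl fun _ _ => by ring
  simp only [map_add, map_mul, map_intCast, map_ofNat, conj_cube (cube_of hω)] at h1
  rw [e] at h1 h2
  generalize ∑ χ ∈ s, X χ * X' χ = A at *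
  generalize ∑ χ ∈ s, X χ * v' χ = B at *
  generalize ∑ χ ∈ s, v χ * X' χ = C at *
  generalize ∑ χ ∈ s, v χ * v' χ = D at *
  have a1 := indep hω (a := A + 9 * D - 27 * c - 3 * B) (b := 3 * C - 3 * B) (by
    push_cast
    linear_combination h1 - 3 * (B : ℂ) * hω - 9 * (D : ℂ) * cube_of hω)
  have a2 := indep hω (a := A - 9 * D) (b := 3 * B + 3 * C - 9 * D) (by
    push_cast
    linear_combination h2 - 9 * (D : ℂ) * hω)
  omega

variable {G : Type*} [Group G] [Fintype G] {M : Ideal AlgInt} {ι : Type*} [Fintype ι] {z : G}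

open Classical in
theorem main (hM : IsPModular 3 M) [Nonempty ι] {u : ι → centralizer ({z} : Set G)}
    (h : LD z fun i => (u i : G)) (h' : LH (Hy.zH z) u)
    (hz : ¬ 3 ∣ (centralizer ({z} : Set G)).index)
    (hl : ∀ i, blockRank 3 (principalBlock M (centralizer ({(u i : G)} : Set G))) = 1) :
    ((pb M G).filter fun χ => ¬ 3 ∣ charDegree χ.1).card = 6 ∧
      (pb M G).card + 2 * Fintype.card ι = 18 ∧
      blockRank 3 (principalBlock M G) + Fintype.card ι = 6 := by
  obtain ⟨ω, hω⟩ := exists_omega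
  set C := centralizer ({z} : Set G)
  have hC : ∀ g, g ∈ C ↔ g * z = z * g := fun _ => mem_centralizer_singleton_iff
  have hk : ∃ k, orderOf z = 3 ^ k := ⟨1, h.oz⟩
  obtain ⟨h6, hw⟩ := h'.main hM hω
  choose w hw1 hw2 using fun j : SS M (Hy.zH z) ω => hw j.1 j.2
  obtain ⟨D, t, d1, d2, d3, d4, d5, d6, d7⟩ := h.cols' hM fun i => C.subtype.map_isConj (h'.real i)
  have : ∀ (j : SS M (Hy.zH z) ω) (χ : IrrCharacter G), ∃ X v : ℤ, χ ∈ pb M G →
      9 * col 3 z C χ.1 j.1.1 = X + 3 * v * ω ∧ 3 ∣ X - t χ * w j := fun j χ => by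
    by_cases hχ : χ ∈ pb M G
    · obtain ⟨X, v, e⟩ := hw2 j (fun c => χ.1 c)
        (χ.2.isCharacter.comp C.subtype).isGeneralizedCharacter
        (fun i g hg => h.cs hM hχ i g (hg.map_injective C.subtype C.subtype_injective))
        (D · χ) (t χ) (d1 · χ) (d3 · χ)
      exact ⟨X, v, fun _ => e⟩
    · exact ⟨0, 0, fun e => absurd e hχ⟩
  choose X v hX using this
  have o1 : ∀ (j : SS M (Hy.zH z) ω) {g x : G}, IsPPart 3 g x → ¬ IsConj x⁻¹ z →
      ∑ χ ∈ pb M G, χ.1 g * col 3 z C χ.1 j.1.1 = 0 := fun j g x hg hx => by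
    have := congrArg conj (sum_apply_mul_conj_col hM hk hC j.1.1 hg.inv hx)
    simpa [fun χ : IrrCharacter G => χ.2.isCharacter.conj_apply] using this
  have g1 : ∀ i j : SS M (Hy.zH z) ω, ∑ χ ∈ pb M G, X i χ * X j χ = 18 * (if i = j then 1 else 0) ∧
      ∑ χ ∈ pb M G, v i χ * v j χ = 2 * (if i = j then 1 else 0) ∧
      ∑ χ ∈ pb M G, X i χ * v j χ = 3 * (if i = j then 1 else 0) := fun i j => by
    refine gram_int hω ?_ ?_
    · have h1 := sum_col_mul_conj_col Nat.prime_three hk hC i.1.1 j.1.isClassFunction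
      rw [sum_eq_sum_pb (M := M) fun χ hχ => by
        rw [col_eq_zero_of_notMem hM hk hC hχ (mem_pb.1 (mem_SS.1 i.2).1), zero_mul]] at h1
      have h2 := h'.gram hM hω j.2 i.2
      rw [Finset.sum_congr rfl (g := fun χ => 81 * (col 3 z C χ.1 i.1.1 * conj (col 3 z C χ.1 j.1.1)))
        fun χ hχ => by rw [← (hX i χ hχ).1, ← (hX j χ hχ).1, map_mul, map_ofNat]; ring,
        ← Finset.mul_sum, h1]
      rw [rg] at h2
      split_ifs with e
      · rw [if_pos (by rw [e])] at h2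
        push_cast
        linear_combination 27 * h2
      · rw [if_neg fun e' => e (Subtype.ext e'.symm)] at h2
        push_cast
        linear_combination 27 * h2
    · rw [Finset.sum_congr rfl (g := fun χ => 81 * (col 3 z C χ.1 i.1.1 * col 3 z C χ.1 j.1.1))
        fun χ hχ => by rw [← (hX i χ hχ).1, ← (hX j χ hχ).1]; ring, ← Finset.mul_sum]
      rw [Finset.sum_congr rfl fun χ _ => by rw [col_def, mul_assoc, Finset.sum_mul],
        ← Finset.mul_sum, Finset.sum_comm, Finset.sum_eq_zero, mul_zero, mul_zero]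
      intro y _
      split_ifs with hy
      · simp
      · have := o1 j (isPPart_mul_of_regular hk hC hy) fun e => h.zz e.symm
        simp only [mul_right_comm _ (conj _), ← Finset.sum_mul, this, zero_mul]
  have g2 : ∀ i (j : SS M (Hy.zH z) ω), ∑ χ ∈ pb M G, D i χ * X j χ = 0 ∧
      3 * ∑ χ ∈ pb M G, D i χ * v j χ = 0 := fun i j => by
    refine indep hω ?_
    have := o1 j (isPPart_self Nat.prime_three ⟨1, h.ou i⟩) fun e =>
      h.zu i (e.symm.trans (C.subtype.map_isConj (h'.real i)).symm)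
    push_cast
    rw [← mul_zero 9, ← this]
    simp only [Finset.mul_sum, Finset.sum_mul, ← Finset.sum_add_distrib]
    exact Finset.sum_congr rfl fun χ hχ => by
      rw [mul_left_comm 9, (hX j χ hχ).1, d1]; ring
  have h1 := h.card_eq hM hl
  have h2 := h'.card_SS hM hω
  have h3 := blockRank_pos Nat.prime_three (B := principalBlock M G) ⟨_, mem_pb.1 (one_mem_pb hM)⟩
  have h4 := comb (J := SS M (Hy.zH z) ω) (by rwa [Fintype.card_coe]) (one_mem_pb hM) d4 d5 d6
    (fun i χ _ => d3 i χ) d7 (fun j χ hχ => (hX j χ hχ).2) hw1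
    (fun i j => by simpa using (g1 i j).1) (fun i j => by simpa using (g1 i j).2.1)
    (fun i j => by simpa using (g1 i j).2.2) (fun i j => (g2 i j).1)
    (fun i j => by have := (g2 i j).2; omega) (fun χ hχ => by
      by_contra! e
      have a1 : ∀ ψ ∈ SS M (Hy.zH z) ω, col 3 z C χ.1 ψ.1 = 0 := fun ψ hψ => by
        simpa [e] using (hX ⟨ψ, hψ⟩ χ hχ).1
      have a2 := apply_mul_eq_sum_col hM hk hC (mem_pb.1 hχ) (y := 1) (by simp)
      rw [OneMemClass.coe_one, mul_one, Finset.sum_eq_zero fun φ hφ => by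
        have := rg_congr (F := φ.1) (f := fun c : C => χ.1 (z * c)) (b := 1)
          (fun y hy => h'.span hM (cube_of hω) hφ hy) fun y _ => (one_mul _).symm
        rw [rg_sum_left, Finset.sum_eq_zero fun ψ hψ => by
          rw [← conj_rg ((fun c : C => χ.1 (z * c))), show rg _ _ = 0 from a1 ψ hψ, map_zero,
            mul_zero], mul_zero] at this
        rw [show col 3 z C χ.1 φ.1 = conj (rg φ.1 fun c : C => χ.1 (z * c)) from
          (conj_rg _ _).symm, this, map_zero, zero_mul]] at a2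
      exact apply_ne_zero hM (mem_pb.1 hχ) hz a2) (by rw [Fintype.card_coe]; omega)
  rw [Fintype.card_coe] at h4
  refine ⟨?_, by omega, by omega⟩
  rw [← h4.1]
  congr 1
  refine Finset.filter_congr fun χ _ => ?_
  rw [show t χ = charDegree χ.1 by exact_mod_cast (d2 χ).symm.trans χ.2.coe_charDegree.symm]
  norm_cast

theorem card_of_sq {κ : Type*} {s : Finset κ} {t : κ → ℕ} (h0 : ∀ χ ∈ s, 0 < t χ)
    (h : ∑ χ ∈ s, t χ * t χ = 27) (h11 : s.card = 11) : (s.filter fun χ => ¬ 3 ∣ t χ).card = 9 := by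
  classical
  have h1 : ∀ χ ∈ s, t χ * t χ ≤ 17 := fun χ hχ => by
    have := Finset.card_nsmul_le_sum (s.erase χ) (fun ψ => t ψ * t ψ) 1 fun ψ hψ =>
      Nat.mul_pos (h0 ψ (Finset.mem_of_mem_erase hψ)) (h0 ψ (Finset.mem_of_mem_erase hψ))
    rw [← Finset.add_sum_erase _ _ hχ] at h
    rw [Finset.card_erase_of_mem hχ, h11, smul_eq_mul] at this
    omega
  rw [Finset.sum_congr rfl (g := fun χ => 1 + ((if t χ = 3 then 8 else 0) + ((if t χ = 2 then 3
    else 0) + if t χ = 4 then 15 else 0))) fun χ hχ => by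
      have := h0 χ hχ
      have h2 := h1 χ hχ
      have : t χ ≤ 4 := by nlinarith
      interval_cases t χ <;> simp] at h
  simp only [Finset.sum_add_distrib, ← Finset.sum_filter, Finset.sum_const, smul_eq_mul] at h
  have h3 := Finset.card_filter_add_card_filter_not (s := s) fun χ => 3 ∣ t χ
  rw [Finset.filter_congr (p := fun χ => 3 ∣ t χ) (q := fun χ => t χ = 3) fun χ hχ => by
    have := h0 χ hχ
    have h2 := h1 χ hχ
    have : t χ ≤ 4 := by nlinarith
    omega] at h3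
  omega

end Cfsg.Agent.Blk.E27
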