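import Mathlib
import Cfsg.Agent.Blk.PB0
import Cfsg.Agent.Blk.PBColumn2
import Cfsg.Agent.Ch.Linear
import Cfsg.Agent.GT.CoprimeGen
import Cfsg.Agent.GT.PPrimeCore
import Cfsg.Agent.GT.MinNormal
import Cfsg.Agent.S0934
import Cfsg.Agent.S0938
import Cfsg.Agent.S0942
import Cfsg.Agent.S4487

/-!
# Principal 2-blocks whose characters are multiplicity free on an elementary abelian Sylow subgroup
-/

set_option autoImplicit false
set_option linter.unusedSectionVars false

namespace Cfsg.Agent.Blk.MFr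

open Cfsg Cfsg.Agent.Ch Cfsg.Agent.Blk.PB Subgroup
open scoped ComplexConjugate commutatorElement

section group

variable {G : Type*} [Group G] [Finite G] {p : ℕ} [hp : Fact p.Prime]

/-- Burnside's transfer theorem inside a normal subgroup of a group with trivial `p'`-core. -/
theorem le_of_burnside (hO : pPrimeCore p G = ⊥) {K T : Subgroup G} [K.Normal] (hTK : T ≤ K)
    (hT : IsPGroup p T) (hi : ¬ p ∣ T.relIndex K)
    (h : ∀ g ∈ K, g ∈ normalizer (T : Set G) → g ∈ centralizer (T : Set G)) : K ≤ T := by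
  let S : Sylow p K := (hT.of_equiv (subgroupOfEquivOfLe hTK).symm).toSylow hi
  have hS : (S : Subgroup K) = T.subgroupOf K := rfl
  have hN : normalizer ((S : Subgroup K) : Set K) ≤ centralizer ((S : Subgroup K) : Set K) := by
    intro g hg x hx
    rw [hS, ← subgroupOf_normalizer_eq hTK, mem_subgroupOf] at hg
    exact Subtype.ext (h g g.2 hg x hx)
  have hc := MonoidHom.ker_transferSylow_isComplement' S hN
  have h1 : ((MonoidHom.transferSylow S hN).ker.map K.subtype) ≤ ⊥ := by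
    rw [← hO]
    refine GT.le_pPrimeCore_of_isSubnormal ?_ ?_
    · exact (Normal.isSubnormal inferInstance).trans' (Normal.isSubnormal inferInstance)
    · rw [card_subtype, ← hc.index_eq_card]
      exact (hp.out.coprime_iff_not_dvd.2 S.not_dvd_index).symm
  rw [le_bot_iff, map_eq_bot_iff_of_injective _ K.subtype_injective] at h1
  rw [h1, isComplement'_bot_left, hS, subgroupOf_eq_top] at hc
  exact hc

theorem centralizer_le (hO : pPrimeCore p G = ⊥) (W : Sylow p G) [(W : Subgroup G).Normal]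
    (hW : ∀ a ∈ (W : Subgroup G), ∀ b ∈ (W : Subgroup G), a * b = b * a) :
    centralizer ((W : Subgroup G) : Set G) ≤ W :=
  le_of_burnside hO (fun a ha b hb => hW b hb a ha) W.isPGroup'
    (fun h => W.not_dvd_index (h.trans (relIndex_dvd_index_of_le fun a ha b hb => hW b hb a ha)))
    fun _ hg _ => hg

theorem eq_one_of_orderOf {x : G} {k : ℕ} (h1 : orderOf x = p ^ k) (h2 : ¬ p ∣ orderOf x) :
    x = 1 := by
  rcases k with _ | k
  · exact orderOf_eq_one_iff.1 h1
  · exact absurd (h1 ▸ dvd_pow_self p k.succ_ne_zero) h2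

theorem le_core_of_normal (W : Sylow p G) (hN : ((W : Subgroup G) ⊔ pPrimeCore p G).Normal)
    (hW : ∀ a ∈ (W : Subgroup G), ∀ b ∈ (W : Subgroup G), a * b = b * a) {D : Subgroup G}
    (hD : ¬ p ∣ Nat.card D) (hWD : (W : Subgroup G) ≤ normalizer (D : Set G)) :
    D ≤ pPrimeCore p G := by
  set π := QuotientGroup.mk' (pPrimeCore p G) with hπ
  have hs : Function.Surjective π := QuotientGroup.mk'_surjective _
  set W' := W.mapSurjective hs with hW'
  have hW'e : (W' : Subgroup (G ⧸ pPrimeCore p G)) = (W : Subgroup G).map π := rfl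
  have : (W' : Subgroup (G ⧸ pPrimeCore p G)).Normal := by
    have := hN.map π hs
    rwa [Subgroup.map_sup, QuotientGroup.map_mk'_self, sup_bot_eq] at this
  have hc := centralizer_le GT.pPrimeCore_quotient_pPrimeCore W' (by
    rintro _ ⟨a, ha, rfl⟩ _ ⟨b, hb, rfl⟩
    rw [← map_mul, hW a ha b hb, map_mul])
  have h1 : ∀ d ∈ D, π d ∈ (W' : Subgroup (G ⧸ pPrimeCore p G)) → π d = 1 := fun d hd hw => by
    obtain ⟨k, hk⟩ := IsPGroup.iff_orderOf.1 W'.isPGroup' ⟨_, hw⟩
    rw [← orderOf_coe] at hk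
    exact eq_one_of_orderOf hk fun h =>
      hD (h.trans ((orderOf_map_dvd π d).trans (Subgroup.orderOf_dvd_natCard D hd)))
  intro d hd
  rw [← QuotientGroup.eq_one_iff, ← QuotientGroup.mk'_apply]
  refine h1 d hd (hc ?_)
  rintro _ ⟨w, hw, rfl⟩
  have h2 := h1 (w * d * w⁻¹ * d⁻¹) (mul_mem ((mem_normalizer_iff.1 (hWD hw) d).1 hd) (inv_mem hd))
    (by
      have h3 := this.conj_mem _ (inv_mem (mem_map_of_mem π hw)) (π d)
      have := mul_mem (mem_map_of_mem π hw) h3
      simpa [mul_assoc, hW'e] using this)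
  simp only [map_mul, map_inv] at h2
  rwa [mul_inv_eq_one, mul_inv_eq_iff_eq_mul] at h2

theorem mem_of_mem_normalizer (W : Sylow p G) {x : G} {k : ℕ} (hx : orderOf x = p ^ k)
    (h : x ∈ normalizer ((W : Subgroup G) : Set G)) : x ∈ (W : Subgroup G) := by
  have h1 : IsPGroup p (zpowers x) := IsPGroup.of_card (by rw [Nat.card_zpowers, hx])
  have h2 := h1.inf_normalizer_sylow W
  exact (mem_inf.1 (h2 ▸ mem_inf.2 ⟨mem_zpowers x, h⟩ : x ∈ zpowers x ⊓ (W : Subgroup G))).2

end group

/-- The multiplicities of the irreducible constituents are at most one. -/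
def MF {W : Type*} [Group W] (θ : W → ℂ) : Prop :=
  ∀ [Fintype W] (φ : IrrCharacter W), (classInner θ φ).re ≤ 1

theorem MF.of_surjective {W W' : Type*} [Group W] [Finite W] [Group W'] (f : W →* W')
    (hf : Function.Surjective f) {θ : W' → ℂ} (h : MF fun w => θ (f w)) : MF θ := fun φ => by
  have := Fintype.ofFinite W
  have := h ⟨_, φ.2.comp_surjective f hf⟩
  rwa [classInner_comp_surjective f hf] at this

theorem MF.of_sub {W : Type*} [Group W] {θ θ' : W → ℂ} (h : MF θ)
    (hs : IsCharacter W (θ - θ')) : MF θ' := fun φ => by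
  obtain ⟨n, hn⟩ := hs.exists_nat_classInner φ.2.isCharacter
  have h1 := h φ
  rw [classInner_sub_left, sub_eq_iff_eq_add] at hn
  rw [hn, Complex.add_re, Complex.natCast_re] at h1
  have : (0 : ℝ) ≤ n := by positivity
  linarith

theorem apply_eq_of_central {B X : Type*} [Group B] [Fintype B] [Group X] [Finite X] (ι : B →* X)
    (hι : ∀ b, ι b ∈ center X) {θ : X → ℂ} (hθ : IsCharacter X θ) (ν : B →* ℂˣ) {r : ℕ}
    (hr : (classInner (fun b => θ (ι b)) fun b => (ν b : ℂ)).re ≤ r) {y : X}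
    (hy : ∀ φ : IrrCharacter X, charDegree (φ : X → ℂ) ≤ r → (φ : X → ℂ) y = (φ : X → ℂ) 1)
    (h : ∀ b, b ≠ 1 → θ (ι b * y) = θ (ι b)) : θ y = θ 1 := by
  classical
  have := Fintype.ofFinite X
  have key : ∀ φ : IrrCharacter X, classInner θ φ ≠ 0 →
      ∑ b, (φ : X → ℂ) (ι b * y) * conj (ν b : ℂ) = ∑ b, (φ : X → ℂ) (ι b) * conj (ν b : ℂ) :=
    fun φ hφ => by
      obtain ⟨lam, h1, -⟩ := φ.2.exists_center_hom
      set c := lam.comp (ι.codRestrict _ hι) with hc
      have h2 : ∀ b x, (φ : X → ℂ) (ι b * x) = c b * (φ : X → ℂ) x := fun b x => h1 ⟨_, hι b⟩ x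
      have h3 : ∀ b, (φ : X → ℂ) (ι b) = c b * (φ : X → ℂ) 1 := fun b => by rw [← h2, mul_one]
      have h4 := classInner_monoidHom_units c ν
      by_cases h5 : c = ν
      · suffices h7 : charDegree (φ : X → ℂ) ≤ r from
          Finset.sum_congr rfl fun b _ => by rw [h2, hy φ h7, ← h3]
        obtain ⟨n, hn⟩ := ((hθ.sub_irr φ.2 hφ).comp ι).exists_nat_classInner
          (isCharacter_monoidHom_units ν)
        have h6 : (fun b => θ (ι b)) = (fun b => (θ - φ) (ι b)) +
            (φ : X → ℂ) 1 • fun b => (c b : ℂ) := by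
          ext b; simp [h3, mul_comm]
        rw [h6, classInner_add_left, hn, classInner_smul_left, h4, if_pos h5, mul_one,
          ← φ.2.coe_charDegree, ← Nat.cast_add, Complex.natCast_re, Nat.cast_le] at hr
        omega
      · rw [if_neg h5, classInner_def, mul_eq_zero] at h4
        have h6 := h4.resolve_left (inv_ne_zero (natCard_ne_zero _))
        simp only [h2, h3, mul_right_comm _ _ (conj _), ← Finset.sum_mul, h6, zero_mul]
  have h1 : ∑ b, θ (ι b * y) * conj (ν b : ℂ) = ∑ b, θ (ι b) * conj (ν b : ℂ) := by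
    simp only [hθ.isClassFunction.apply_eq_sum_irr (ι _ * y),
      hθ.isClassFunction.apply_eq_sum_irr (ι _), Finset.sum_mul, mul_assoc]
    rw [Finset.sum_comm, Finset.sum_comm (s := Finset.univ (α := B))]
    refine Finset.sum_congr rfl fun φ _ => ?_
    rw [← Finset.mul_sum, ← Finset.mul_sum]
    by_cases hφ : classInner θ φ = 0
    · simp [hφ]
    · rw [key φ hφ]
  rw [← Finset.add_sum_erase _ _ (Finset.mem_univ (1 : B)),
    ← Finset.add_sum_erase _ _ (Finset.mem_univ (1 : B)),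
    Finset.sum_congr rfl fun b hb => by rw [h b (Finset.ne_of_mem_erase hb)], add_left_inj] at h1
  simpa using h1

theorem exists_mult_zero {W : Type*} [Group W] [Fintype W] (hW : ∀ a b : W, a * b = b * a)
    {θ : W → ℂ} (hθ : IsCharacter W θ) (h : MF θ) {w : W} (hw : w ≠ 1) (h0 : θ w ≠ 0) :
    ∃ l : W →* ℂˣ, classInner θ (fun x => (l x : ℂ)) = 0 := by
  by_contra hc
  push Not at hc
  apply h0
  rw [hθ.isClassFunction.apply_eq_sum_irr, ← sum_degree_mul_apply_of_ne hw]
  refine Finset.sum_congr rfl fun φ _ => ?_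
  obtain ⟨l, hl⟩ := φ.2.exists_monoidHom_of_comm hW
  obtain ⟨n, hn⟩ := hθ.exists_nat_classInner φ.2.isCharacter
  have h1 := h φ
  have h2 : classInner θ φ ≠ 0 := hl ▸ hc l
  rw [hn] at h1 h2 ⊢
  rw [Complex.natCast_re, Nat.cast_le_one] at h1
  rw [Nat.cast_ne_zero] at h2
  rw [φ.2.apply_one_eq_one_of_comm hW, show n = 1 by omega, Nat.cast_one]

theorem exists_mult_le_one {W : Type*} [Group W] [Fintype W] (hW : ∀ a b : W, a * b = b * a)
    {θ : W → ℂ} (hθ : IsCharacter W θ) (h : MF θ) {w : W} (hw : w ≠ 1) (h0 : θ w ≠ 0)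
    (B : Subgroup W) [Fintype B] (hB : B.index = 2) :
    ∃ ν : B →* ℂˣ, (classInner (fun b : B => θ b) fun b => (ν b : ℂ)).re ≤ (1 : ℕ) := by
  classical
  obtain ⟨l, hl⟩ := exists_mult_zero hW hθ h hw h0
  refine ⟨l.comp B.subtype, ?_⟩
  choose f hf using fun φ : IrrCharacter W => φ.2.exists_monoidHom_of_comm hW
  obtain ⟨m, hm, hs⟩ := hθ.exists_mult
  have h1 : (fun b : B => θ b) = ∑ φ : IrrCharacter W, (m φ : ℂ) • fun b => ((f φ).comp B.subtype b : ℂ) := by
    ext b
    rw [hθ.isClassFunction.apply_eq_sum_irr]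
    simp only [hm, Finset.sum_apply, Pi.smul_apply, smul_eq_mul, MonoidHom.comp_apply, coe_subtype]
    exact Finset.sum_congr rfl fun φ _ => by rw [← congrFun (hf φ) b]
  rw [h1, classInner_sum_left]
  simp only [classInner_smul_left, classInner_monoidHom_units, mul_ite, mul_one, mul_zero]
  rw [← Finset.sum_filter, ← Nat.cast_sum, Complex.natCast_re, Nat.cast_le,
    ← Finset.sum_filter_ne_zero]
  have hm1 : ∀ φ, m φ ≤ 1 := fun φ => by
    have := h φ
    rwa [hm, Complex.natCast_re, Nat.cast_le_one] at this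
  refine (Finset.sum_le_card_nsmul _ _ 1 fun φ _ => hm1 φ).trans ?_
  rw [smul_eq_mul, mul_one, Finset.card_le_one]
  have key : ∀ φ ∈ (Finset.univ.filter fun φ => (f φ).comp B.subtype = l.comp B.subtype).filter
      (fun φ => m φ ≠ 0), ∀ x, f φ x = if x ∈ B then l x else -l x := fun φ hφ x => by
    obtain ⟨h2, h3⟩ := Finset.mem_filter.1 hφ
    have h4 : ∀ b ∈ B, f φ b = l b := fun b hb =>
      DFunLike.congr_fun (Finset.mem_filter.1 h2).2 ⟨b, hb⟩
    split_ifs with hx
    · exact h4 x hx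
    · have h5 := h4 _ (B.mul_self_mem_of_index_two hB x)
      rw [map_mul, map_mul] at h5
      refine Units.ext ((mul_self_eq_mul_self_iff.1 (congrArg Units.val h5)).resolve_left
        fun h6 => h3 ?_)
      replace h6 : f φ x = l x := Units.ext h6
      have h7 : f φ = l := MonoidHom.ext fun z => by
        by_cases hz : z ∈ B
        · exact h4 z hz
        · have := h4 _ ((B.mul_mem_iff_of_index_two hB).2 (iff_of_false hz hx))
          rwa [map_mul, map_mul, h6, mul_left_inj] at this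
      have h8 : (m φ : ℂ) = 0 := by rw [← hm, hf φ, h7, hl]
      exact_mod_cast h8
  intro φ hφ ψ hψ
  refine Subtype.ext ?_
  rw [hf φ, hf ψ]
  ext x
  rw [key φ hφ, key ψ hψ]

variable {G : Type*} [Group G] [Finite G] {M : Ideal AlgInt}

theorem comm_of_sq {W : Subgroup G} (hW : ∀ w ∈ W, w * w = 1) :
    ∀ a ∈ W, ∀ b ∈ W, a * b = b * a := fun a ha b hb => by
  have h1 := hW _ (mul_mem ha hb)
  calc a * b = (a * b)⁻¹ := (inv_eq_of_mul_eq_one_right h1).symm
    _ = b * a := by
      rw [mul_inv_rev, inv_eq_of_mul_eq_one_right (hW a ha), inv_eq_of_mul_eq_one_right (hW b hb)]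

theorem orderOf_of_sq {w : G} (h : w * w = 1) (h1 : w ≠ 1) : orderOf w = 2 :=
  orderOf_eq_prime (by rw [sq, h]) h1

theorem le_cent {W : Subgroup G} (hW : ∀ w ∈ W, w * w = 1) {h : G} (hh : h ∈ W) :
    W ≤ centralizer ({h} : Set G) := fun w hw =>
  mem_centralizer_singleton_iff.2 (comm_of_sq hW w hw h hh)

theorem apply_ne_zero' (hM : IsPModular 2 M) (W : Sylow 2 G)
    (hW : ∀ w ∈ (W : Subgroup G), w * w = 1) {χ : IrrCharacter G} (hχ : χ ∈ principalBlock M G)
    {h : G} (hh : h ∈ (W : Subgroup G)) : (χ : G → ℂ) h ≠ 0 :=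
  apply_ne_zero hM hχ fun e => W.not_dvd_index (e.trans (index_dvd_of_le (le_cent hW hh)))

/-- The local condition: the Sylow subgroup is normal modulo the core in involution centralisers. -/
def LocTC (W : Sylow 2 G) : Prop :=
  ∀ h ∈ (W : Subgroup G), h ≠ 1 → ((W : Subgroup G).subgroupOf (centralizer ({h} : Set G)) ⊔
    pPrimeCore 2 (centralizer ({h} : Set G))).Normal

theorem eq_bot_of_odd (hM : IsPModular 2 M) (W : Sylow 2 G)
    (hW : ∀ w ∈ (W : Subgroup G), w * w = 1) (h4 : 2 < Nat.card W) (hL : LocTC W)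
    (J : Set (IrrCharacter G)) (hJ : ∀ χ ∈ J, χ ∈ principalBlock M G ∧
      MF fun w : (W : Subgroup G) => (χ : G → ℂ) w)
    (hk : ∀ g, (∀ χ ∈ J, (χ : G → ℂ) g = (χ : G → ℂ) 1) → g = 1) {D : Subgroup G}
    (hD : ¬ 2 ∣ Nat.card D) (hWD : (W : Subgroup G) ≤ normalizer (D : Set G)) : D = ⊥ := by
  have hc := comm_of_sq hW
  have hc' : ∀ a b : (W : Subgroup G), a * b = b * a := fun a b => Subtype.ext (hc a a.2 b b.2)
  have := Fintype.ofFinite (W : Subgroup G)
  have hW1 : (W : Subgroup G) ≠ ⊥ := fun e => by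
    have : Nat.card W = 1 := (card_eq_one (H := (W : Subgroup G))).2 e
    omega
  obtain ⟨w, hw1⟩ := ne_bot_iff_exists_ne_one.1 hW1
  refine le_bot_iff.1 (GT.CopAct.le_of_hyperplane_centralizer_le (p := 2)
    ⟨⟨⟨hc'⟩⟩, fun a ha => by rw [sq, hW a ha]⟩ hW1 hWD hD fun B hBW hB => ?_)
  set E := D ⊓ centralizer (B : Set G) with hE
  have hE2 : ¬ 2 ∣ Nat.card E := fun e => hD (e.trans (card_dvd_of_le inf_le_left))
  have hWE : (W : Subgroup G) ≤ normalizer (E : Set G) := fun x hx => by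
    refine inf_normalizer_le_normalizer_inf ⟨hWD hx, le_normalizer ?_⟩
    exact fun b hb => hc b (hBW hb) x hx
  have hval : ∀ h ∈ (W : Subgroup G), h ≠ 1 → ∀ y ∈ E, (∀ y ∈ E, y * h = h * y) →
      ∀ χ ∈ J, (χ : G → ℂ) (h * y) = (χ : G → ℂ) h := fun h hh h1 y hy hEh χ hχ => by
    have hEC : E ≤ centralizer ({h} : Set G) := fun y hy =>
      mem_centralizer_singleton_iff.2 (hEh y hy)
    refine S0942.result 2 M hM h ⟨1, orderOf_of_sq (hW h hh) h1⟩ y ?_ χ (hJ χ hχ).1
    refine ⟨⟨y, hEC hy⟩, le_core_of_normal (W.subtype (le_cent hW hh)) (hL h hh h1)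
      (fun a ha b hb => Subtype.ext (hc a ha b hb)) (D := E.subgroupOf _) ?_ ?_ hy, rfl⟩
    · rwa [Nat.card_congr (subgroupOfEquivOfLe hEC).toEquiv]
    · rw [← subgroupOf_normalizer_eq hEC]
      exact fun x hx => hWE hx
  have hEW : ∀ y ∈ E, ∀ s ∈ (W : Subgroup G), y * s = s * y := fun y hy s hs => by
    have hWB : (W : Subgroup G) ≤ centralizer (B : Set G) := fun x hx b hb => hc b (hBW hb) x hx
    have h1 : y * s * y⁻¹ * s⁻¹ ∈ E := by
      have := mul_mem hy ((mem_normalizer_iff.1 (hWE hs) _).1 (inv_mem hy))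
      simpa [mul_assoc] using this
    have := Fintype.ofFinite (B.subgroupOf (W : Subgroup G))
    rw [← mul_inv_eq_iff_eq_mul, ← mul_inv_eq_one]
    refine hk _ fun χ hχ => ?_
    obtain ⟨ν, hν⟩ := exists_mult_le_one hc' (χ.2.isCharacter.restrict _) (hJ χ hχ).2 hw1
      (apply_ne_zero' hM W hW (hJ χ hχ).1 w.2) (B.subgroupOf (W : Subgroup G)) hB
    exact apply_eq_of_central (X := centralizer (B : Set G))
      ((inclusion hWB).comp (B.subgroupOf (W : Subgroup G)).subtype)
      (fun b => mem_center_iff.2 fun g => Subtype.ext (g.2 _ b.2).symm)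
      (χ.2.isCharacter.restrict _) ν hν (y := ⟨_, h1.2⟩) (fun φ hφ => by
        have h2 := φ.2.charDegree_pos
        have h3 : (φ : centralizer (B : Set G) → ℂ) 1 = 1 := by
          rw [← φ.2.coe_charDegree, show charDegree (φ : centralizer (B : Set G) → ℂ) = 1 by omega, Nat.cast_one]
        exact apply_eq_of_mem_charKer (φ.2.apply_one_eq_one_iff_commutator_le.1 h3
          (commutator_mem_commutator (mem_top (⟨y, hy.2⟩ : centralizer (B : Set G)))
            (mem_top (⟨s, hWB hs⟩ : centralizer (B : Set G))))))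
      fun b hb => hval _ b.1.2 (fun e => hb (Subtype.ext (Subtype.ext e))) _ h1
        (fun y hy => (hy.2 _ b.2).symm) χ hχ
  intro y hy
  refine hk _ fun χ hχ => ?_
  obtain ⟨l, hl⟩ := exists_mult_zero hc' (χ.2.isCharacter.restrict _) (hJ χ hχ).2 hw1
    (apply_ne_zero' hM W hW (hJ χ hχ).1 w.2)
  exact apply_eq_of_central (X := centralizer ((W : Subgroup G) : Set G)) (r := 0)
    (inclusion fun x hx b hb => hc b hb x hx)
    (fun b => mem_center_iff.2 fun g => Subtype.ext (g.2 _ b.2).symm)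
    (χ.2.isCharacter.restrict _) l ((congrArg Complex.re hl).le.trans (by simp))
    (y := ⟨y, fun s hs => (hEW y hy s hs).symm⟩)
    (fun φ hφ => absurd φ.2.charDegree_pos (by omega))
    fun b hb => hval _ b.2 (fun e => hb (Subtype.ext e)) _ hy (fun y hy => hEW y hy _ b.2) χ hχ

end Cfsg.Agent.Blk.MFr
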