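import Mathlib
import Cfsg.Agent.Blk.MultFree
import Cfsg.Agent.Inv.SE
import Cfsg.Agent.Deg.Over

/-!
# Principal 2-blocks that are multiplicity free on an elementary abelian Sylow subgroup, II
-/

set_option autoImplicit false
set_option linter.unusedSectionVars false

namespace Cfsg.Agent.Blk.MFr

open Cfsg Cfsg.Agent.Ch Cfsg.Agent.Blk.PB Subgroup
open scoped ComplexConjugate commutatorElement

variable {G : Type*} [Group G] [Finite G] {M : Ideal AlgInt}

/-- Characters outside the principal block vanish at `p`-elements whose centraliser has only one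
block. -/
theorem apply_eq_zero_of_notMem {p : ℕ} (hM : IsPModular p M) {x : G}
    (hx : ∃ k : ℕ, orderOf x = p ^ k)
    (h : ∀ ψ : IrrCharacter (centralizer ({x} : Set G)),
      ψ ∈ principalBlock M (centralizer ({x} : Set G)))
    {χ : IrrCharacter G} (hχ : χ ∉ principalBlock M G) : (χ : G → ℂ) x = 0 := by
  have := Fintype.ofFinite (centralizer ({x} : Set G))
  have hc : IsClassFunction (centralizer ({x} : Set G)) fun c => (χ : G → ℂ) (x * c) :=
    fun a b => by
      refine Eq.trans (congrArg _ ?_) (χ.isClassFunction (x * a) b)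
      have := mem_centralizer_singleton_iff.1 b.2
      simp only [coe_mul, coe_inv, ← mul_assoc, this]
  have h1 := (isClassFunction_pRegularPart (p := p) hc).eq_zero_of_classInner fun ψ =>
    col_eq_zero_of_notMem hM hx (fun _ => mem_centralizer_singleton_iff) hχ (h ψ)
  have h2 := congrFun h1 1
  rw [pRegularPart_of_not_dvd _ (by rw [orderOf_one]; exact hM.prime.not_dvd_one)] at h2
  simpa using h2

theorem orderOf_conj' (g w : G) : orderOf (g * w * g⁻¹) = orderOf w :=
  orderOf_injective (MulAut.conj g).toMonoidHom (MulAut.conj g).injective w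

theorem exists_data {A : Type*} [Group A] [Fintype A] (hA : ∀ a b : A, a * b = b * a)
    {θ : A → ℂ} (hθ : IsCharacter A θ) {h : A} (h1 : h ≠ 1) (hc : ∀ w, w ≠ 1 → θ w = θ h) :
    ∃ a m : ℕ, classInner θ (fun _ => 1) = a ∧
      (∀ φ : IrrCharacter A, φ ≠ irrOne A → classInner θ φ = m) ∧ θ h = a - m ∧
      θ 1 = Nat.card A * m + θ h := by
  have hA0 := natCard_ne_zero A
  have e : θ = θ h • (fun _ => (1 : ℂ)) + ((θ 1 - θ h) / Nat.card A) • regChar A := by
    ext w
    by_cases hw : w = 1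
    · simp [hw]
    · simp [regChar_of_ne hw, hc w hw]
  have key : ∀ φ : IrrCharacter A, φ ≠ irrOne A →
      classInner θ φ = (θ 1 - θ h) / Nat.card A := fun φ hφ => by
    conv_lhs => rw [e]
    rw [classInner_add_left, classInner_smul_left, classInner_smul_left, classInner_regChar_left,
      φ.2.apply_one_eq_one_of_comm hA]
    erw [(irrOne A).2.classInner_eq_zero φ.2 fun e => hφ (Subtype.ext e.symm)]
    simp
  obtain ⟨φ, hφ⟩ : ∃ φ : IrrCharacter A, φ ≠ irrOne A := by
    by_contra hh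
    push Not at hh
    exact h1 (eq_one_of_forall_irr fun φ => by rw [hh φ]; rfl)
  obtain ⟨m, hm⟩ := hθ.exists_nat_classInner φ.2.isCharacter
  obtain ⟨a, ha⟩ := hθ.exists_nat_classInner (irrOne A).2.isCharacter
  rw [key φ hφ] at hm
  refine ⟨a, m, ha, fun ψ hψ => (key ψ hψ).trans hm, ?_, ?_⟩
  · rw [← ha, ← hm]
    conv_rhs => enter [1]; rw [e]
    rw [classInner_add_left, classInner_smul_left, classInner_smul_left, classInner_regChar_left]
    erw [(irrOne A).2.classInner_self]
    simp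
  · rw [← hm]; field_simp; ring

open Classical in
theorem inner_one_eq {W N : Subgroup G} (hWN : W ≤ N) [(W.subgroupOf N).Normal] [Fintype W]
    [Fintype N] {θ : G → ℂ} (hθ : IsCharacter G θ) {m : IrrCharacter N → ℕ}
    (hm : ∀ γ : IrrCharacter N, classInner (fun n : N => θ n) γ = m γ) :
    classInner (fun w : W => θ w) (fun _ => 1) =
      (∑ γ ∈ Finset.univ.filter fun γ : IrrCharacter N => W.subgroupOf N ≤ charKer (γ : N → ℂ),
        m γ * charDegree (γ : N → ℂ) : ℕ) := by
  have := Fintype.ofFinite (W.subgroupOf N)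
  have e : (fun w : W => θ w) = ∑ γ : IrrCharacter N, (m γ : ℂ) • fun w : W =>
      (γ : N → ℂ) ((subgroupOfEquivOfLe hWN).symm.toMonoidHom w) := by
    ext w
    rw [Finset.sum_apply]
    simp only [← hm]
    exact (hθ.restrict N).isClassFunction.apply_eq_sum_irr ⟨w, hWN w.2⟩
  rw [e, classInner_sum_left, Finset.sum_filter, Nat.cast_sum]
  refine Finset.sum_congr rfl fun γ _ => ?_
  rw [classInner_smul_left, classInner_comp_surjective (subgroupOfEquivOfLe hWN).symm.toMonoidHom
    (subgroupOfEquivOfLe hWN).symm.surjective (fun w => (γ : N → ℂ) w) fun _ => 1]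
  split_ifs with h
  · rw [classInner_restrict_one_of_le_charKer _ h, Nat.cast_mul, γ.2.coe_charDegree]
  · rw [γ.2.classInner_restrict_one_eq_zero _ h, mul_zero, Nat.cast_zero]

/-- An elementary abelian Sylow `2`-subgroup normalising no nontrivial subgroup of odd order. -/
structure TI (W : Sylow 2 G) : Prop where
  sq : ∀ w ∈ (W : Subgroup G), w * w = 1
  loc : LocTC W
  odd : ∀ D : Subgroup G, ¬ 2 ∣ Nat.card D → (W : Subgroup G) ≤ normalizer (D : Set G) → D = ⊥

namespace TI

variable {W : Sylow 2 G} (T : TI W)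
include T

theorem core {h : G} (hh : h ∈ (W : Subgroup G)) :
    pPrimeCore 2 (centralizer ({h} : Set G)) = ⊥ := by
  have := GT.pPrimeCore_characteristic (G := centralizer ({h} : Set G)) (p := 2)
  have h1 := T.odd ((pPrimeCore 2 _).map (centralizer ({h} : Set G)).subtype)
    (by rw [card_subtype]; exact GT.not_dvd_card_pPrimeCore Nat.prime_two)
    ((le_cent T.sq hh).trans (GT.le_normalizer_map_subtype _ _))
  rwa [map_eq_bot_iff_of_injective _ (subtype_injective _)] at h1

theorem normal {h : G} (hh : h ∈ (W : Subgroup G)) (h1 : h ≠ 1) :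
    ((W : Subgroup G).subgroupOf (centralizer ({h} : Set G))).Normal := by
  have := T.loc h hh h1
  rwa [T.core hh, sup_bot_eq] at this

theorem cent_le {h : G} (hh : h ∈ (W : Subgroup G)) (h1 : h ≠ 1) :
    centralizer ({h} : Set G) ≤ normalizer ((W : Subgroup G) : Set G) :=
  (normal_subgroupOf_iff_le_normalizer (le_cent T.sq hh)).1 (T.normal hh h1)

theorem mem_normalizer {x g : G} (hx : x ∈ (W : Subgroup G)) (h1 : x ≠ 1)
    (hg : g * x * g⁻¹ ∈ (W : Subgroup G)) : g ∈ normalizer ((W : Subgroup G) : Set G) := by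
  refine mem_normalizer_fintype fun w hw => ?_
  by_cases hw1 : w = 1
  · simp [hw1]
  refine mem_of_mem_normalizer W (k := 1) ?_ (T.cent_le hg (by simpa using h1) ?_)
  · rw [orderOf_conj', orderOf_of_sq (T.sq w hw) hw1, pow_one]
  · rw [mem_centralizer_singleton_iff]
    have := comm_of_sq T.sq w hw x hx
    calc g * w * g⁻¹ * (g * x * g⁻¹) = g * (w * x) * g⁻¹ := by group
      _ = g * x * g⁻¹ * (g * w * g⁻¹) := by rw [this]; group

theorem cent_sub_le {h : G} (hh : h ∈ (W : Subgroup G)) (h1 : h ≠ 1) :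
    centralizer (((W : Subgroup G).subgroupOf (centralizer ({h} : Set G)) :
      Subgroup (centralizer ({h} : Set G))) : Set (centralizer ({h} : Set G))) ≤
      (W : Subgroup G).subgroupOf (centralizer ({h} : Set G)) :=
  have : ((W.subtype (le_cent T.sq hh) : Sylow 2 (centralizer ({h} : Set G))) :
    Subgroup (centralizer ({h} : Set G))).Normal := T.normal hh h1
  centralizer_le (T.core hh) (W.subtype (le_cent T.sq hh))
    fun a ha b hb => Subtype.ext (comm_of_sq T.sq a ha b hb)

theorem centralizer_le {h : G} (hh : h ∈ (W : Subgroup G)) (h1 : h ≠ 1) :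
    centralizer ((W : Subgroup G) : Set G) ≤ W := fun y hy =>
  T.cent_sub_le hh h1 (x := ⟨y, mem_centralizer_singleton_iff.2 (hy h hh).symm⟩)
    fun z hz => Subtype.ext (hy z hz)

theorem apply_eq_zero (hM : IsPModular 2 M) {h : G} (hh : h ∈ (W : Subgroup G)) (h1 : h ≠ 1)
    {χ : IrrCharacter G} (hχ : χ ∉ principalBlock M G) : (χ : G → ℂ) h = 0 := by
  refine apply_eq_zero_of_notMem hM ⟨1, orderOf_of_sq (T.sq h hh) h1⟩ (fun ψ => ?_) hχ
  have := T.normal hh h1
  have h2 : (W : Subgroup G).subgroupOf (centralizer ({h} : Set G)) ≤ pCore 2 _ :=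
    GT.le_pCore (W.subtype (le_cent T.sq hh)).isPGroup'
  exact S4487.result 2 M hM (T.core hh)
    ((Subgroup.centralizer_le h2).trans ((T.cent_sub_le hh h1).trans h2)) (irrOne _) ψ

theorem isConj (hN : ¬ (W : Subgroup G).Normal) {a b : G} (ha : orderOf a = 2)
    (hb : orderOf b = 2) : IsConj a b := by
  refine IsStronglyEmbedded.isConj_of_involutions (H := normalizer ((W : Subgroup G) : Set G))
    (Inv.isStronglyEmbedded_iff.2 ⟨fun e => hN (normalizer_eq_top_iff.1 e), ?_, ?_⟩) ha hb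
  · by_contra h
    apply hN
    rw [(W : Subgroup G).eq_bot_of_card_eq ?_]
    · infer_instance
    obtain ⟨k, hk⟩ := IsPGroup.iff_card.1 W.isPGroup'
    rcases k with _ | k
    · exact hk
    · exact absurd (even_iff_two_dvd.2 ((dvd_pow_self 2 k.succ_ne_zero).trans
        (hk ▸ card_dvd_of_le le_normalizer))) h
  · intro t ht h2 g hg
    refine T.mem_normalizer (mem_of_mem_normalizer W (k := 1) h2 ht) (fun e => ?_)
      (mem_of_mem_normalizer W (k := 1) ?_ hg)
    · simp [e] at h2
    · rw [orderOf_conj', h2, pow_one]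

theorem indFun_apply [Fintype G] {h : G} (hh : h ∈ (W : Subgroup G)) (h1 : h ≠ 1)
    (γ : normalizer ((W : Subgroup G) : Set G) → ℂ)
    (hγ : ∀ x, x.1 ∈ (W : Subgroup G) → γ x = γ 1) : indFun _ γ h = γ 1 := by
  classical
  have := Fintype.ofFinite (normalizer ((W : Subgroup G) : Set G))
  rw [indFun_apply', ← Finset.sum_subset (Finset.subset_univ (Finset.univ.map
    ⟨(normalizer ((W : Subgroup G) : Set G)).subtype, subtype_injective _⟩)), Finset.sum_map,
    Finset.sum_congr rfl (g := fun _ => γ 1), Finset.sum_const, Finset.card_univ,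
    ← Nat.card_eq_fintype_card, nsmul_eq_mul, inv_mul_cancel_left₀ (natCard_ne_zero _)]
  · intro x _
    have h2 : (x : G) * h * (x : G)⁻¹ ∈ (W : Subgroup G) := (mem_normalizer_iff.1 x.2 h).1 hh
    exact (Subtype.val_injective.extend_apply γ 0 ⟨_, le_normalizer h2⟩).trans (hγ _ h2)
  · intro x _ hx
    refine Function.extend_apply' _ _ _ fun ⟨y, hy⟩ => hx ?_
    refine Finset.mem_map.2 ⟨⟨x, T.mem_normalizer hh h1 (mem_of_mem_normalizer W (k := 1) ?_
      (hy ▸ y.2))⟩, Finset.mem_univ _, rfl⟩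
    rw [orderOf_conj', orderOf_of_sq (T.sq h hh) h1, pow_one]

/-- The degree of a character of `N(W)/W` in terms of the principal block. -/
theorem degree_eq (hM : IsPModular 2 M) {h : G} (hh : h ∈ (W : Subgroup G)) (h1 : h ≠ 1)
    [Fintype (normalizer ((W : Subgroup G) : Set G))]
    (γ : normalizer ((W : Subgroup G) : Set G) → ℂ)
    (hγ : ∀ x, x.1 ∈ (W : Subgroup G) → γ x = γ 1) :
    γ 1 = ∑ χ ∈ pb M G, classInner γ (fun n => (χ : G → ℂ) n) * (χ : G → ℂ) h := by
  have := Fintype.ofFinite G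
  rw [← T.indFun_apply hh h1 γ hγ, (indFun_isClassFunction _ γ).apply_eq_sum_irr,
    ← Finset.sum_subset (Finset.subset_univ (pb M G))]
  · exact Finset.sum_congr rfl fun χ _ => by rw [classInner_indFun_left _ _ χ.isClassFunction]
  · intro χ _ hχ
    rw [T.apply_eq_zero hM hh h1 (mt mem_pb.2 hχ), mul_zero]

theorem core_eq_bot : pPrimeCore 2 G = ⊥ :=
  have := GT.pPrimeCore_characteristic (G := G) (p := 2)
  T.odd _ (GT.not_dvd_card_pPrimeCore Nat.prime_two) le_normalizer_of_normal

theorem normal_of_MF (hM : IsPModular 2 M)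
    (hMF : ∀ χ ∈ principalBlock M G, MF fun w : (W : Subgroup G) => (χ : G → ℂ) w) :
    (W : Subgroup G).Normal := by
  classical
  by_contra hN
  obtain ⟨h, h1⟩ := ne_bot_iff_exists_ne_one.1 fun e : (W : Subgroup G) = ⊥ =>
    hN (e ▸ inferInstance)
  have h1' : (h : G) ≠ 1 := fun e => h1 (Subtype.ext e)
  have := Fintype.ofFinite (W : Subgroup G)
  have := Fintype.ofFinite (normalizer ((W : Subgroup G) : Set G))
  have hc := comm_of_sq T.sq
  have hle : (W : Subgroup G) ≤ normalClosure ((W : Subgroup G) : Set G) := le_normalClosure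
  refine hN (le_antisymm (le_of_burnside T.core_eq_bot hle W.isPGroup'
    (fun e => W.not_dvd_index (e.trans (relIndex_dvd_index_of_le hle))) fun g hK hg => ?_) hle ▸
      inferInstance)
  suffices g ∈ (W : Subgroup G) from fun b hb => hc b hb g this
  by_contra hgW
  obtain ⟨γ, hγ, hγg⟩ := exists_irr_le_charKer_not_mem
    ((W : Subgroup G).subgroupOf (normalizer ((W : Subgroup G) : Set G))) (g := ⟨g, hg⟩) hgW
  have h2 := T.degree_eq hM h.2 h1' γ fun x hx => apply_eq_of_mem_charKer (hγ hx)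
  obtain ⟨χ, hχ, h3⟩ := Finset.exists_ne_zero_of_sum_ne_zero (h2 ▸ γ.2.apply_one_ne_zero)
  rw [mem_pb] at hχ
  replace h3 := left_ne_zero_of_mul h3
  rw [classInner_swap_conj, map_ne_zero] at h3
  refine hγg (Deg.mem_charKer_of_over χ.2.isCharacter γ.2 h3 ?_)
  have := χ.2.isCharacter.charKer_normal
  refine normalClosure_le_normal (fun w hw => χ.2.isCharacter.mem_charKer.2 ?_) hK
  have hconst : ∀ w : (W : Subgroup G), w ≠ 1 → (χ : G → ℂ) w = (χ : G → ℂ) h := fun w hw =>
    χ.isClassFunction.eq_of_isConj (T.isConj hN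
      (orderOf_of_sq (T.sq w w.2) fun e => hw (Subtype.ext e)) (orderOf_of_sq (T.sq h h.2) h1'))
  obtain ⟨a, m, ha, hm, hτ, hd⟩ := exists_data (fun a b => Subtype.ext (hc a a.2 b b.2))
    (χ.2.isCharacter.restrict (W : Subgroup G)) h1 hconst
  obtain ⟨c, hc1, -⟩ := (χ.2.isCharacter.restrict (normalizer ((W : Subgroup G) : Set G))).exists_mult
  have h4 := inner_one_eq le_normalizer χ.2.isCharacter hc1
  rw [ha, Nat.cast_inj] at h4
  have h5 : a ≠ 0 := fun e => by
    rw [e, eq_comm, Finset.sum_eq_zero_iff] at h4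
    rw [hc1, Nat.cast_ne_zero] at h3
    exact mul_ne_zero h3 γ.2.charDegree_pos.ne' (h4 γ (Finset.mem_filter.2 ⟨Finset.mem_univ _, hγ⟩))
  have h6 := hMF χ hχ (irrOne _)
  erw [ha] at h6
  obtain ⟨φ, hφ⟩ : ∃ φ : IrrCharacter (W : Subgroup G), φ ≠ irrOne _ := by
    by_contra hh
    push Not at hh
    exact h1 (eq_one_of_forall_irr fun φ => by rw [hh φ]; rfl)
  have h7 := hMF χ hχ φ
  rw [hm φ hφ] at h7
  rw [Complex.natCast_re, Nat.cast_le_one] at h6 h7
  have h8 := apply_ne_zero' hM W T.sq hχ h.2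
  rw [hτ, sub_ne_zero, Ne, Nat.cast_inj] at h8
  rw [show m = 0 by omega, Nat.cast_zero, mul_zero, zero_add] at hd
  by_cases hw1 : w = 1
  · rw [hw1]
  · exact (hconst ⟨w, hw⟩ fun e => hw1 (congrArg Subtype.val e)).trans hd.symm

end TI

theorem eq_one_of_forall_mem {p : ℕ} (hM : IsPModular p M) (hO : pPrimeCore p G = ⊥) {g : G}
    (h : ∀ χ ∈ principalBlock M G, (χ : G → ℂ) g = (χ : G → ℂ) 1) : g = 1 := by
  have : Fact p.Prime := ⟨hM.prime⟩
  obtain ⟨K, hK, h1, h2, -⟩ := S0938.result p M hM _ (isPBlock hM) (irrOne G)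
    (mem_pb.1 (one_mem_pb hM))
  have h3 : K ≤ pPrimeCore p G := GT.le_pPrimeCore_of_isSubnormal hK.isSubnormal
    (hM.prime.coprime_iff_not_dvd.2 h2).symm
  rw [hO] at h3
  exact h3 (show g ∈ (K : Set G) from h1 ▸ h)

theorem MF_map {H : Type*} [Group H] [Finite H] (f : G →* H) (hf : Function.Surjective f)
    (W : Sylow 2 G) (ψ : H → ℂ) (h : MF fun w : (W : Subgroup G) => ψ (f w)) :
    MF fun w : (W.mapSurjective hf : Subgroup H) => ψ w := by
  change MF fun w : (W : Subgroup G).map f => ψ w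
  exact MF.of_surjective (θ := fun w : (W : Subgroup G).map f => ψ w) (f.subgroupMap W)
    (f.subgroupMap_surjective W) h

theorem MF_sub (W : Sylow 2 G) {C : Subgroup G} (hC : (W : Subgroup G) ≤ C) [Fintype C]
    {χ : G → ℂ} (hχ : IsCharacter G χ) {ψ : IrrCharacter C}
    (hψ : classInner (fun c : C => χ c) ψ ≠ 0) (h : MF fun w : (W : Subgroup G) => χ w) :
    MF fun w : (W.subtype hC : Subgroup C) => (ψ : C → ℂ) w := by
  change MF fun w : (W : Subgroup G).subgroupOf C => (ψ : C → ℂ) w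
  have h1 : MF fun w : (W : Subgroup G).subgroupOf C => χ (w : C) :=
    MF.of_surjective (θ := fun w : (W : Subgroup G).subgroupOf C => χ (w : C))
      (subgroupOfEquivOfLe hC).symm.toMonoidHom (subgroupOfEquivOfLe hC).symm.surjective h
  have h2 := ((hχ.restrict C).sub_irr ψ.2 hψ).restrict ((W : Subgroup G).subgroupOf C)
  exact @MF.of_sub _ _ _ (fun w : (W : Subgroup G).subgroupOf C => (ψ : C → ℂ) w) h1 h2

theorem eq_top_of_card_le (hO : pPrimeCore 2 G = ⊥) (W : Sylow 2 G) (h4 : ¬ 2 < Nat.card W) :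
    (W : Subgroup G) = ⊤ := by
  have := Fintype.ofFinite (W : Subgroup G)
  refine top_le_iff.1 (le_of_burnside hO (K := ⊤) le_top W.isPGroup'
    (by rw [relIndex_top_right]; exact W.not_dvd_index) fun g _ hg x hx => ?_)
  by_contra h6
  refine h4 ?_
  have hx1 : x ≠ 1 := fun e => h6 (by simp [e])
  change 2 < Nat.card (W : Subgroup G)
  rw [Nat.card_eq_fintype_card, Fintype.two_lt_card_iff]
  refine ⟨1, ⟨x, hx⟩, ⟨_, (mem_normalizer_iff.1 hg x).1 hx⟩, fun e => hx1 ?_, fun e => hx1 ?_,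
    fun e => h6 ?_⟩
  · exact (congrArg Subtype.val e).symm
  · simpa using (congrArg Subtype.val e).symm
  · exact eq_mul_inv_iff_mul_eq.1 (congrArg Subtype.val e)

universe u

/-- If all characters of the principal `2`-block are multiplicity free on an elementary abelian
Sylow `2`-subgroup `W`, then `W O(G)` is normal. -/
theorem normal_of_MF (hM : IsPModular 2 M) (G : Type u) [Group G] [Finite G] :
    ∀ W : Sylow 2 G, (∀ w ∈ (W : Subgroup G), w * w = 1) →
      (∀ χ ∈ principalBlock M G, MF fun w : (W : Subgroup G) => (χ : G → ℂ) w) →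
      ((W : Subgroup G) ⊔ pPrimeCore 2 G).Normal := by
  refine GT.card_induction (P := fun G _ _ => ∀ W : Sylow 2 G,
    (∀ w ∈ (W : Subgroup G), w * w = 1) →
      (∀ χ ∈ principalBlock M G, MF fun w : (W : Subgroup G) => (χ : G → ℂ) w) →
      ((W : Subgroup G) ⊔ pPrimeCore 2 G).Normal) ?_ G
  intro G _ _ ih W hW hMF
  have quot : ∀ (N : Subgroup G) [N.Normal], N ≠ ⊥ → pPrimeCore 2 (G ⧸ N) = ⊥ →
      (∀ (χ : IrrCharacter G) (ψ : IrrCharacter (G ⧸ N)),
        (∀ g, (χ : G → ℂ) g = (ψ : G ⧸ N → ℂ) (QuotientGroup.mk' N g)) →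
        ψ ∈ principalBlock M (G ⧸ N) → χ ∈ principalBlock M G) →
      ((W : Subgroup G) ⊔ N).Normal := fun N _ h1 h2 h3 => by
    have hs := QuotientGroup.mk'_surjective N
    have h4 := ih (G ⧸ N) (GT.card_quotient_lt h1) (W.mapSurjective hs) (by
      rintro _ ⟨w, hw, rfl⟩
      rw [← map_mul, hW w hw, map_one]) fun ψ hψ =>
        MF_map _ hs W _ (hMF ⟨_, ψ.2.comp_surjective _ hs⟩ (h3 _ ψ (fun _ => rfl) hψ))
    rw [h2, sup_bot_eq] at h4
    have h5 := h4.comap (QuotientGroup.mk' N)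
    rwa [Sylow.coe_mapSurjective, comap_map_eq, QuotientGroup.ker_mk'] at h5
  by_cases hO : pPrimeCore 2 G = ⊥
  swap
  · exact quot _ hO GT.pPrimeCore_quotient_pPrimeCore fun χ ψ h =>
      (P0.mem_comp_iff_of_not_dvd hM _ (QuotientGroup.mk'_surjective _)
        (by rw [QuotientGroup.ker_mk']; exact GT.not_dvd_card_pPrimeCore Nat.prime_two) h).2
  rw [hO, sup_bot_eq]
  by_cases hZ : ∃ h ∈ (W : Subgroup G), h ≠ 1 ∧ h ∈ center G
  · obtain ⟨h, hh, h1, hz⟩ := hZ
    have hle : zpowers h ≤ center G := zpowers_le.2 hz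
    have : (zpowers h).Normal := ⟨fun n hn g => by
      rwa [mem_center_iff.1 (hle hn) g, mul_inv_cancel_right]⟩
    have hp : IsPGroup 2 (zpowers h) := W.isPGroup'.to_le (zpowers_le.2 hh)
    have hs := QuotientGroup.mk'_surjective (zpowers h)
    rw [← sup_eq_left.2 (zpowers_le.2 hh)]
    refine quot _ (by simpa using h1) ?_ fun χ ψ h =>
      (mem_principal_comp_iff hM _ hs (by rwa [QuotientGroup.ker_mk'])
        (by rwa [QuotientGroup.ker_mk']) h).2
    have h2 : zpowers h ≤ (pPrimeCore 2 (G ⧸ zpowers h)).comap (QuotientGroup.mk' (zpowers h)) :=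
      (QuotientGroup.ker_mk' _).ge.trans (ker_le_comap _ _)
    have h3 := le_of_burnside hO h2 hp (by
      conv => enter [1, 2, 1]; rw [← QuotientGroup.ker_mk' (zpowers h)]
      rw [relIndex_ker, map_comap_eq_self_of_surjective hs]
      exact GT.not_dvd_card_pPrimeCore Nat.prime_two)
      fun g _ _ x hx => (mem_center_iff.1 (hle hx) g).symm
    rw [← map_comap_eq_self_of_surjective hs (pPrimeCore 2 (G ⧸ zpowers h)), Subgroup.map_eq_bot_iff,
      QuotientGroup.ker_mk']
    exact h3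
  by_cases h4 : 2 < Nat.card W
  swap
  · exact eq_top_of_card_le hO W h4 ▸ inferInstance
  have hL : LocTC W := fun h hh h1 => by
    have := Fintype.ofFinite G
    have := Fintype.ofFinite (centralizer ({h} : Set G))
    refine ih (centralizer ({h} : Set G)) (GT.card_lt_of_ne_top fun e => hZ ⟨h, hh, h1,
      mem_center_iff.2 fun g =>
        mem_centralizer_singleton_iff.1 (e ▸ mem_top g)⟩) (W.subtype (le_cent hW hh))
      (fun w hw => Subtype.ext (hW w hw)) fun ψ hψ => ?_
    obtain ⟨χ, hχ, h5⟩ := S0934.result 2 M hM _ _ _ (isInducedBlock_principal hM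
      ⟨1, orderOf_of_sq (hW h hh) h1⟩ fun _ => mem_centralizer_singleton_iff) ψ hψ
    exact MF_sub W _ χ.2.isCharacter h5 (hMF χ hχ)
  exact TI.normal_of_MF ⟨hW, hL, fun D => eq_bot_of_odd hM W hW h4 hL _
    (fun χ hχ => ⟨hχ, hMF χ hχ⟩) fun g => eq_one_of_forall_mem hM hO⟩ hM hMF

end Cfsg.Agent.Blk.MFr
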