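import Mathlib
import Cfsg.Agent.Blk.Pim
import Cfsg.Agent.Blk.Glue2
import Cfsg.Agent.Blk.Contrib2
import Cfsg.Agent.Blk.PBPairs
import Cfsg.Agent.Blk.Fong
import Cfsg.Agent.GT.CoprimeFixed
import Cfsg.Agent.GT.Frattini

/-!
# Blocks all of whose characters have the same degree (Okuyama–Tsushima)
-/

set_option autoImplicit false
set_option linter.unusedSectionVars false
set_option linter.unusedVariables false
set_option linter.style.haveILetI false

namespace Cfsg.Agent.Blk.OT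

open MonoidAlgebra Module Cfsg.Agent.Blk.Mod Cfsg.Agent.Blk.PD Cfsg.Agent.Ch Cfsg.Agent.GT
  Cfsg.Agent.Blk.BA Cfsg.Agent.Blk.Ab
open scoped ComplexConjugate

section Alg

theorem exists_ctr {R : Type*} [Ring R] {i b a : R} (hi : i * i = i) (hb : ∀ r, r * b = b * r)
    (hbi : b * i = i) {ι : Type*} (s : Finset ι) (x y : ι → R) (h : ∑ j ∈ s, x j * i * y j = b)
    (ha : i * a = a) (hc : ∀ r, i * r * a = a * r * i) :
    ∃ z, (∀ r, r * z = z * r) ∧ b * z = z ∧ z * i = a := by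
  have h2 : b * ∑ j ∈ s, x j * a * y j = ∑ j ∈ s, x j * a * y j := by
    rw [Finset.mul_sum]
    refine Finset.sum_congr rfl fun j _ => ?_
    rw [← mul_assoc, ← mul_assoc, ← hb, ← ha, ← mul_assoc, ← mul_assoc, mul_assoc (x j), hbi]
  have h3 : ∀ r, b * (r * ∑ j ∈ s, x j * a * y j) = (∑ j ∈ s, x j * a * y j) * (r * b) :=
    fun r => by
      rw [← h]
      simp only [Finset.sum_mul, Finset.mul_sum]
      rw [Finset.sum_comm, Finset.sum_comm (s := s) (f := fun l j => x j * a * y j *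
        (r * (x l * i * y l)))]
      refine Finset.sum_congr rfl fun j _ => Finset.sum_congr rfl fun l _ => ?_
      calc x j * i * y j * (r * (x l * a * y l)) = x j * (i * (y j * r * x l) * a) * y l := by
            simp only [mul_assoc]
        _ = _ := by rw [hc]; simp only [mul_assoc]
  have h4 : ∀ r, r * ∑ j ∈ s, x j * a * y j = (∑ j ∈ s, x j * a * y j) * r := fun r => by
    have := h3 r
    rwa [← mul_assoc, ← hb, mul_assoc, h2, hb, ← mul_assoc, hb, h2] at this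
  refine ⟨_, h4, h2, ?_⟩
  have h5 : i * (∑ j ∈ s, x j * a * y j) * i = a * b * i := by
    rw [← h, Finset.mul_sum, Finset.mul_sum, Finset.sum_mul, Finset.sum_mul]
    refine Finset.sum_congr rfl fun j _ => ?_
    calc i * (x j * a * y j) * i = i * x j * a * y j * i := by simp only [mul_assoc]
      _ = _ := by rw [hc]; simp only [mul_assoc]
  have h6 := hc 1
  rw [mul_one, mul_one, ha] at h6
  rwa [h4, mul_assoc, hi, mul_assoc, hbi, ← h6] at h5

theorem exists_eq_one {ι : Type*} [Fintype ι] {a n : ι → ℕ} {d : ℕ} (hd : 0 < d)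
    (hn : ∀ i, d ≤ n i) (h : ∑ i, a i * n i = d) : ∃ j, a j = 1 ∧ ∀ i, i ≠ j → a i = 0 := by
  classical
  obtain ⟨j, -, hj⟩ := Finset.exists_ne_zero_of_sum_ne_zero (h ▸ hd.ne')
  have h1 : (∑ i, a i) * d ≤ 1 * d := by
    rw [Finset.sum_mul, one_mul]
    exact (Finset.sum_le_sum fun i _ => Nat.mul_le_mul_left _ (hn i)).trans h.le
  have h2 := Nat.le_of_mul_le_mul_right h1 hd
  have h3 := Nat.pos_of_ne_zero (left_ne_zero_of_mul hj)
  rw [← Finset.add_sum_erase _ _ (Finset.mem_univ j)] at h2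
  refine ⟨j, by omega, fun i hi => ?_⟩
  have := Finset.single_le_sum (f := a) (fun _ _ => Nat.zero_le _)
    (Finset.mem_erase.2 ⟨hi, Finset.mem_univ i⟩)
  omega

end Alg

section Idem

variable {G : Type*} [Group G] [Fintype G] {p : ℕ} {M : Ideal AlgInt} [M.IsMaximal]
  {B : Set (IrrCharacter G)} {y : ℂ[G]} {d : ℕ}

theorem cor_comm (hyy : y * y = y) (h : ∀ χ : IrrCharacter G, charLin χ y = 0 ∨ charLin χ y = 1)
    {a c : ℂ[G]} (ha : a ∈ cor ℂ y) (hc : c ∈ cor ℂ y) : a * c = c * a := by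
  classical
  have h1 : ∑ χ : IrrCharacter G, setIdem {χ} = 1 := by
    rw [ctr_eq_sum_setIdem (one_mem (Ctr ℂ G))]
    simp only [omega_one, one_smul]
  rw [← one_mul (a * c), ← one_mul (c * a), ← h1, Finset.sum_mul, Finset.sum_mul]
  refine Finset.sum_congr rfl fun χ _ => ?_
  have h2 := ctr_comm (setIdem_mem_ctr {χ})
  have h3 : ∀ u v : ℂ[G], setIdem {χ} * u * (setIdem {χ} * v) = setIdem {χ} * (u * v) :=
    fun u v => by rw [mul_assoc, ← mul_assoc u, ← h2, ← mul_assoc, ← mul_assoc, ← mul_assoc,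
      setIdem_mul_self, mul_assoc]
  have h4 : setIdem {χ} * y * (setIdem {χ} * y) = setIdem {χ} * y := by rw [h3, hyy]
  have h5 : finrank ℂ (cor ℂ (setIdem {χ} * y)) ≤ 1 := by
    have := finrank_cor_eq h4
    rw [Finset.sum_eq_single χ (fun ψ _ hψ => by
      rw [charLin_setIdem_mul_of_not_mem (by exact hψ), zero_pow two_ne_zero])
      (fun h => absurd (Finset.mem_univ _) h), charLin_setIdem_mul_of_mem (Set.mem_singleton χ)] at this
    rcases h χ with h | h <;> rw [h] at this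
    · exact (Nat.cast_injective (R := ℂ) (this.trans (by simp)) : _ = 0).trans_le zero_le_one
    · exact (Nat.cast_injective (R := ℂ) (this.trans (by simp)) : _ = 1).le
  obtain ⟨v, hv⟩ := finrank_le_one_iff.1 h5
  obtain ⟨s, hs⟩ := hv ⟨setIdem {χ} * a, by rw [h3, ha.1], by rw [h3, ha.2]⟩
  obtain ⟨t, ht⟩ := hv ⟨setIdem {χ} * c, by rw [h3, hc.1], by rw [h3, hc.2]⟩
  have hs' : s • (v : ℂ[G]) = setIdem {χ} * a := congrArg Subtype.val hs
  have ht' : t • (v : ℂ[G]) = setIdem {χ} * c := congrArg Subtype.val ht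
  rw [← h3, ← h3 c, ← hs', ← ht', smul_mul_smul_comm, smul_mul_smul_comm, mul_comm s]

theorem cor_red_comm (hy : y ∈ locAlg M G) (hyy : y * y = y)
    (h : ∀ χ : IrrCharacter G, charLin χ y = 0 ∨ charLin χ y = 1) (a c : (Res M)[G]) :
    redAlg M y * a * redAlg M y * (redAlg M y * c * redAlg M y) =
      redAlg M y * c * redAlg M y * (redAlg M y * a * redAlg M y) := by
  have h1 := congrArg (redAlg M) (cor_comm hyy h (mul_mul_mem_cor hyy (liftAlg a))
    (mul_mul_mem_cor hyy (liftAlg c)))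
  have h2 := liftAlg_mem a
  have h3 := liftAlg_mem c
  rwa [redAlg_mul (mul_mem (mul_mem hy h2) hy) (mul_mem (mul_mem hy h3) hy),
    redAlg_mul (mul_mem (mul_mem hy h3) hy) (mul_mem (mul_mem hy h2) hy),
    redAlg_mul (mul_mem hy h2) hy, redAlg_mul (mul_mem hy h3) hy, redAlg_mul hy h2,
    redAlg_mul hy h3, redAlg_liftAlg, redAlg_liftAlg] at h1

theorem height_eq_zero (hd : ∀ χ ∈ B, charDegree (χ : G → ℂ) = d) {χ : IrrCharacter G}
    (hχ : χ ∈ B) : blockHeight p B (χ : G → ℂ) = 0 := by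
  obtain ⟨ψ, hψ, h⟩ := Om.exists_height_zero (p := p) ⟨χ, hχ⟩
  rwa [Om.blockHeight_eq, hd ψ hψ, ← hd χ hχ] at h

theorem exists_idem (hM : IsPModular p M) (hB : IsPBlock M B)
    (hd : ∀ χ ∈ B, charDegree (χ : G → ℂ) = d) :
    (∀ χ ∈ B, ∀ ψ ∈ B, pRegularPart p (χ : G → ℂ) = pRegularPart p (ψ : G → ℂ)) ∧
      ∃ y ∈ locAlg M G, y * y = y ∧ setIdem B * y = y ∧ ∀ χ ∈ B, charLin (χ : G → ℂ) y = 1 := by
  classical
  haveI := Pim.finite_pimsIn (B := B) hM
  haveI := Fintype.ofFinite (Pim.pimsIn M B)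
  obtain ⟨φ, hφ⟩ := Pim.exists_isDual hM hB.blockCoeff_mem
  obtain ⟨χ₀, h₀⟩ := hB.nonempty
  have hd1 : ∀ χ ∈ B, pRegularPart p (χ : G → ℂ) 1 = d := fun χ hχ => by
    rw [Om.pRegularPart_one hM.prime, ← hd χ hχ, χ.2.isCharacter.coe_charDegree]
  have hd0 : 0 < d := hd χ₀ h₀ ▸ χ₀.2.charDegree_pos
  choose n hn0 hn using Pim.exists_nat_degree hM hB.blockCoeff_mem hφ
  have h1 : ∀ i, d ≤ n i := fun i => by
    obtain ⟨m, hm⟩ : ∃ m : ℤ, φ i 1 = d * m := by
      refine Submodule.span_induction (p := fun (F : G → ℂ) _ => ∃ m : ℤ, F 1 = d * m) ?_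
        ⟨0, by simp⟩ ?_ ?_ (hφ.basic.mem i)
      · rintro _ ⟨χ, hχ, rfl⟩
        exact ⟨1, by rw [Int.cast_one, mul_one]; exact hd1 χ hχ⟩
      · rintro _ _ - - ⟨a, ha⟩ ⟨c, hc⟩
        exact ⟨a + c, by rw [Pi.add_apply, ha, hc, Int.cast_add, mul_add]⟩
      · rintro k _ - ⟨a, ha⟩
        exact ⟨k * a, by rw [Pi.smul_apply, ha, zsmul_eq_mul, Int.cast_mul, mul_left_comm]⟩
    refine Nat.le_of_dvd (hn0 i) (Int.natCast_dvd_natCast.1 ⟨m, Int.cast_injective (α := ℂ) ?_⟩)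
    rw [Int.cast_natCast, ← hn, hm, Int.cast_mul, Int.cast_natCast]
  choose a ha using fun (χ : IrrCharacter G) (i : Pim.pimsIn M B) =>
    χ.2.isCharacter.exists_nat_classInner (Pim.isCharacter_of_mem i.2.1)
  have h2 : ∀ (χ : IrrCharacter G) (i : Pim.pimsIn M B),
      classInner (pRegularPart p (χ : G → ℂ)) (i : G → ℂ) = a χ i := fun χ i => by
    rw [classInner_pRegularPart_comm, Pim.pReg_of_mem hM i.2.1, ha]
  have h3 : ∀ χ ∈ B, pRegularPart p (χ : G → ℂ) = ∑ i, (a χ i : ℂ) • φ i := fun χ hχ => by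
    rw [hφ.expand _ (irr_mem_regSp hχ)]
    simp only [h2]
  have hex := fun χ (hχ : χ ∈ B) => exists_eq_one (a := a χ) hd0 h1
    (Nat.cast_injective (R := ℂ) (by
      rw [← hd1 χ hχ, h3 χ hχ, Finset.sum_apply, Nat.cast_sum]
      simp only [Pi.smul_apply, hn, smul_eq_mul, Nat.cast_mul]))
  haveI := (hex χ₀ h₀).nonempty
  choose! j hj1 hj0 using hex
  have h4 : ∀ χ ∈ B, pRegularPart p (χ : G → ℂ) = φ (j χ) := fun χ hχ => by
    rw [h3 χ hχ, Finset.sum_eq_single (j χ) (fun i _ hi => by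
      rw [hj0 χ hχ i hi, Nat.cast_zero, zero_smul]) fun h => absurd (Finset.mem_univ _) h,
      hj1 χ hχ, Nat.cast_one, one_smul]
  have h5 : ∀ χ ∈ B, j χ = j χ₀ := fun χ hχ => by
    by_contra hne
    have h6 : (j χ₀ : G → ℂ) = (∑ η with η ∈ B, classInner (j χ₀ : G → ℂ) η) •
        pRegularPart p (χ₀ : G → ℂ) := by
      conv_lhs => rw [← Pim.pReg_of_mem hM (j χ₀).2.1, ← (j χ₀).2.2, pReg_blockPart_eq_sum]
      rw [Finset.sum_smul]
      refine Finset.sum_congr rfl fun η hη => ?_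
      have hη' := (Finset.mem_filter.1 hη).2
      by_cases h : j χ₀ = j η
      · rw [h4 η hη', h4 χ₀ h₀, h]
      · rw [(Pim.isCharacter_of_mem (j χ₀).2.1).classInner_comm η.2.isCharacter, ha,
          hj0 η hη' _ h, Nat.cast_zero, zero_smul, zero_smul]
    have h7 := h2 χ (j χ₀)
    have h8 := h2 χ₀ (j χ₀)
    rw [hj0 χ hχ _ (Ne.symm hne), h6, classInner_smul_right, Nat.cast_zero, mul_eq_zero,
      ← classInner_pRegularPart_comm, pRegularPart_pRegularPart] at h7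
    rw [hj1 χ₀ h₀, h6, classInner_smul_right] at h8
    rcases h7 with h | h
    · rw [h, zero_mul, Nat.cast_one] at h8
      exact zero_ne_one h8
    · exact Om.contr_ne_zero_of_height_zero hM hB hχ h₀ (height_eq_zero hd hχ) h
  refine ⟨fun χ hχ ψ hψ => by rw [h4 χ hχ, h4 ψ hψ, h5 χ hχ, h5 ψ hψ], ?_⟩
  obtain ⟨y, hy, hyy, -, h6⟩ := (j χ₀).2.1
  have h7 := ctr_comm (setIdem_mem_ctr B)
  refine ⟨setIdem B * y, mul_mem hB.setIdem_mem hy, ?_, by rw [← mul_assoc, setIdem_mul_self],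
    fun χ hχ => ?_⟩
  · rw [mul_assoc, ← mul_assoc y, ← h7, ← mul_assoc, ← mul_assoc, setIdem_mul_self, mul_assoc,
      hyy]
  · rw [charLin_setIdem_mul_of_mem hχ, ← classInner_pim y χ.isGeneralizedCharacter, ← h6,
      (Pim.isCharacter_of_mem (j χ₀).2.1).classInner_comm χ.2.isCharacter, ha, ← h5 χ hχ,
      hj1 χ hχ, Nat.cast_one]

theorem rank_eq_one (hM : IsPModular p M) (hB : IsPBlock M B)
    (h : ∀ χ ∈ B, ∀ ψ ∈ B, pRegularPart p (χ : G → ℂ) = pRegularPart p (ψ : G → ℂ)) :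
    blockRank p B = 1 := by
  obtain ⟨χ₀, h₀⟩ := hB.nonempty
  refine blockRank_eq_one_of hM.prime hB.nonempty χ₀ fun χ hχ => ⟨1, fun x hx => ?_⟩
  rw [one_mul, ← pRegularPart_of_not_dvd (χ : G → ℂ) hx, h χ hχ χ₀ h₀, pRegularPart_of_not_dvd _ hx]

theorem card_eq (hM : IsPModular p M) (hB : IsPBlock M B) (hl : blockRank p B = 1)
    (hy : y ∈ locAlg M G) (hyy : y * y = y) (h : ∀ χ ∈ B, charLin (χ : G → ℂ) y = 1) :
    Nat.card B = p ^ blockDefect p B := by
  classical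
  obtain ⟨φ, d, h4, h5, h6, h7⟩ := exists_rank_one hM hB hl
  obtain ⟨m, hm⟩ := exists_charLin_eq hM hy hyy (φ := φ) (B := B)
    ⟨h4, h5, fun θ hθ => ⟨d θ, h6 θ hθ⟩⟩
  rw [← h7, finsum_mem_irr_eq_sum, Nat.card_eq_fintype_card, Fintype.card_subtype,
    Finset.card_eq_sum_ones]
  refine Finset.sum_congr rfl fun χ hχ => ?_
  have hχ' := (Finset.mem_filter.1 hχ).2
  have h1 := hm χ hχ' _ (h6 χ hχ').2
  rw [h χ hχ', map_natCast] at h1
  rw [Nat.eq_one_of_dvd_one (Int.natCast_dvd_natCast.1 ⟨m, Int.cast_injective (α := ℂ) (by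
    rw [Int.cast_mul, Int.cast_natCast, Int.cast_natCast, Nat.cast_one, h1])⟩ : d χ ∣ 1), one_pow]

/-- The class sums of small defect are orthogonal to the idempotent. -/
theorem coeff_classSum_mul (hM : IsPModular p M) (hB : IsPBlock M B)
    (h : ∀ χ ∈ B, ∀ ψ ∈ B, pRegularPart p (χ : G → ℂ) = pRegularPart p (ψ : G → ℂ))
    (hy : y ∈ locAlg M G) (hyy : y * y = y) (hBy : setIdem B * y = y)
    (h1 : ∀ χ ∈ B, charLin (χ : G → ℂ) y = 1) {g : G}
    (hg : (Nat.card (Subgroup.centralizer ({g} : Set G))).factorization p < blockDefect p B) :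
    (classSum (Res M) g * redAlg M y).coeff 1 = 0 := by
  classical
  obtain ⟨χ₀, h₀⟩ := hB.nonempty
  have h2 : pim y g = (p ^ blockDefect p B : ℕ) * pRegularPart p (χ₀ : G → ℂ) g := by
    rw [← Pim.pReg_pim hM hy hyy, pim_eq_sum, Om.pRegularPart_sum, Finset.sum_apply,
      ← card_eq hM hB (rank_eq_one hM hB h) hy hyy h1, natCard_eq_sum_ite, Nat.cast_sum,
      Finset.sum_mul]
    refine Finset.sum_congr rfl fun χ _ => ?_
    rw [Om.pRegularPart_smul]
    split_ifs with hχ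
    · rw [h1 χ hχ, h χ hχ χ₀ h₀, one_smul, Nat.cast_one, one_mul]
    · rw [← hBy, charLin_setIdem_mul_of_not_mem hχ, zero_smul, Nat.cast_zero, zero_mul,
        Pi.zero_apply]
  have h3 : (Nat.card (Subgroup.centralizer ({g} : Set G)) : ℂ) *
      (classSum ℂ g * y).coeff 1 = pim y g := by
    rw [coeff_mul_eq_sum, pim, ← Equiv.sum_comp (Equiv.inv G) fun a => y.coeff (a⁻¹ * g⁻¹ * a)]
    have := PB.sum_conj_eq_card_mul g fun s => y.coeff s⁻¹
    simp only [mul_inv_rev, inv_inv, ← mul_assoc] at this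
    simp only [Equiv.inv_apply, inv_inv, this, coeff_classSum, Finset.sum_filter, ite_mul, one_mul,
      zero_mul, mul_one]
  rw [← redAlg_classSum, ← redAlg_mul (classSum_mem_locAlg g) hy, coeff_redAlg,
    eq_div_of_mul_eq (Nat.cast_ne_zero.2 Nat.card_pos.ne') ((mul_comm _ _).trans h3), h2,
    mul_div_right_comm]
  exact (((hM.natCast_div_memLocalIdeal_iff (pow_pos hM.prime.pos _).ne' Nat.card_pos.ne').2
    (by rwa [hM.prime.factorization_pow, Finsupp.single_eq_same])).mul_right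
      (MemLocalRing.of_isIntegral (isIntegral_of_mem_regLat (irr_mem_regLat h₀) g))).red_eq_zero

end Idem

section Main

variable {G : Type*} [Group G] [Fintype G] {p : ℕ} [hp : Fact p.Prime] {M : Ideal AlgInt}
  [M.IsMaximal] {B : Set (IrrCharacter G)} {P : Subgroup G} {e z : (Res M)[G]} {d : ℕ}

theorem factorization_lt (hM : IsPModular p M) (hB : IsPBlock M B) (hP : IsDefectGroup p M B P)
    (hz : z ∈ Ctr (Res M) G) (hbz : eps M B * z = z) (h0 : br P z = 0) {g : G}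
    (hg : z.coeff g ≠ 0) :
    (Nat.card (Subgroup.centralizer ({g} : Set G))).factorization p < blockDefect p B := by
  haveI := hM.charP
  by_contra! h
  obtain ⟨R, hR⟩ := exists_isClassDefect p g
  have h1 : br R z ≠ 0 := br_ne_zero_iff.2 ⟨g, hR.mem_centralizer, hg⟩
  obtain ⟨x, -, hx⟩ := (hbz ▸ (hP.isDef hM hB).inJ.mul_right (mem_Fix_of_ctr (eps_mem_ctr B) _)
    (mem_Fix_of_ctr hz _) : InJ p ⊤ P z) R hR.isPGroup le_top h1
  rw [← br_conj_ne_zero x, map_conj_eq_of_le hx (by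
    rw [hR.card_eq, hP.card_eq_pow hM hB]; exact Nat.pow_le_pow_right hp.out.pos h),
    mem_Fix.1 (mem_Fix_of_ctr hz ⊤) x trivial] at h1
  exact h1 h0

theorem br_eq_zero (hM : IsPModular p M) (hB : IsPBlock M B)
    (hmax : IsMaxPair p ⊤ ⊤ (eps M B) P e) (hz : z ∈ Ctr (Res M) G) (hbz : eps M B * z = z)
    (h0 : br P z * e = 0) : br P z = 0 := by
  haveI := hM.charP
  by_contra h
  have hP := hmax.pair.pgroup
  obtain ⟨f, hf, h1⟩ := exists_isPair_mul_ne_zero hP (le_normalizer_top P)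
    (br_mem_ZA_cen' P (ctr_eq_ZA (R := Res M) (G := G) ▸ hz)) h
  have h2 : br P (eps M B) ∈ ZA (cen[⊤] P) (cen[⊤] P) :=
    br_mem_ZA_cen' P hB.isPrim_ZA_top.mem
  have h3 : br P (eps M B) * f ≠ 0 := fun h3 => h1 (by
    rw [← hbz, ctr_comm (eps_mem_ctr B), br_mul hP (mem_Fix_of_ctr hz _)
      (mem_Fix_of_ctr (eps_mem_ctr B) _), mul_assoc, h3, mul_zero])
  obtain ⟨x, hx, rfl⟩ := hmax.exists_conj_same (NIn.refl ⊤) hB.isPrim_ZA_top (f := f)
    ⟨hf, le_top, hf.mul_eq_of_ne_zero h2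
      (br_idem hP (mem_Fix_of_ctr (eps_mem_ctr B) _) hB.eps_mul_self) h3⟩
  refine h1 ?_
  rw [← mem_Fix.1 (br_mem_Fix le_rfl (mem_Fix_of_ctr hz _)) x hx.2, ← map_mul, h0, map_zero]

theorem eq_one_of_single_mul (hM : IsPModular p M) (he : IsPair p ⊤ P e) {u : G} (hu : u ∈ P)
    (h : single u 1 * e = e) : u = 1 := by
  haveI := hM.charP
  obtain ⟨c, hc, rfl⟩ := exists_eq_epsIn he
  have h1 : ∀ x, (epsIn M _ c).coeff x ≠ 0 → ¬ p ∣ orderOf x := fun x hx hd => hx (by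
    have hx' := mem_of_coeff_ne_zero he.supp_centralizer hx
    rw [coeff_epsIn, subgroupBlockCoeff_coe _ c ⟨x, hx'⟩, Om.blockCoeff_eq_zero_of_dvd hM hc
      (by rwa [Subgroup.orderOf_mk]), red_zero])
  obtain ⟨x, hx⟩ := exists_coeff_ne_zero he.ne_zero
  have h2 := h1 (u * x) (by rwa [← h, coeff_single_mul_apply, one_mul, inv_mul_cancel_left])
  have h3 : Commute u x := mem_of_coeff_ne_zero he.supp_centralizer hx u hu
  obtain ⟨k, hk⟩ := IsPGroup.iff_orderOf.1 he.pgroup ⟨u, hu⟩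
  rw [Subgroup.orderOf_mk] at hk
  have h4 : orderOf u ∣ orderOf (u * x) * orderOf x⁻¹ := by
    simpa using ((h3.inv_right.mul_left (Commute.refl x).inv_right)).orderOf_mul_dvd_mul_orderOf
  rw [orderOf_inv] at h4
  rcases k with - | k
  · exact orderOf_eq_one_iff.1 (hk.trans (pow_zero p))
  · exact absurd ((dvd_pow_self p k.succ_ne_zero).trans (hk ▸ h4))
      (hp.out.not_dvd_mul h2 (h1 x hx))

theorem pstab_le (h : AbS p M B P e) (hd : ∀ χ ∈ B, charDegree (χ : G → ℂ) = d) :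
    pstab ⊤ P e ≤ ℭ[P] := by
  classical
  have hM := h.hM
  have hB := h.hB
  haveI := hM.charP
  obtain ⟨h1, y, hy, hyy, hBy, h2⟩ := exists_idem hM hB hd
  have hl := rank_eq_one hM hB h1
  have h3 : ∀ χ : IrrCharacter G, charLin χ y = if χ ∈ B then 1 else 0 := fun χ => by
    split_ifs with hχ
    · exact h2 χ hχ
    · rw [← hBy, charLin_setIdem_mul_of_not_mem hχ]
  have hi : redAlg M y * redAlg M y = redAlg M y := by rw [← redAlg_mul hy hy, hyy]
  have hbi : eps M B * redAlg M y = redAlg M y := by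
    rw [eps, ← redAlg_mul hB.setIdem_mem hy, hBy]
  have hdim : finrank (Res M) (cor (Res M) (redAlg M y)) = Nat.card P := by
    rw [h.card_eq, ← card_eq hM hB hl hy hyy h2, finrank_cor_red hy hyy]
    refine Nat.cast_injective (R := ℂ) ?_
    rw [finrank_cor_eq hyy, natCard_eq_sum_ite, Nat.cast_sum]
    exact Finset.sum_congr rfl fun χ _ => by rw [h3]; split_ifs <;> simp
  obtain ⟨n, x, w, hs⟩ := exists_sum_eq_eps hM hB hl hi (fun h0 => by
    obtain ⟨χ, hχ⟩ := hB.nonempty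
    have := h2 χ hχ
    rw [eq_zero_of_idem_of_isNilpotent_redAlg hy hyy (h0 ▸ IsNilpotent.zero), map_zero] at this
    exact zero_ne_one this) hbi
  have h4 : ∀ r, ∃ z ∈ Ctr (Res M) G, eps M B * z = z ∧
      z * redAlg M y = redAlg M y * r * redAlg M y := fun r => by
    obtain ⟨z, h4, h5⟩ := exists_ctr hi (mem_ctr_iff_commute.1 (eps_mem_ctr B)) hbi _ x w hs
      (mul_mul_mem_cor (k := Res M) hi r).1 fun s => by
        have := cor_red_comm hy hyy (fun χ => by rw [h3]; split_ifs <;> simp) s r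
        simp only [← mul_assoc] at this ⊢
        rwa [mul_assoc (redAlg M y * s) _ (redAlg M y), hi,
          mul_assoc (redAlg M y * r) _ (redAlg M y), hi] at this
    exact ⟨z, mem_ctr_iff_commute.2 h4, h5⟩
  have h5 : ∀ z ∈ Ctr (Res M) G, eps M B * z = z → br P z = 0 → (z * redAlg M y).coeff 1 = 0 :=
    fun z hz hbz h0 => by
      haveI := Fintype.ofFinite (ConjClasses G)
      rw [eq_sum_classSum hz, Finset.sum_mul, coeff_sum, Finsupp.finset_sum_apply]
      refine Finset.sum_eq_zero fun C _ => ?_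
      rw [smul_mul_assoc, coeff_smul_apply, smul_eq_mul]
      by_cases hC : z.coeff (Quotient.out C) = 0
      · rw [hC, zero_mul]
      · rw [coeff_classSum_mul hM hB h1 hy hyy hBy h2
          (factorization_lt hM hB h.isDefectGroup hz hbz h0 hC), mul_zero]
  have h6 : ∀ z ∈ Ctr (Res M) G, eps M B * z = z → br P z * e = 0 → z = 0 := fun z hz hbz h0 => by
    replace h0 := br_eq_zero hM hB h.max hz hbz h0
    have h6 : z * redAlg M y = 0 := ext_coeff fun g => by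
      obtain ⟨z', h6, -, h7⟩ := h4 (single g⁻¹ 1)
      have := h5 _ (mul_mem hz h6) (by rw [← mul_assoc, hbz]) (by
        rw [br_mul h.pgroup (mem_Fix_of_ctr hz _) (mem_Fix_of_ctr h6 _), h0, zero_mul])
      rwa [mul_assoc, h7, ← mul_assoc, coeff_one_mul_comm, ← mul_assoc, ← mul_assoc,
        ← ctr_comm hz, mul_assoc z, hi, coeff_mul_single_apply, mul_one, inv_inv, one_mul] at this
    rw [← hbz, ← hs, Finset.sum_mul]
    refine Finset.sum_eq_zero fun j _ => ?_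
    rw [mul_assoc, ← ctr_comm hz, ← mul_assoc, mul_assoc (x j), ← ctr_comm hz, h6, mul_zero,
      zero_mul]
  have hc := h.isPBlock_ib le_rfl
  have hce : mp ℭ[P].subtype (eps M (ib P e ℭ[P])) = e :=
    (epsIn_eq_mp _ _).symm.trans (h.sub_ib le_rfl).nsub_of_eq
  let U := Subalgebra.toSubmodule (Ctr (Res M) G) ⊓ cor (Res M) (eps M B)
  let W := Subalgebra.toSubmodule (Ctr (Res M) ℭ[P]) ⊓ cor (Res M) (eps M (ib P e ℭ[P]))
  have h7 : ∀ a ∈ Ctr (Res M) ℭ[P], a * eps M (ib P e ℭ[P]) ∈ W := fun a ha =>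
    ⟨(Ctr _ _).mul_mem ha (eps_mem_ctr _), by rw [← mul_assoc, ← ctr_comm ha, mul_assoc, hc.eps_mul_self],
      by rw [mul_assoc, hc.eps_mul_self]⟩
  let Ψ : U →ₗ[Res M] W := ((LinearMap.mulRight (Res M) (eps M (ib P e ℭ[P])) ∘ₗ
    restrictTo ℭ[P]).domRestrict U).codRestrict W fun z => h7 _ (restrictTo_mem_ctr _ z.2.1)
  have h8 : ∀ z : U, mp ℭ[P].subtype (Ψ z : (Res M)[ℭ[P]]) = br P z * e := fun z => by
    change mp _ (restrictTo _ (z : (Res M)[G]) * _) = _
    rw [map_mul, hce, ← restrictTo_br_centralizer, mp_restrictTo (br_mem_Supp_centralizer _ _)]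
  have h9 : Function.Injective Ψ := (injective_iff_map_eq_zero _).2 fun z hz => Subtype.ext
    (h6 z z.2.1 z.2.2.1 (by rw [← h8, hz, Submodule.coe_zero, map_zero]))
  have h10 : finrank (Res M) W ≤ finrank (Res M) U := by
    refine ((finrank_ctr_le hc).trans (card_le_of_rank_one hM hc
      (h.lk_eq_one le_rfl inf_le_right))).trans ?_
    rw [h.blockDefect_ib le_rfl, ← hdim]
    refine LinearMap.finrank_le_finrank_of_surjective (f := ((LinearMap.mulRight (Res M)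
      (redAlg M y)).domRestrict U).codRestrict _ fun z => ⟨?_, ?_⟩) fun a => ?_
    · change _ * (z.1 * _) = z.1 * _
      rw [← mul_assoc, ← ctr_comm z.2.1, mul_assoc, hi]
    · change z.1 * _ * _ = z.1 * _
      rw [mul_assoc, hi]
    · obtain ⟨z, h4, h5, h6⟩ := h4 a
      exact ⟨⟨z, h4, h5, by rw [ctr_comm h4, h5]⟩, Subtype.ext (h6.trans ((mem_cor_iff hi).1 a.2))⟩
  have h11 := (LinearMap.injective_iff_surjective_of_finrank_eq_finrank
    (le_antisymm (LinearMap.finrank_le_finrank_of_injective h9) h10)).1 h9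
  intro t ht v hv
  obtain ⟨-, ht1, ht2⟩ := mem_pstab.1 ht
  obtain ⟨z, hz⟩ := h11 ⟨_, h7 (single ⟨v, h.ab hv⟩ 1) (mem_ctr_iff_Fix_top.2 fun c _ => by
    rw [cj_single, show c * ⟨v, h.ab hv⟩ = ⟨v, h.ab hv⟩ * c from Subtype.ext (c.2 v hv).symm,
      mul_inv_cancel_right])⟩
  have h12 : br P z * e = single v 1 * e := by
    rw [← h8, hz, map_mul, hce, mp_single]
    rfl
  have h13 := congrArg (cj t) h12
  rw [map_mul, map_mul, ht2, mem_Fix.1 (br_mem_Fix le_rfl (mem_Fix_of_ctr z.2.1 _)) t ht1, h12,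
    cj_single] at h13
  have h14 := eq_one_of_single_mul hM h.pair (mul_mem (inv_mem hv)
    ((Subgroup.mem_normalizer_iff.1 ht1 v).1 hv)) (by
      rw [← mul_one (1 : Res M), ← single_mul_single, mul_assoc, ← h13, ← mul_assoc,
        single_mul_single, inv_mul_cancel, mul_one, ← one_def, one_mul])
  rw [inv_mul_eq_one, eq_mul_inv_iff_mul_eq] at h14
  exact h14

theorem isNilp (h : AbS p M B P e) (hd : ∀ χ ∈ B, charDegree (χ : G → ℂ) = d) :
    IsNilpotentBlock p M B := h.isNilp_iff.2 (pstab_le h hd)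

theorem degree_eq_of_nilp (hM : IsPModular p M) (h : IsNilpotentBlock p M B) :
    ∃ d : ℕ, ∀ χ ∈ B, blockHeight p B (χ : G → ℂ) = 0 → charDegree (χ : G → ℂ) = d := by
  obtain ⟨χ₀, h₀, h1⟩ := Om.exists_height_zero (p := p) h.1.nonempty
  have h2 : ∀ χ ∈ B, blockHeight p B (χ : G → ℂ) = 0 → ∀ ψ ∈ B,
      charDegree (χ : G → ℂ) ∣ charDegree (ψ : G → ℂ) := fun χ hχ h0 ψ hψ => by
    obtain ⟨d, hd⟩ := h.exists_nat_mul hM hχ h0 hψ
    refine ⟨d, Nat.cast_injective (R := ℂ) ?_⟩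
    rw [Nat.cast_mul, χ.2.isCharacter.coe_charDegree, ψ.2.isCharacter.coe_charDegree, mul_comm]
    exact hd 1 (by rw [orderOf_one]; exact hp.out.not_dvd_one)
  exact ⟨_, fun χ hχ h0 => Nat.dvd_antisymm (h2 χ hχ h0 χ₀ h₀) (h2 χ₀ h₀ h1 χ hχ)⟩

end Main

section Normal

variable {G K : Type*} [Group G] [Fintype G] [Group K] [Fintype K] {p : ℕ} [hp : Fact p.Prime]
  {M : Ideal AlgInt} [M.IsMaximal] {B : Set (IrrCharacter G)} {D : Subgroup G} {e : (Res M)[G]}
  {d : ℕ} {φ : G →* K}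

theorem sub_mul_ne_zero {k : Type*} [Field k] [CharP k p] {N Q P : Subgroup G} {f e : k[G]}
    (h : Mod.Sub p N Q f P e) (he : IsPair p N P e) : f * e ≠ 0 := by
  refine h.induction_on (motive := fun _ f => f * e ≠ 0) (by rw [he.idem]; exact he.ne_zero)
    fun Q f R g h1 h2 h3 h4 => h3 ?_
  have h5 := congrArg (br R) h4
  rw [br_mul_of_Supp_right _ (Supp_mono (Subgroup.centralizer_le h2.le) he.supp_centralizer),
    map_zero] at h5
  have h6 := comm_of_Fix_Supp h1.right.fix_cen (Supp_mono (cen_anti N h2.le) he.supp)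
  rw [← h1.eq, mul_assoc, h6, ← mul_assoc, h5, zero_mul]

theorem mem_centralizer_of_regular (hD : IsPGroup p D) (hker : φ.ker = ⁅D, D⁆) {x : G}
    (hx : ¬ p ∣ orderOf x) (h : x ∈ ℭ[D.map φ].comap φ) : x ∈ ℭ[D] := by
  haveI := hD.isNilpotent
  refine CopAct.le_centralizer_of_commutator_le_frattini' (A := Subgroup.zpowers x) ?_
    (le_trans (Subgroup.commutator_le.2 fun g hg a ha => ?_)
      (hker.le.trans (commutator_self_le_map_frattini D))) (Subgroup.mem_zpowers x)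
  · obtain ⟨n, hn⟩ := hD.exists_card_eq
    rw [Nat.card_zpowers, hn]
    exact ((hp.out.coprime_iff_not_dvd.2 hx).symm).pow_right n
  · rw [MonoidHom.mem_ker, map_commutatorElement, commutatorElement_eq_one_iff_mul_comm]
    exact (Subgroup.zpowers_le.2 h) ha _ ⟨g, hg, rfl⟩

theorem pstab_le_comap (hM : IsPModular p M) (hB : IsPBlock M B) [D.Normal]
    (hmax : IsMaxPair p ⊤ ⊤ (eps M B) D e) (hφ : Function.Surjective φ) (hker : φ.ker = ⁅D, D⁆)
    (hd : ∀ χ ∈ B, blockHeight p B (χ : G → ℂ) = 0 → charDegree (χ : G → ℂ) = d) :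
    pstab ⊤ D e ≤ ℭ[D.map φ].comap φ := by
  haveI := hM.charP
  have hp' := hmax.pair.pgroup
  have hD := (hB.isDefectGroup_iff_isDef hM).2 (hmax.isDef (NIn.refl ⊤) hB.isPrim_ZA_top)
  haveI := Subgroup.Normal.map ‹D.Normal› φ hφ
  have hab : D.map φ ≤ ℭ[D.map φ] := by
    rintro _ ⟨a, ha, rfl⟩ _ ⟨b, hb, rfl⟩
    rw [← commutatorElement_eq_one_iff_mul_comm, ← map_commutatorElement, ← MonoidHom.mem_ker, hker]
    exact Subgroup.commutator_mem_commutator hb ha
  set C := ℭ[D.map φ].comap φ with hC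
  have h1 : ℭ[D] ≤ C := fun x hx => by
    rintro _ ⟨a, ha, rfl⟩
    rw [← map_mul, hx a ha, map_mul]
  have h2 : D ≤ C := Subgroup.map_le_iff_le_comap.1 hab
  have h3 : ∀ (H : Subgroup G) [H.Normal] (L : Subgroup G), L ≤ Subgroup.normalizer (H : Set G) :=
    fun H _ L => le_top.trans (Subgroup.normalizer_eq_top H).ge
  obtain ⟨e', he', h4⟩ := exists_prim_mul_ne_zero (NIn.refl C).isComm hmax.pair.ne_zero
  have h5 : e' * e = e := hmax.pair.mul_eq_of_ne_zero (by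
    rw [cen_top]
    exact mem_ZA.2 ⟨mem_Supp_centralizer_of_idem_ZA hp' h2 le_rfl (h3 _ _) he'.mem he'.idem,
      Fix_anti h1 (mem_ZA.1 he'.mem).2⟩) he'.idem h4
  have h6 : eps M B ∈ Supp ℭ[D] := mem_Supp_centralizer_of_idem_ZA hp' le_top le_rfl (h3 _ _)
    hB.isPrim_ZA_top.mem hB.eps_mul_self
  have h7 : eps M B * e' = e' := he'.mul_eq_of_ne_zero
    (mem_ZA.2 ⟨Supp_mono h1 h6, mem_Fix_of_ctr (eps_mem_ctr B) _⟩) hB.eps_mul_self fun h => by
      have := hmax.eq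
      rw [br_eq_self h6, ← h5, ← mul_assoc, h, zero_mul, h5] at this
      exact hmax.pair.ne_zero this.symm
  obtain ⟨c, hc, rfl⟩ := isPrim_ZA_iff.1 he'
  have hR : RegCen p (φ.subgroupComap ℭ[D.map φ]) := by
    have h8 : (φ.subgroupComap ℭ[D.map φ]).ker ≤ D.subgroupOf C := fun x hx =>
      Subgroup.commutator_le_left D D (hker.le (congrArg Subtype.val hx))
    exact ⟨φ.subgroupComap_surjective_of_surjective _ hφ, (hp'.comap_subtype).to_le h8,
      fun x hx y hy => Subtype.ext (mem_centralizer_of_regular hp' hker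
        (by rwa [Subgroup.orderOf_coe]) x.2 y (h8 hy))⟩
  have h8 : epsIn M _ (infl _ hR.surj ⁻¹' c) = mp φ (epsIn M C c) := by
    rw [epsIn_eq_mp, epsIn_eq_mp, ← hc.isBlockUnion.mp_eps, mp_comp, mp_comp]
    rfl
  have h9 := isPair_epsIn (hp'.map φ) (hR.isPBlock_preimage hM hc)
  rw [h8] at h9
  obtain ⟨b', hb', h10⟩ := h9.exists_isPairOf (NIn.refl ⊤) le_top
  obtain ⟨b, hb, rfl⟩ := isPrim_ZA_top_iff.1 hb'
  have h11 : b ⊆ infl φ hφ ⁻¹' B := by
    refine (((hB.isBlockUnion.preimage_infl hφ).subset_or_disjoint hb).resolve_right fun h => ?_)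
    have h11 := hb.isBlockUnion.eps_mul_eps (hB.isBlockUnion.preimage_infl hφ)
    rw [h.inter_eq, eps_empty, ← hB.isBlockUnion.mp_eps] at h11
    have h12 := h10.eq
    rw [br_eq_self (mem_Supp_centralizer_of_idem_ZA h9.pgroup le_top le_rfl
      (le_top.trans (Subgroup.normalizer_eq_top _).ge) hb'.mem hb'.idem), ← h7, map_mul,
      ← mul_assoc, h11, zero_mul, ← map_mul, h7] at h12
    exact h9.ne_zero h12.symm
  obtain ⟨D', hD'⟩ := hb.exists_isDefectGroup p
  obtain ⟨P, hP, h12⟩ := hD'.exists_le_map hM hφ hb hB h11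
  obtain ⟨x, rfl⟩ := hD.exists_conj_eq hM hB hP
  rw [Tr.map_conj_eq_of_mem (h3 D ⊤ (Subgroup.mem_top x))] at h12
  have h13 := pstab_le (d := d) ⟨hM, hb, h10.isMaxPair_of_card_le (NIn.refl ⊤) hb'
    (hD'.isDef hM hb) (Subgroup.card_le_of_le h12), hab⟩ fun ψ hψ => by
      rw [← charDegree_infl hφ]
      have hψ' : infl φ hφ ψ ∈ B := h11 hψ
      refine hd _ hψ' ((Om.blockHeight_eq_zero_iff hψ').2 (le_antisymm ?_ (Om.minVal_le hψ')))
      rw [Om.minVal_eq_factorization_index hM hB hD]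
      refine (Nat.factorization_le_iff_dvd (infl φ hφ ψ).2.charDegree_pos.ne'
        Subgroup.index_ne_zero_of_finite).2 ((infl φ hφ ψ).2.charDegree_dvd_index_of_commutator D
          fun a ha b hb => ?_) p
      rw [infl_apply, infl_apply, map_one, ← commutatorElement_def,
        hker.ge (Subgroup.commutator_mem_commutator ha hb)]
  intro t ht
  obtain ⟨-, -, ht2⟩ := mem_pstab.1 ht
  refine h13 (mem_pstab.2 ⟨trivial, (Subgroup.normalizer_eq_top _).ge trivial, ?_⟩)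
  rw [cj_mp, (he'.conj_of_normalizer (h3 C ⊤ trivial) (h3 C ⊤ trivial)).eq_of_mul_ne_zero
    (NIn.refl C).isComm he' fun h => hmax.pair.ne_zero ?_]
  rw [← ht2, ← h5, map_mul, ht2, ← h5, ← mul_assoc, h, zero_mul]

theorem isNilp_of_normal (hM : IsPModular p M) (hB : IsPBlock M B) [D.Normal]
    (hD : IsDefectGroup p M B D)
    (hd : ∀ χ ∈ B, blockHeight p B (χ : G → ℂ) = 0 → charDegree (χ : G → ℂ) = d) :
    IsNilpotentBlock p M B := by
  haveI := hM.charP
  haveI := Fintype.ofFinite (G ⧸ ⁅D, D⁆)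
  refine (isNilpotentBlock_iff hM).2 ⟨hB, fun Q f hf x hx ho => ?_⟩
  obtain ⟨P, e, hmax, hs⟩ := hf.exists_isMaxPair (NIn.refl ⊤) hB.isPrim_ZA_top
  have h3 : ∀ (H : Subgroup G) [H.Normal] (x : G), x ∈ Subgroup.normalizer (H : Set G) :=
    fun H _ x => (Subgroup.normalizer_eq_top H).ge trivial
  obtain ⟨g, -, rfl⟩ := (hD.isDef hM hB).exists_conj_eq (hmax.isDef (NIn.refl ⊤) hB.isPrim_ZA_top)
  rw [Tr.map_conj_eq_of_mem (h3 D g)] at hmax hs
  obtain ⟨-, hx1, hx2⟩ := mem_pstab.1 hx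
  have h1 := sub_mul_ne_zero hs hmax.pair
  haveI : (cen[⊤] D).Normal := by rw [cen_top]; infer_instance
  obtain ⟨c, hc, h2⟩ := Cov.exists_cj_of_mul_ne_zero ⟨cen_anti ⊤ hs.le, fun y _ => h3 _ y⟩
    hf.pair.prim hmax.pair.prim (hmax.pair.prim.conj_of_normalizer (h3 _ x) (h3 _ x)) h1
    (by rwa [← hx2, ← map_mul, cj_ne_zero])
  have h4 := pstab_le_comap hM hB hmax (QuotientGroup.mk'_surjective ⁅D, D⁆)
    (QuotientGroup.ker_mk' _) hd (mem_pstab.2 ⟨trivial, h3 D (c⁻¹ * x), by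
      rw [cj_mul, ← h2, cj_inv_cj]⟩)
  obtain ⟨u, hu⟩ := exists_isPPart hp.out (c⁻¹ * x)
  have h5 := Subgroup.centralizer_le hs.le (mem_centralizer_of_regular hD.isPGroup
    (QuotientGroup.ker_mk' _) hu.not_dvd_orderOf_inv_mul
      (Subgroup.zpowers_le.2 h4 (hu.inv_mul_mem_zpowers hp.out)))
  have h6 := Subgroup.zpowers_le.2 (mul_mem (inv_mem (centralizer_le_normalizer' Q hc.2)) hx1)
    (hu.mem_zpowers hp.out)
  obtain ⟨n, hn⟩ := hu.exists_orderOf
  refine mem_centralizer_of_inner (IsPGroup.of_card ((Nat.card_zpowers u).trans hn)) hx1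
    (Subgroup.mem_zpowers u) ?_ ho
  rw [show u⁻¹ * x = u⁻¹ * c * u⁻¹⁻¹ * (u⁻¹ * (c⁻¹ * x)) by group]
  exact mul_mem ((conj_mem_centralizer_iff (inv_mem h6) c).2 hc.2) h5

end Normal

end Cfsg.Agent.Blk.OT
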