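import Mathlib
import Cfsg.Agent.Blk.PB
import Cfsg.Agent.Blk.Star
import Cfsg.Agent.Blk.Contrib2

/-!
Indicator functions of `p`-sections lie in the span of the principal block; consequently, if the
principal `p`-block and the principal `q`-block meet only in the principal character, the
`p`-sections and the set of `q`-regular elements are independent.
-/

set_option autoImplicit false
open Cfsg Cfsg.Agent.Ch

namespace Cfsg.Agent.Blk.SecInd

variable {G : Type*} [Group G] [Fintype G] {p q : ℕ}

open Classical in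
/-- `#C(u)` times the indicator of the `p`-section of `u`. -/
noncomputable def wt (p : ℕ) (u g : G) : ℂ := ∑ a : G, if a * u * a⁻¹ = pp p g then 1 else 0

open Classical in
theorem sum_wt (hp : p.Prime) (u : G) {F : G → ℂ} (hF : IsClassFunction G F) :
    ∑ g, wt p u g * F g = Fintype.card G * ∑ g, if pp p g = u then F g else 0 := by
  simp only [wt, Finset.sum_mul]
  rw [Finset.sum_comm]
  have h : ∀ a : G, (∑ g, (if a * u * a⁻¹ = pp p g then (1 : ℂ) else 0) * F g) =
      ∑ g, if pp p g = u then F g else 0 := by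
    intro a
    rw [← (MulAut.conj a).toEquiv.sum_comp]
    refine Finset.sum_congr rfl fun g _ => ?_
    change (if a * u * a⁻¹ = pp p (a * g * a⁻¹) then (1 : ℂ) else 0) * F (a * g * a⁻¹) = _
    rw [pp_conj hp, hF g a]
    by_cases h : pp p g = u
    · rw [if_pos (by rw [h]), if_pos h, one_mul]
    · rw [if_neg (fun h' => h (by simpa using h'.symm)), if_neg h, zero_mul]
  rw [Finset.sum_congr rfl fun a _ => h a, Finset.sum_const, Finset.card_univ, nsmul_eq_mul]

theorem wt_congr (u : G) {g h : G} (hc : IsConj (pp p g) (pp p h)) : wt p u g = wt p u h := by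
  classical
  obtain ⟨c, hc⟩ := isConj_iff.1 hc
  unfold wt
  rw [← Equiv.sum_comp (Equiv.mulLeft c) (fun a => if a * u * a⁻¹ = pp p h then (1 : ℂ) else 0)]
  refine Finset.sum_congr rfl fun a _ => ?_
  simp only [Equiv.coe_mulLeft]
  rw [← hc]
  congr 1
  apply propext
  constructor
  · intro h'
    rw [← h']
    group
  · intro h'
    have : c * (a * u * a⁻¹) * c⁻¹ = c * pp p g * c⁻¹ := by
      rw [← h']
      group
    simpa using this

/-- A function constant on `p`-sections is reproduced by the kernel of the principal block. -/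
theorem sum_kernel {M : Ideal AlgInt} (hM : IsPModular p M) {W : G → ℂ}
    (hW : ∀ g h : G, IsConj (pp p g) (pp p h) → W g = W h) (h : G) :
    ∑ χ ∈ PB.pb M G, (∑ g, W g * (χ : G → ℂ) g) * (χ : G → ℂ) h⁻¹ = Fintype.card G * W h := by
  classical
  have hp := hM.prime
  have h1 : ∑ χ ∈ PB.pb M G, (∑ g, W g * (χ : G → ℂ) g) * (χ : G → ℂ) h⁻¹ =
      ∑ g, W g * ∑ χ ∈ PB.pb M G, (χ : G → ℂ) g * (χ : G → ℂ) h⁻¹ := by
    simp only [Finset.sum_mul, Finset.mul_sum]
    rw [Finset.sum_comm]
    simp only [mul_assoc]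
  have h2 : ∀ g, W g * ∑ χ ∈ PB.pb M G, (χ : G → ℂ) g * (χ : G → ℂ) h⁻¹ =
      W h * ∑ χ ∈ PB.pb M G, (χ : G → ℂ) g * (χ : G → ℂ) h⁻¹ := by
    intro g
    by_cases hc : IsConj (pp p g) (pp p h)
    · rw [hW g h hc]
    · rw [PB.sum_mul_inv_eq_zero hM (isPPart_pp hp g) (isPPart_pp hp h) hc, mul_zero, mul_zero]
  rw [h1, Finset.sum_congr rfl fun g _ => h2 g, ← Finset.mul_sum, Finset.sum_comm,
    Finset.sum_eq_single (irrOne G)]
  · simp [mul_comm]
  · intro χ _ hχ
    rw [← Finset.sum_mul, χ.2.sum_eq_zero (fun h' => hχ (Subtype.ext h')), zero_mul]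
  · intro h'
    exact absurd (PB.one_mem_pb hM) h'

open Classical in
/-- Independence of the `p`-sections and the `q`-regular elements. -/
theorem card_mul {M M' : Ideal AlgInt} (hM : IsPModular p M) (hM' : IsPModular q M')
    (H : ∀ χ : IrrCharacter G, χ ∈ principalBlock M G → χ ∈ principalBlock M' G →
      (χ : G → ℂ) = fun _ => 1) (u : G) :
    (Finset.univ.filter fun g : G => pp p g = u).card *
        (Finset.univ.filter fun g : G => ¬ q ∣ orderOf g).card =
      Fintype.card G *
        (Finset.univ.filter fun g : G => pp p g = u ∧ ¬ q ∣ orderOf g).card := by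
  have hp := hM.prime
  have hG : (Fintype.card G : ℂ) ≠ 0 := Nat.cast_ne_zero.2 Fintype.card_ne_zero
  set F : G → ℂ := fun h => if q ∣ orderOf h then 0 else 1 with hFdef
  have hF : IsClassFunction G F := by
    intro g a
    have : orderOf (a * g * a⁻¹) = orderOf g := (MulAut.conj a).orderOf_eq g
    simp only [hFdef, this]
  have key : ∑ h, F h * ∑ χ ∈ PB.pb M G, (∑ g, wt p u g * (χ : G → ℂ) g) * (χ : G → ℂ) h⁻¹ =
      ∑ h, F h * (Fintype.card G * wt p u h) :=
    Finset.sum_congr rfl fun h _ => by rw [sum_kernel hM (fun g h hc => wt_congr u hc) h]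
  have hl : ∑ h, F h * ∑ χ ∈ PB.pb M G, (∑ g, wt p u g * (χ : G → ℂ) g) * (χ : G → ℂ) h⁻¹ =
      (∑ g, wt p u g * 1) * ∑ h, F h := by
    simp only [Finset.mul_sum (s := PB.pb M G)]
    rw [Finset.sum_comm, Finset.sum_eq_single (irrOne G)]
    · rw [Finset.mul_sum]
      refine Finset.sum_congr rfl fun h _ => ?_
      simp [mul_comm]
    · intro χ hχ hne
      have hn : χ ∉ principalBlock M' G := fun h' =>
        hne (Subtype.ext (H χ (PB.mem_pb.1 hχ) h'))
      rw [PB.mem_principal_iff_sum hM', not_not] at hn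
      have h3 : ∑ h, F h * (χ : G → ℂ) h⁻¹ = 0 := by
        rw [← hn, ← Equiv.sum_comp (Equiv.inv G)]
        refine Finset.sum_congr rfl fun h _ => ?_
        simp only [Equiv.inv_apply, inv_inv, hFdef, orderOf_inv, pRegularPart_apply]
        split_ifs <;> simp
      calc ∑ h, F h * ((∑ g, wt p u g * (χ : G → ℂ) g) * (χ : G → ℂ) h⁻¹)
          = (∑ g, wt p u g * (χ : G → ℂ) g) * ∑ h, F h * (χ : G → ℂ) h⁻¹ := by
            rw [Finset.mul_sum]
            exact Finset.sum_congr rfl fun h _ => by ring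
        _ = 0 := by rw [h3, mul_zero]
    · intro h'
      exact absurd (PB.one_mem_pb hM) h'
  have hr : ∑ h, F h * (Fintype.card G * wt p u h) = Fintype.card G * ∑ h, wt p u h * F h := by
    rw [Finset.mul_sum]
    exact Finset.sum_congr rfl fun h _ => by ring
  rw [hl, hr, sum_wt hp u hF, sum_wt hp u (F := fun _ => 1) (IsClassFunction.const 1),
    mul_assoc] at key
  have key2 := mul_left_cancel₀ hG key
  have e1 : (∑ g : G, if pp p g = u then (1 : ℂ) else 0) =
      (Finset.univ.filter fun g : G => pp p g = u).card := by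
    rw [Finset.card_filter]; push_cast; rfl
  have e2 : ∑ h, F h = (Finset.univ.filter fun g : G => ¬ q ∣ orderOf g).card := by
    rw [Finset.card_filter]; push_cast
    refine Finset.sum_congr rfl fun h _ => ?_
    simp only [hFdef]
    split_ifs <;> rfl
  have e3 : (∑ g : G, if pp p g = u then F g else 0) =
      (Finset.univ.filter fun g : G => pp p g = u ∧ ¬ q ∣ orderOf g).card := by
    rw [Finset.card_filter]; push_cast
    refine Finset.sum_congr rfl fun h _ => ?_
    simp only [hFdef]
    by_cases h1 : pp p h = u <;> by_cases h2 : q ∣ orderOf h <;> simp [h1, h2]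
  rw [e1, e2, e3] at key2
  exact_mod_cast key2

open Classical in
theorem pow_dvd_card {M M' : Ideal AlgInt} (hM : IsPModular p M) (hM' : IsPModular q M')
    (H : ∀ χ : IrrCharacter G, χ ∈ principalBlock M G → χ ∈ principalBlock M' G →
      (χ : G → ℂ) = fun _ => 1) (u : G) {k : ℕ} (hk : q ^ k ∣ Nat.card G) :
    q ^ k ∣ (Finset.univ.filter fun g : G => pp p g = u).card := by
  have hq := hM'.prime
  have h1 := Om.not_dvd_card_pRegular (G := G) hq
  rw [Nat.card_eq_fintype_card, Fintype.card_subtype] at h1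
  have h2 := card_mul hM hM' H u
  rw [Nat.card_eq_fintype_card] at hk
  refine ((hq.coprime_iff_not_dvd.2 h1).pow_left k).dvd_of_dvd_mul_right ?_
  rw [h2]
  exact hk.mul_right _

end Cfsg.Agent.Blk.SecInd
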