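import Mathlib
import Cfsg.Agent.GT.FrobeniusComplement
import Cfsg.Agent.NT.Zsigmondy
import Cfsg.Agent.Perm.FixTools
import Cfsg.Agent.FG.CoverConj

/-! Transitive linear groups with at most two good classes. -/

set_option autoImplicit false
set_option linter.unusedSectionVars false
open Cfsg

namespace Cfsg.Agent.Blk.Three

open Subgroup Function Cfsg.Agent.GT.Frob

theorem ne_sq_add_sq (j : ℕ) : ∀ {c u v : ℤ}, c % 4 = 3 → 2 ^ j * c ≠ u ^ 2 + v ^ 2 := by
  have h3 : ∀ c : ℤ, c ^ 2 % 4 = 0 ∨ c ^ 2 % 4 = 1 := fun c => by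
    rcases Int.even_or_odd' c with ⟨d, rfl | rfl⟩
    · left; ring_nf; omega
    · right; ring_nf; omega
  induction j with
  | zero =>
    intro c u v hc h
    have := h3 u
    have := h3 v
    omega
  | succ j ih =>
    intro c u v hc h
    obtain ⟨d, hd⟩ : ∃ d, u - v = 2 * d := by
      rcases Int.even_or_odd' (u - v) with ⟨d, hd | hd⟩
      · exact ⟨d, hd⟩
      · obtain rfl : u = v + 2 * d + 1 := by omega
        have : (v + 2 * d + 1) ^ 2 + v ^ 2 = 2 * (v ^ 2 + 2 * d ^ 2 + 2 * v * d + v + 2 * d) + 1 := by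
          ring
        rw [this, pow_succ, mul_comm _ 2, mul_assoc] at h
        omega
    obtain rfl : u = v + 2 * d := by omega
    exact ih (u := v + d) (v := d) hc (by rw [pow_succ] at h; linarith)

theorem mul_sq_ne {j c s u v : ℕ} (hc : c % 4 = 3) (hs : s ≠ 0) :
    2 ^ j * c * s ^ 2 ≠ u ^ 2 + v ^ 2 := by
  obtain ⟨i, t, ⟨w, rfl⟩, rfl⟩ := Nat.exists_eq_two_pow_mul_odd hs
  intro h
  refine ne_sq_add_sq (j + 2 * i) (c := c * (2 * w + 1) ^ 2) (u := u) (v := v) ?_ ?_
  · have : (c : ℤ) * (2 * w + 1) ^ 2 = c + 4 * (c * (w ^ 2 + w)) := by ring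
    omega
  · have := congrArg (Nat.cast : ℕ → ℤ) h
    push_cast at this
    rw [← this]
    ring

variable {V E : Type*} [CommGroup V] [Finite V] [Group E] [Finite E] [MulDistribMulAction E V]

omit [Finite E] in
theorem good_of_fpf [Nontrivial V] {x : E}
    (h : ∀ c, x * c = c * x → c ≠ 1 → ∀ v : V, c • v = v → v = 1) (c : E) (hc : x * c = c * x) :
    ∃ g, x ∈ zpowers g ∧ c ∈ zpowers g := by
  have hA : closure {x, c} ≤ centralizer {x} := (closure_le _).2 (by
    rintro y (rfl | rfl)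
    exacts [mem_centralizer_singleton_iff.2 rfl, mem_centralizer_singleton_iff.2 hc.symm])
  have h1 := hasFpfAction_of_finite ((MulDistribMulAction.toMulAut E V).comp
    (closure {x, c}).subtype) fun a ha v hv =>
      h a (mem_centralizer_singleton_iff.1 (hA a.2)).symm (fun e => ha (Subtype.ext e)) v hv
  have : IsMulCommutative (closure {x, c}) := isMulCommutative_closure (by
    rintro y (rfl | rfl) z (rfl | rfl)
    exacts [rfl, hc, hc.symm, rfl])
  obtain ⟨g, hg⟩ := h1.isCyclic_of_comm.exists_generator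
  obtain ⟨i, hi⟩ := hg ⟨x, subset_closure (by simp)⟩
  obtain ⟨j, hj⟩ := hg ⟨c, subset_closure (by simp)⟩
  exact ⟨g, ⟨i, congrArg Subtype.val hi⟩, j, congrArg Subtype.val hj⟩

theorem le_card_pairs (F : Set E) (hF : (1 : E) ∉ F) :
    Nat.card E + 2 * Nat.card F ≤
      Nat.card {y : E × E // (y.1 = 1 ∨ y.1 ∈ F) ∧ y.1 * y.2 = y.2 * y.1} := by
  have h := Nat.card_le_card_of_injective (α := E ⊕ F ⊕ F)
    (β := {y : E × E // (y.1 = 1 ∨ y.1 ∈ F) ∧ y.1 * y.2 = y.2 * y.1})
    (Sum.elim (fun y => ⟨(1, y), Or.inl rfl, by simp⟩) (Sum.elim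
      (fun x => ⟨(x, 1), Or.inr x.2, by simp⟩) fun x => ⟨(x, x), Or.inr x.2, rfl⟩)) (by
    have h1 : ∀ x : F, (x : E) ≠ 1 := fun x e => hF (e ▸ x.2)
    rintro (a | a | a) (b | b | b) e <;>
      simp only [Sum.elim_inl, Sum.elim_inr, Subtype.mk.injEq, Prod.mk.injEq] at e
    · rw [e.2]
    · exact absurd e.1.symm (h1 b)
    · exact absurd e.1.symm (h1 b)
    · exact absurd e.1 (h1 a)
    · rw [Subtype.ext e.1]
    · exact absurd e.2.symm (h1 b)
    · exact absurd e.1 (h1 a)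
    · exact absurd e.2 (h1 a)
    · rw [Subtype.ext e.1])
  simp only [Nat.card_sum] at h
  omega

/-- The fixed points of one element. -/
def fx (V : Type*) [CommGroup V] [MulDistribMulAction E V] (g : E) : Subgroup V :=
  (MulDistribMulAction.toMonoidHom V g).eqLocus (MonoidHom.id V)

omit [Finite V] [Finite E] in
theorem mem_fx {g : E} {v : V} : v ∈ fx V g ↔ g • v = v := Iff.rfl

theorem card_eq_mul (htr : ∀ v w : V, v ≠ 1 → w ≠ 1 → ∃ e : E, e • v = w) {v : V} (hv : v ≠ 1) :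
    Nat.card E = Nat.card (MulAction.stabilizer E v) * (Nat.card V - 1) := by
  rw [← (MulAction.stabilizer E v).card_mul_index, MulAction.index_stabilizer]
  congr 1
  have : MulAction.orbit E v = {1}ᶜ := by
    ext w
    refine ⟨?_, fun hw => htr v w hv hw⟩
    rintro ⟨e, rfl⟩ h
    exact hv ((smul_eq_iff_eq_inv_smul e).1 h |>.trans (smul_one _))
  rw [this, Set.ncard_compl, Set.ncard_singleton]

theorem card_le_three {p : ℕ} [hp : Fact p.Prime] (hV : IsPGroup p V)
    (hf : ∀ e : E, (∀ v : V, e • v = v) → e = 1) (hE : ¬ p ∣ Nat.card E)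
    (htr : ∀ v w : V, v ≠ 1 → w ≠ 1 → ∃ e : E, e • v = w) {a : ℕ} (ha : a ≤ 2)
    (ha16 : Nat.card E = 16 → a ≤ 1)
    (hG : ∀ S : E → Prop, (∀ x, S x → ∀ c, x * c = c * x → ∃ g, x ∈ zpowers g ∧ c ∈ zpowers g) →
      Nat.card {y : E × E // S y.1 ∧ y.1 * y.2 = y.2 * y.1} ≤ a * Nat.card E)
    (hR : ∀ (r : ℕ) [Fact r.Prime], r ≠ 2 → r ∣ Nat.card E → ∀ R : Sylow r E, ¬ IsCyclic R)
    {s u w : ℕ} (hs : s ≠ 0) (hsq : (Nat.card V - 1) * s ^ 2 = u ^ 2 + w ^ 2) :
    Nat.card V ≤ 3 := by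
  by_contra hq
  have : Nontrivial V := Finite.one_lt_card_iff_nontrivial.1 (by omega)
  obtain ⟨v, hv⟩ := exists_ne (1 : V)
  have h0 := card_eq_mul htr hv
  have hpos : 0 < Nat.card E := Nat.card_pos
  have hF : ∀ F : Set E, (1 : E) ∉ F → (∀ x ∈ F, ∀ c, x * c = c * x → c ≠ 1 → ∀ v : V,
      c • v = v → v = 1) → Nat.card E + 2 * Nat.card F ≤ a * Nat.card E := fun F h1 h2 =>
    (le_card_pairs F h1).trans (hG (fun x => x = 1 ∨ x ∈ F) fun x hx c hc => by
      rcases hx with rfl | hx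
      exacts [⟨c, one_mem _, mem_zpowers c⟩, good_of_fpf (h2 x hx) c hc])
  have hnf : ¬ ∀ c : E, c ≠ 1 → ∀ v : V, c • v = v → v = 1 := fun h => by
    have h1 := hF {1}ᶜ (by simp) fun _ _ c _ => h c
    rw [Nat.card_coe_set_eq, Set.ncard_compl, Set.ncard_singleton] at h1
    have h2 := Nat.mul_le_mul_right (Nat.card E) ha
    have h3 := Nat.le_of_dvd hpos (Dvd.intro_left _ h0.symm)
    omega
  obtain ⟨n, hn⟩ := hV.exists_card_eq
  have hfx : ∀ c : E, c ≠ 1 → ∃ j < n, Nat.card (fx V c) = p ^ j := fun c hc => by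
    obtain ⟨j, hj, h1⟩ := (Nat.dvd_prime_pow hp.out).1 (hn ▸ card_subgroup_dvd_card (fx V c))
    refine ⟨j, hj.lt_of_ne fun e => hc (hf c fun v => ?_), h1⟩
    rw [← mem_fx, eq_top_of_card_eq _ (h1.trans (e ▸ hn.symm))]
    trivial
  have hbot : ∀ c : E, Nat.card (fx V c) = p ^ 0 → ∀ v : V, c • v = v → v = 1 := fun c h v hv => by
    rwa [← mem_fx, card_eq_one.1 h, mem_bot] at hv
  by_cases hn1 : n ≤ 1
  · refine hnf fun c hc => ?_
    obtain ⟨j, hj, h1⟩ := hfx c hc
    exact hbot c (by rw [h1, show j = 0 by omega])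
  by_cases h6 : p = 2 ∧ n = 6
  · obtain ⟨rfl, rfl⟩ := h6
    rw [hn] at hsq
    exact mul_sq_ne (j := 0) (c := 63) rfl hs (by simpa using hsq)
  by_cases h2 : n = 2 ∧ ∃ m, p + 1 = 2 ^ m
  · obtain ⟨rfl, m, hm⟩ := h2
    have hp2 := hp.out.two_le
    by_cases hm3 : 3 ≤ m
    · obtain ⟨m, rfl⟩ := Nat.exists_eq_add_of_le' hm3
      obtain ⟨d, hd⟩ := Nat.exists_eq_add_of_le' (Nat.one_le_two_pow (n := m))
      refine mul_sq_ne (j := m + 4) (c := 4 * d + 3) (u := u) (v := w) (by omega) hs ?_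
      rw [← hsq, hn]
      congr 1
      obtain rfl : p = 8 * d + 7 := by rw [pow_add, hd] at hm; omega
      rw [pow_add, hd]
      exact (Nat.sub_eq_of_eq_add (by ring)).symm
    obtain rfl : p = 3 := by interval_cases m <;> omega
    have h3 : ∀ c : E, c ≠ 1 → ∀ v : V, v ≠ 1 → c • v = v →
        fx V c = zpowers v ∧ Nat.card (zpowers v) = 3 := fun c hc v hv h => by
      obtain ⟨j, hj, h1⟩ := hfx c hc
      have h4 : zpowers v ≤ fx V c := zpowers_le.2 h
      have h5 : 3 ≤ Nat.card (zpowers v) := by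
        rw [Nat.card_zpowers]
        exact Nat.le_of_dvd (orderOf_pos v) (hV.dvd_orderOf hv)
      have h6 := card_le_of_le h4
      have h7 : Nat.card (fx V c) ≤ 3 := by interval_cases j <;> omega
      exact ⟨(eq_of_le_of_card_ge h4 (by omega)).symm, by omega⟩
    rw [hn] at h0
    by_cases hs1 : Nat.card (MulAction.stabilizer E v) = 1
    · refine hnf fun c hc v' h => by_contra fun hv' => hc ?_
      have h4 := card_eq_mul htr hv'
      rw [hn, h0, hs1] at h4
      have h5 : MulAction.stabilizer E v' = ⊥ := card_eq_one.1 (by omega)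
      rwa [← MulAction.mem_stabilizer_iff, h5, mem_bot] at h
    obtain ⟨⟨c, hc⟩, hc1⟩ := ne_bot_iff_exists_ne_one.1 (mt card_eq_one.2 hs1)
    have hz := (h3 c (fun e => hc1 (Subtype.ext e)) v hv hc).2
    have hsm : ∀ (g : E) (x y : V), g • x ∈ zpowers y → ∀ z ∈ zpowers x, g • z ∈ zpowers y := by
      rintro g x y h _ ⟨i, rfl⟩
      exact (smul_zpow' g x i).symm ▸ zpow_mem h i
    have h4 := Perm.Fx.card_dvd_of_semiregular (MulAction.stabilizer E v) (zpowers v : Set V)ᶜ
      (fun h hh x hx e => hx (by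
        simpa using hsm h⁻¹ v v (by rw [(inv_mem hh : h⁻¹ • v = v)]; exact mem_zpowers v) _ e))
      fun h hh x hx e => by_contra fun h1 => hx (by
        rw [← (h3 h h1 v hv hh).1]; exact e)
    rw [Nat.card_coe_set_eq, Set.ncard_compl, hn, ← Nat.card_coe_set_eq, SetLike.coe_sort_coe,
      hz] at h4
    have h5 : Nat.card E = 16 := by
      have := Nat.le_of_dvd (by norm_num) h4
      generalize Nat.card (MulAction.stabilizer E v) = t at *
      interval_cases t <;> omega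
    let H0 : Submonoid E := ⟨⟨{g | g • v ∈ zpowers v}, fun {a b} ha hb => by
      rw [Set.mem_setOf_eq, mul_smul]; exact hsm a v v ha _ hb⟩, by simp⟩
    let H : Subgroup E := ⟨H0, fun {g} hg => by
      rw [← (eq_inv_of_mul_eq_one_left (by
        rw [pow_sub_one_mul (orderOf_pos g).ne', pow_orderOf_eq_one]) :
          g ^ (orderOf g - 1) = g⁻¹)]
      exact H0.pow_mem hg _⟩
    obtain ⟨x, hx⟩ := FG.H96.exists_not_mem_conj H fun e => by
      have h6 : zpowers v = ⊤ := eq_top_iff.2 fun y _ => by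
        by_cases hy : y = 1
        · exact hy ▸ one_mem _
        · obtain ⟨g, rfl⟩ := htr v y hv hy
          exact (e ▸ mem_top g : g ∈ H)
      rw [h6, card_top, hn] at hz
      omega
    have h6 := hF {x} (fun e => hx 1 (by rw [← (e : 1 = x)]; exact one_mem _)) (by
      intro x' hx' c hxc hc1 y hy
      rw [(hx' : x' = x)] at hxc
      by_contra hy1
      obtain ⟨g, rfl⟩ := htr v y hv hy1
      refine hx g ⟨g⁻¹ * x * g, ?_, by simp [mul_assoc]⟩
      have h7 : x • g • v ∈ zpowers (g • v) := by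
        rw [← (h3 c hc1 _ hy1 hy).1, mem_fx, ← mul_smul, ← hxc, mul_smul, hy]
      change (g⁻¹ * x * g) • v ∈ zpowers v
      rw [mul_smul, mul_smul]
      exact hsm g⁻¹ _ v (by simp) _ h7)
    have h7 := Nat.mul_le_mul_right (Nat.card E) (ha16 h5)
    simp only [Nat.card_unique] at h6
    omega
  obtain ⟨r, hr, h3, -, h4⟩ := NT.zsigmondy' hp.out.one_lt (by omega) h6 h2
  have := Fact.mk hr
  obtain ⟨R⟩ : Nonempty (Sylow r E) := inferInstance
  refine hR r (by omega) (h0 ▸ hn ▸ ((h3 n).2 dvd_rfl).mul_left _) R ?_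
  have h5 : HasFpfAction R := hasFpfAction_of_finite ((MulDistribMulAction.toMulAut E V).comp
    (R : Subgroup E).subtype) fun c hc y hy => by
    obtain ⟨k, hk⟩ := IsPGroup.iff_orderOf.1 R.2 c
    obtain ⟨j, hj, h6⟩ := hfx c fun e => hc (Subtype.ext e)
    have h7 := (IsPGroup.of_card ((Nat.card_zpowers (c : E)).trans
      ((orderOf_coe c).trans hk))).card_modEq_card_fixedPoints V
    have h8 : Nat.card (MulAction.fixedPoints (zpowers (c : E)) V) = p ^ j := by
      rw [← h6]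
      refine Nat.card_congr (Equiv.subtypeEquivRight fun z => ⟨fun h => h ⟨_, mem_zpowers _⟩, ?_⟩)
      rintro h ⟨_, i, rfl⟩
      exact MulAction.mem_stabilizer_iff.1 (zpow_mem (show (c : E) ∈ MulAction.stabilizer E z
        from h) i)
    rw [h8, hn] at h7
    have h9 : r ∣ p ^ j * (p ^ (n - j) - 1) := by
      rw [Nat.mul_sub, ← pow_add, Nat.add_sub_cancel' hj.le, mul_one]
      exact (Nat.modEq_iff_dvd' (Nat.pow_le_pow_right hp.out.pos hj.le)).1 h7.symm
    have h10 : ¬ r ∣ p ^ j := fun e => by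
      obtain rfl := (Nat.prime_dvd_prime_iff_eq hr hp.out).1 (hr.dvd_of_dvd_pow e)
      have h11 := (Nat.dvd_sub_iff_right (Nat.one_le_pow _ _ hr.pos)
        (dvd_pow_self r (show n ≠ 0 by omega))).1 ((h3 n).2 dvd_rfl)
      exact hr.one_lt.ne' (Nat.dvd_one.1 h11)
    have h11 := Nat.le_of_dvd (by omega) ((h3 _).1 ((hr.dvd_mul.1 h9).resolve_left h10))
    exact hbot c (by rw [h6, show j = 0 by omega]) y hy
  exact (h5.isCyclic_or_quaternion R.2).resolve_right fun h => by omega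

end Cfsg.Agent.Blk.Three
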